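import Mathlib
import Cfsg.Prelude.Def_JordanBlocks
import Cfsg.Agent.Helper2.JordOrth
import Cfsg.Agent.Helper13.JordSymp
import Cfsg.Agent.Helper24.JordSymp

/-!
Forward direction of S2582 as a lemma (backup glue for the S2582 sprint): a unipotent Jordan type
similar to an element of `Sp_2m(F)` has every odd block size an even number of times.
Assembled from P1 (Helper2), R3 + R8 (Helper13), R4 (Helper24).
-/

set_option autoImplicit false

namespace Cfsg.Agent.Helper21

open Matrix

/-- Conjugate matrices (after reindexing) have the same ranks of powers of `X - 1`. -/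
theorem js21_rank_conj {F : Type*} [Field F] {ι κ : Type*} [Fintype ι] [DecidableEq ι]
    [Fintype κ] [DecidableEq κ] (e : ι ≃ κ) (J : Matrix ι ι F) (A : Matrix κ κ F)
    (hconj : IsConj (Matrix.reindex e e J) A) (k : ℕ) :
    ((A - 1) ^ k).rank = ((J - 1) ^ k).rank := by
  obtain ⟨c, hc⟩ := hconj
  have hc' : (c : Matrix κ κ F) * Matrix.reindex e e J = A * (c : Matrix κ κ F) := hc
  have hφ : Matrix.reindex e e J = Matrix.reindexAlgEquiv F F e J := by
    rw [Matrix.coe_reindexAlgEquiv]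
  have hs : SemiconjBy (c : Matrix κ κ F) (Matrix.reindexAlgEquiv F F e (J - 1)) (A - 1) := by
    show (c : Matrix κ κ F) * Matrix.reindexAlgEquiv F F e (J - 1) = (A - 1) * (c : Matrix κ κ F)
    rw [map_sub, map_one, ← hφ, Matrix.mul_sub, Matrix.sub_mul, hc', Matrix.mul_one,
      Matrix.one_mul]
  have hp := hs.pow_right k
  have hp' : (c : Matrix κ κ F) * Matrix.reindexAlgEquiv F F e ((J - 1) ^ k)
      = (A - 1) ^ k * (c : Matrix κ κ F) := by
    rw [map_pow]
    exact hp
  have hcu : IsUnit (c : Matrix κ κ F).det := (Matrix.isUnit_iff_isUnit_det _).1 c.isUnit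
  rw [← Matrix.rank_mul_eq_left_of_isUnit_det (c : Matrix κ κ F) ((A - 1) ^ k) hcu,
    ← hp', Matrix.rank_mul_eq_right_of_isUnit_det _ _ hcu, Matrix.coe_reindexAlgEquiv,
    Matrix.rank_reindex]

/-- Forward direction of S2582. -/
theorem js21_forward {F : Type*} [Field F] {m t : ℕ} (d : Fin t → ℕ)
    (h : ∃ e : ((k : Fin t) × Fin (d k)) ≃ (Fin m ⊕ Fin m),
      ∃ A : Matrix.symplecticGroup (Fin m) F,
        IsConj (Matrix.reindex e e (Cfsg.jordanTypeMatrix d F))
          (A : Matrix (Fin m ⊕ Fin m) (Fin m ⊕ Fin m) F)) :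
    ∀ j : ℕ, Odd j → Even (Finset.univ.filter (fun k : Fin t => d k = j)).card := by
  classical
  obtain ⟨e, A, hconj⟩ := h
  have hA : (A : Matrix (Fin m ⊕ Fin m) (Fin m ⊕ Fin m) F)ᵀ * Matrix.J (Fin m) F
      * (A : Matrix (Fin m ⊕ Fin m) (Fin m ⊕ Fin m) F) = Matrix.J (Fin m) F :=
    SymplecticGroup.mem_iff'.1 A.2
  have hJdet : (Matrix.J (Fin m) F).det ≠ 0 := (Matrix.isUnit_det_J (Fin m) F).ne_zero
  have hev : ∀ k, Even k → Even (∑ i, (d i - k)) := by
    intro k hk
    rw [← Cfsg.Agent.Helper2.jordanType_rank (F := F) d k, ← js21_rank_conj e _ _ hconj k]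
    exact Cfsg.Agent.Helper13.symp_rank_even _ _ (Cfsg.Agent.Helper13.J_alt m) hJdet hA k hk
  exact Cfsg.Agent.Helper24.count_even_of_rank_even_odd d hev

end Cfsg.Agent.Helper21
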