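import Mathlib
import Cfsg.Agent.Lead.NilBound

set_option autoImplicit false

namespace Cfsg.Agent.Helper21

open Nat in
theorem nb21_T_two_mul (k : ℕ) : (2 * k)!.factorization 2 = (k)!.factorization 2 + k :=
  Nat.factorization_factorial_mul Nat.prime_two

open Nat in
theorem nb21_T_mono {a b : ℕ} (h : a ≤ b) : (a)!.factorization 2 ≤ (b)!.factorization 2 :=
  (Nat.factorization_le_iff_dvd (Nat.factorial_ne_zero a) (Nat.factorial_ne_zero b)).2
    (Nat.factorial_dvd_factorial h) 2

open Nat in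
theorem nb21_T_add (a b : ℕ) :
    (a)!.factorization 2 + (b)!.factorization 2 ≤ (a + b)!.factorization 2 := by
  have h := (Nat.factorization_le_iff_dvd
    (mul_ne_zero (Nat.factorial_ne_zero a) (Nat.factorial_ne_zero b))
    (Nat.factorial_ne_zero (a + b))).2 (Nat.factorial_mul_factorial_dvd_factorial_add a b) 2
  rw [Nat.factorization_mul (Nat.factorial_ne_zero a) (Nat.factorial_ne_zero b)] at h
  simpa using h

open Nat in
theorem nb21_T_lt (k : ℕ) (hk : k ≠ 0) : (k)!.factorization 2 < k := by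
  haveI : Fact (Nat.Prime 2) := ⟨Nat.prime_two⟩
  rw [Nat.factorization_def _ Nat.prime_two]
  exact padicValNat_factorial_lt_of_ne_zero 2 hk

open Nat in
theorem nb21_T_odd (j : ℕ) : (2 * j + 1)!.factorization 2 = (2 * j)!.factorization 2 := by
  rw [Nat.factorial_succ, Nat.factorization_mul (by omega) (Nat.factorial_ne_zero _)]
  have h : (2 * j + 1).factorization 2 = 0 :=
    Nat.factorization_eq_zero_of_not_dvd (by omega)
  simp [h]

open Nat in
theorem nb21_leg (p : ℕ) (hp : p.Prime) (n : ℕ) :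
    (p - 1) * (p ^ n)!.factorization p + 1 = p ^ n := by
  obtain ⟨r, rfl⟩ : ∃ r, p = r + 1 := ⟨p - 1, by have := hp.pos; omega⟩
  simp only [Nat.add_sub_cancel]
  induction n with
  | zero => simp
  | succ n ih =>
    rw [pow_succ', Nat.factorization_factorial_mul hp]
    have h2 : (r + 1) * (r + 1) ^ n = r * (r + 1) ^ n + (r + 1) ^ n := by ring
    rw [mul_add, h2]
    omega

theorem nb21_two_pow (r : ℕ) (h : 3 ≤ r) : 2 * r + 1 ≤ 2 ^ r := by
  induction r, h using Nat.le_induction with
  | base => norm_num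
  | succ r hr ih =>
    have h2 : 2 ≤ 2 ^ r := by
      calc 2 = 2 ^ 1 := by norm_num
        _ ≤ 2 ^ r := Nat.pow_le_pow_right (by norm_num) (by omega)
    rw [pow_succ]
    omega

open Nat in
theorem nb21_A_big (p : ℕ) (hp : p.Prime) (h7 : 7 ≤ p) (n : ℕ) :
    p ^ ((p ^ n)!.factorization p) ≤ 2 ^ ((p ^ n)!.factorization 2) := by
  have hodd : p % 2 = 1 := by
    rcases hp.eq_two_or_odd with h | h
    · omega
    · exact h
  obtain ⟨r, rfl⟩ : ∃ r, p = 2 * r + 1 := ⟨p / 2, by omega⟩
  have hr : 3 ≤ r := by omega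
  have hl := nb21_leg (2 * r + 1) hp n
  simp only [Nat.add_sub_cancel] at hl
  set E := ((2 * r + 1) ^ n)!.factorization (2 * r + 1) with hE
  have hq : (2 * r + 1) ^ n = 2 * (r * E) + 1 := by rw [← hl]; ring
  have hT : r * E ≤ ((2 * r + 1) ^ n)!.factorization 2 := by
    rw [hq, nb21_T_odd, nb21_T_two_mul]
    omega
  calc (2 * r + 1) ^ E ≤ (2 ^ r) ^ E := Nat.pow_le_pow_left (nb21_two_pow r hr) E
    _ = 2 ^ (r * E) := by rw [← pow_mul]
    _ ≤ 2 ^ (((2 * r + 1) ^ n)!.factorization 2) := Nat.pow_le_pow_right (by norm_num) hT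

open Nat in
theorem nb21_A_five (n : ℕ) :
    5 ^ ((5 ^ n)!.factorization 5) ≤ 2 ^ ((5 ^ n)!.factorization 2) := by
  have hl := nb21_leg 5 Nat.prime_five n
  set E := (5 ^ n)!.factorization 5 with hE
  have hq : 5 ^ n = 2 * (2 * E) + 1 := by omega
  have hT : 3 * E ≤ (5 ^ n)!.factorization 2 := by
    rw [hq, nb21_T_odd, nb21_T_two_mul, nb21_T_two_mul]
    omega
  calc 5 ^ E ≤ (2 ^ 3) ^ E := Nat.pow_le_pow_left (by norm_num) E
    _ = 2 ^ (3 * E) := by rw [← pow_mul]
    _ ≤ 2 ^ ((5 ^ n)!.factorization 2) := Nat.pow_le_pow_right (by norm_num) hT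

open Nat in
theorem nb21_A_three (n : ℕ) (hn : 2 ≤ n) :
    3 ^ ((3 ^ n)!.factorization 3) ≤ 2 ^ ((3 ^ n)!.factorization 2) := by
  induction n, hn using Nat.le_induction with
  | base =>
    have hl := nb21_leg 3 Nat.prime_three 2
    have hE : (3 ^ 2)!.factorization 3 = 4 := by omega
    have hT : 7 ≤ (3 ^ 2)!.factorization 2 := by
      have h9 : (3 : ℕ) ^ 2 = 2 * (2 * (2 * (2 * 0 + 1))) + 1 := by norm_num
      rw [h9, nb21_T_odd, nb21_T_two_mul, nb21_T_two_mul, nb21_T_two_mul]
      omega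
    rw [hE]
    calc (3 : ℕ) ^ 4 ≤ 2 ^ 7 := by norm_num
      _ ≤ 2 ^ ((3 ^ 2)!.factorization 2) := Nat.pow_le_pow_right (by norm_num) hT
  | succ n hn ih =>
    have hl := nb21_leg 3 Nat.prime_three n
    have hl' := nb21_leg 3 Nat.prime_three (n + 1)
    set E := (3 ^ n)!.factorization 3 with hE
    set T := (3 ^ n)!.factorization 2 with hT
    have hk : 3 ^ n = 2 * E + 1 := by omega
    have hE0 : E ≠ 0 := by
      intro h0
      have h9 : 3 ^ 2 ≤ 3 ^ n := Nat.pow_le_pow_right (by norm_num) hn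
      rw [hk, h0] at h9
      norm_num at h9
    have hE' : (3 ^ (n + 1))!.factorization 3 = 3 * E + 1 := by
      have h3 : 3 ^ (n + 1) = 3 * 3 ^ n := by ring
      omega
    have hTk : T + 2 ≤ 3 ^ n := by
      have h1 : T = (E)!.factorization 2 + E := by
        rw [hT, hk, nb21_T_odd, nb21_T_two_mul]
      have h2 := nb21_T_lt E hE0
      omega
    have hT3 : 3 * T + 2 ≤ (3 ^ (n + 1))!.factorization 2 := by
      have h3 : 3 ^ (n + 1) = 3 ^ n + 2 * 3 ^ n := by ring
      have h4 := nb21_T_add (3 ^ n) (2 * 3 ^ n)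
      rw [nb21_T_two_mul, ← h3, ← hT] at h4
      omega
    rw [hE']
    calc 3 ^ (3 * E + 1) = 3 * (3 ^ E) ^ 3 := by ring
      _ ≤ 4 * (2 ^ T) ^ 3 := Nat.mul_le_mul (by norm_num) (Nat.pow_le_pow_left ih 3)
      _ = 2 ^ (3 * T + 2) := by ring
      _ ≤ 2 ^ ((3 ^ (n + 1))!.factorization 2) := Nat.pow_le_pow_right (by norm_num) hT3

open Nat in
theorem nb21_A (p n : ℕ) (hp : p.Prime) (hn : 0 < n) :
    p ^ ((p ^ n)!.factorization p) ≤
      2 ^ ((p ^ n + if p ^ n = 3 then 1 else 0)!.factorization 2) := by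
  have hmono : 2 ^ ((p ^ n)!.factorization 2) ≤
      2 ^ ((p ^ n + if p ^ n = 3 then 1 else 0)!.factorization 2) :=
    Nat.pow_le_pow_right (by norm_num) (nb21_T_mono (Nat.le_add_right _ _))
  by_cases h7 : 7 ≤ p
  · exact (nb21_A_big p hp h7 n).trans hmono
  · have hp' : p = 2 ∨ p = 3 ∨ p = 5 := by
      have hlt : p < 7 := by omega
      interval_cases p <;> simp_all (config := { decide := true })
    rcases hp' with rfl | rfl | rfl
    · exact hmono
    · by_cases hn2 : 2 ≤ n
      · exact (nb21_A_three n hn2).trans hmono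
      · have hn1 : n = 1 := by omega
        subst hn1
        have hl := nb21_leg 3 Nat.prime_three 1
        have hE : (3 ^ 1)!.factorization 3 = 1 := by omega
        have hT : 3 ≤ (3 ^ 1 + if 3 ^ 1 = 3 then 1 else 0)!.factorization 2 := by
          have h4 : (3 ^ 1 + if (3 : ℕ) ^ 1 = 3 then 1 else 0) = 2 * (2 * 1) := by norm_num
          rw [h4, nb21_T_two_mul, nb21_T_two_mul]
          omega
        rw [hE]
        calc (3 : ℕ) ^ 1 ≤ 2 ^ 3 := by norm_num
          _ ≤ _ := Nat.pow_le_pow_right (by norm_num) hT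
    · exact (nb21_A_five n).trans hmono

theorem nb21_mul (a b : ℕ) (hab : Nat.Coprime a b) (ha : a ≠ 0) (hb : b ≠ 0) :
    Lead.nilBound (a * b) = Lead.nilBound a * Lead.nilBound b := by
  unfold Lead.nilBound
  rw [hab.primeFactors_mul, Finset.prod_union hab.disjoint_primeFactors]
  congr 1
  · apply Finset.prod_congr rfl
    intro p hp
    have hpp := Nat.prime_of_mem_primeFactors hp
    have hpa := Nat.dvd_of_mem_primeFactors hp
    have hnb : ¬ p ∣ b :=
      (Nat.Prime.coprime_iff_not_dvd hpp).1 (Nat.Coprime.coprime_dvd_left hpa hab)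
    rw [Nat.factorization_mul ha hb]
    simp [Nat.factorization_eq_zero_of_not_dvd hnb]
  · apply Finset.prod_congr rfl
    intro p hp
    have hpp := Nat.prime_of_mem_primeFactors hp
    have hpb := Nat.dvd_of_mem_primeFactors hp
    have hna : ¬ p ∣ a :=
      (Nat.Prime.coprime_iff_not_dvd hpp).1 (Nat.Coprime.coprime_dvd_left hpb hab.symm)
    rw [Nat.factorization_mul ha hb]
    simp [Nat.factorization_eq_zero_of_not_dvd hna]

open Nat in
theorem nb21_pp (p n : ℕ) (hp : p.Prime) (hn : n ≠ 0) :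
    Lead.nilBound (p ^ n) = p ^ ((p ^ n)!.factorization p) := by
  unfold Lead.nilBound
  rw [Nat.primeFactors_prime_pow hn hp, Finset.prod_singleton, hp.factorization_pow]
  simp

open Nat in
theorem nb21_U (m : ℕ) :
    Lead.nilBound m ≤ 2 ^ ((m + if m = 3 then 1 else 0)!.factorization 2) := by
  induction m using Nat.recOnPosPrimePosCoprime with
  | prime_pow p n hp hn =>
    rw [nb21_pp p n hp hn.ne']
    exact nb21_A p n hp hn
  | zero =>
    have h : Lead.nilBound 0 = 1 := by simp [Lead.nilBound]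
    rw [h]
    exact Nat.one_le_two_pow
  | one =>
    have h : Lead.nilBound 1 = 1 := by simp [Lead.nilBound]
    rw [h]
    exact Nat.one_le_two_pow
  | coprime a b ha hb hab iha ihb =>
    rw [nb21_mul a b hab (by omega) (by omega)]
    have hab3 : a * b ≠ 3 := by
      have : 2 * 2 ≤ a * b := Nat.mul_le_mul ha hb
      omega
    rw [if_neg hab3, add_zero]
    have hsum : (a + if a = 3 then 1 else 0) + (b + if b = 3 then 1 else 0) ≤ a * b := by
      by_cases h3a : a = 3
      · by_cases h3b : b = 3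
        · subst h3a; subst h3b
          exact absurd hab (by decide)
        · subst h3a
          rw [if_pos rfl, if_neg h3b]
          omega
      · by_cases h3b : b = 3
        · subst h3b
          rw [if_neg h3a, if_pos rfl]
          omega
        · rw [if_neg h3a, if_neg h3b]
          nlinarith
    calc Lead.nilBound a * Lead.nilBound b
        ≤ 2 ^ ((a + if a = 3 then 1 else 0)!.factorization 2) *
          2 ^ ((b + if b = 3 then 1 else 0)!.factorization 2) := Nat.mul_le_mul iha ihb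
      _ = 2 ^ ((a + if a = 3 then 1 else 0)!.factorization 2 +
          (b + if b = 3 then 1 else 0)!.factorization 2) := by rw [pow_add]
      _ ≤ 2 ^ ((a * b)!.factorization 2) :=
          Nat.pow_le_pow_right (by norm_num) ((nb21_T_add _ _).trans (nb21_T_mono hsum))

open Nat in
theorem nilBound_le (m : ℕ) (hm : 0 < m) (h3 : m ≠ 3) :
    Lead.nilBound m ≤ 2 ^ (m.factorial.factorization 2) := by
  have h := nb21_U m
  rw [if_neg h3, add_zero] at h
  exact h

open Nat in
theorem nilBound_three : Lead.nilBound 3 = 3 := by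
  have h := nb21_pp 3 1 Nat.prime_three one_ne_zero
  have hl := nb21_leg 3 Nat.prime_three 1
  simp only [pow_one] at h hl
  have hE : (3)!.factorization 3 = 1 := by omega
  rw [h, hE]
  norm_num

end Cfsg.Agent.Helper21
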