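import Mathlib
import Cfsg.Agent.Lead.NilBound
import Cfsg.Agent.Helper21.NilPerm

set_option autoImplicit false

namespace Cfsg.Agent.Helper21

open Nat in
theorem nb21_T2 : (2)!.factorization 2 = 1 := by
  rw [Nat.factorial_two]
  exact Nat.prime_two.factorization_self

open Nat in
theorem nb21_T_add_two (j : ℕ) : (j)!.factorization 2 + 1 ≤ (j + 2)!.factorization 2 := by
  have h := nb21_T_add j 2
  rw [nb21_T2] at h
  exact h

open Nat in
theorem nb21_T_pos (k : ℕ) (hk : 2 ≤ k) : 1 ≤ (k)!.factorization 2 := by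
  have h := nb21_T_mono hk
  rw [nb21_T2] at h
  exact h

open Nat in
theorem nb21_B_big (p : ℕ) (hp : p.Prime) (h7 : 7 ≤ p) (n : ℕ) (hn : 0 < n) :
    2 * p ^ ((p ^ n)!.factorization p) ≤ 2 ^ ((p ^ n)!.factorization 2) := by
  have hodd : p % 2 = 1 := by
    rcases hp.eq_two_or_odd with h | h
    · omega
    · exact h
  obtain ⟨r, rfl⟩ : ∃ r, p = 2 * r + 1 := ⟨p / 2, by omega⟩
  have hr : 3 ≤ r := by omega
  have hl := nb21_leg (2 * r + 1) hp n
  simp only [Nat.add_sub_cancel] at hl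
  set E := ((2 * r + 1) ^ n)!.factorization (2 * r + 1) with hE
  have hq : (2 * r + 1) ^ n = 2 * (r * E) + 1 := by rw [← hl]; ring
  have hge : 2 * r + 1 ≤ (2 * r + 1) ^ n := Nat.le_self_pow hn.ne' _
  have hrE : 2 ≤ r * E := by omega
  have hT : r * E + 1 ≤ ((2 * r + 1) ^ n)!.factorization 2 := by
    rw [hq, nb21_T_odd, nb21_T_two_mul]
    have := nb21_T_pos (r * E) hrE
    omega
  calc 2 * (2 * r + 1) ^ E ≤ 2 * (2 ^ r) ^ E :=
        Nat.mul_le_mul_left 2 (Nat.pow_le_pow_left (nb21_two_pow r hr) E)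
    _ = 2 ^ (r * E + 1) := by rw [← pow_mul, pow_succ]; ring
    _ ≤ 2 ^ (((2 * r + 1) ^ n)!.factorization 2) := Nat.pow_le_pow_right (by norm_num) hT

open Nat in
theorem nb21_B_five (n : ℕ) (hn : 2 ≤ n) :
    2 * 5 ^ ((5 ^ n)!.factorization 5) ≤ 2 ^ ((5 ^ n)!.factorization 2) := by
  have hl := nb21_leg 5 Nat.prime_five n
  set E := (5 ^ n)!.factorization 5 with hE
  have h25 : 5 ^ 2 ≤ 5 ^ n := Nat.pow_le_pow_right (by norm_num) hn
  have hq : 5 ^ n = 2 * (2 * E) + 1 := by omega
  have hE2 : 2 ≤ E := by omega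
  have hT : 3 * E + 1 ≤ (5 ^ n)!.factorization 2 := by
    rw [hq, nb21_T_odd, nb21_T_two_mul, nb21_T_two_mul]
    have := nb21_T_pos E hE2
    omega
  calc 2 * 5 ^ E ≤ 2 * (2 ^ 3) ^ E :=
        Nat.mul_le_mul_left 2 (Nat.pow_le_pow_left (by norm_num) E)
    _ = 2 ^ (3 * E + 1) := by rw [← pow_mul, pow_succ]; ring
    _ ≤ 2 ^ ((5 ^ n)!.factorization 2) := Nat.pow_le_pow_right (by norm_num) hT

open Nat in
theorem nb21_B_three (n : ℕ) (hn : 3 ≤ n) :
    2 * 3 ^ ((3 ^ n)!.factorization 3) ≤ 2 ^ ((3 ^ n)!.factorization 2) := by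
  induction n, hn using Nat.le_induction with
  | base =>
    have hl := nb21_leg 3 Nat.prime_three 3
    have hE : (3 ^ 3)!.factorization 3 = 13 := by omega
    have hT : 23 ≤ (3 ^ 3)!.factorization 2 := by
      have h27 : (3 : ℕ) ^ 3 = 2 * (2 * (2 * (2 * 1 + 1)) + 1) + 1 := by norm_num
      rw [h27, nb21_T_odd, nb21_T_two_mul, nb21_T_odd, nb21_T_two_mul, nb21_T_two_mul,
        nb21_T_odd, nb21_T_two_mul]
      omega
    rw [hE]
    calc 2 * (3 : ℕ) ^ 13 ≤ 2 ^ 23 := by norm_num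
      _ ≤ 2 ^ ((3 ^ 3)!.factorization 2) := Nat.pow_le_pow_right (by norm_num) hT
  | succ n hn ih =>
    have hl := nb21_leg 3 Nat.prime_three n
    have hl' := nb21_leg 3 Nat.prime_three (n + 1)
    set E := (3 ^ n)!.factorization 3 with hE
    set T := (3 ^ n)!.factorization 2 with hT
    have hk : 3 ^ n = 2 * E + 1 := by omega
    have hE0 : E ≠ 0 := by
      intro h0
      have h9 : 3 ^ 2 ≤ 3 ^ n := Nat.pow_le_pow_right (by norm_num) (by omega)
      rw [hk, h0] at h9
      norm_num at h9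
    have hE' : (3 ^ (n + 1))!.factorization 3 = 3 * E + 1 := by
      have h3 : 3 ^ (n + 1) = 3 * 3 ^ n := by ring
      omega
    have hTk : T + 2 ≤ 3 ^ n := by
      have h1 : T = (E)!.factorization 2 + E := by
        rw [hT, hk, nb21_T_odd, nb21_T_two_mul]
      have h2 := nb21_T_lt E hE0
      omega
    have hT3 : 3 * T + 2 ≤ (3 ^ (n + 1))!.factorization 2 := by
      have h3 : 3 ^ (n + 1) = 3 ^ n + 2 * 3 ^ n := by ring
      have h4 := nb21_T_add (3 ^ n) (2 * 3 ^ n)
      rw [nb21_T_two_mul, ← h3, ← hT] at h4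
      omega
    rw [hE']
    have h8 : (2 * 3 ^ E) ^ 3 = 8 * (3 ^ E) ^ 3 := by ring
    calc 2 * 3 ^ (3 * E + 1) = 6 * (3 ^ E) ^ 3 := by ring
      _ ≤ 8 * (3 ^ E) ^ 3 := Nat.mul_le_mul_right _ (by norm_num)
      _ = (2 * 3 ^ E) ^ 3 := h8.symm
      _ ≤ (2 ^ T) ^ 3 := Nat.pow_le_pow_left ih 3
      _ = 2 ^ (T * 3) := by rw [← pow_mul]
      _ ≤ 2 ^ ((3 ^ (n + 1))!.factorization 2) := Nat.pow_le_pow_right (by norm_num) (by omega)

open Nat in
theorem nb21_B (p n : ℕ) (hp : p.Prime) (hp2 : p ≠ 2) (hn : 0 < n)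
    (h3 : p ^ n ≠ 3) (h5 : p ^ n ≠ 5) (h9 : p ^ n ≠ 9) :
    2 * p ^ ((p ^ n)!.factorization p) ≤ 2 ^ ((p ^ n)!.factorization 2) := by
  by_cases h7 : 7 ≤ p
  · exact nb21_B_big p hp h7 n hn
  · have hp' : p = 3 ∨ p = 5 := by
      have hlt : p < 7 := by omega
      interval_cases p <;> simp_all (config := { decide := true })
    rcases hp' with rfl | rfl
    · have hn3 : 3 ≤ n := by
        by_contra hlt
        have : n = 1 ∨ n = 2 := by omega
        rcases this with rfl | rfl
        · exact h3 (by norm_num)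
        · exact h9 (by norm_num)
      exact nb21_B_three n hn3
    · have hn2 : 2 ≤ n := by
        by_contra hlt
        have : n = 1 := by omega
        subst this
        exact h5 (by norm_num)
      exact nb21_B_five n hn2

open Nat in
theorem nb21_W (m : ℕ) : Odd m → m ≠ 1 → m ≠ 3 → m ≠ 5 → m ≠ 9 →
    2 * Lead.nilBound m ≤ 2 ^ ((m)!.factorization 2) := by
  induction m using Nat.recOnPosPrimePosCoprime with
  | prime_pow p n hp hn =>
    intro hodd _ h3 h5 h9
    have hp2 : p ≠ 2 := by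
      rintro rfl
      exact (Nat.not_odd_iff_even.2 ((Nat.even_pow).2 ⟨even_two, hn.ne'⟩)) hodd
    rw [nb21_pp p n hp hn.ne']
    exact nb21_B p n hp hp2 hn h3 h5 h9
  | zero =>
    intro hodd
    exact absurd hodd (by decide)
  | one =>
    intro _ h1
    exact absurd rfl h1
  | coprime a b ha hb hab _ _ =>
    intro hodd _ _ _ _
    have hoa : Odd a := (Nat.odd_mul.1 hodd).1
    have hob : Odd b := (Nat.odd_mul.1 hodd).2
    obtain ⟨ka, hka⟩ := hoa
    obtain ⟨kb, hkb⟩ := hob
    rw [nb21_mul a b hab (by omega) (by omega)]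
    have iha := nb21_U a
    have ihb := nb21_U b
    have hsum : (a + if a = 3 then 1 else 0) + (b + if b = 3 then 1 else 0) + 2 ≤ a * b := by
      by_cases h3a : a = 3
      · by_cases h3b : b = 3
        · subst h3a; subst h3b
          exact absurd hab (by decide)
        · subst h3a
          rw [if_pos rfl, if_neg h3b]
          omega
      · by_cases h3b : b = 3
        · subst h3b
          rw [if_neg h3a, if_pos rfl]
          omega
        · rw [if_neg h3a, if_neg h3b]
          have ha5 : 5 ≤ a := by omega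
          have hb5 : 5 ≤ b := by omega
          have h1 : 5 * b ≤ a * b := Nat.mul_le_mul_right b ha5
          have h2 : a * 5 ≤ a * b := Nat.mul_le_mul_left a hb5
          omega
    have hchain : (a + if a = 3 then 1 else 0)!.factorization 2 +
        (b + if b = 3 then 1 else 0)!.factorization 2 + 1 ≤ (a * b)!.factorization 2 :=
      calc (a + if a = 3 then 1 else 0)!.factorization 2 +
            (b + if b = 3 then 1 else 0)!.factorization 2 + 1
          ≤ ((a + if a = 3 then 1 else 0) + (b + if b = 3 then 1 else 0))!.factorization 2 + 1 :=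
            Nat.add_le_add_right (nb21_T_add _ _) 1
        _ ≤ ((a + if a = 3 then 1 else 0) + (b + if b = 3 then 1 else 0) + 2)!.factorization 2 :=
            nb21_T_add_two _
        _ ≤ (a * b)!.factorization 2 := nb21_T_mono hsum
    calc 2 * (Lead.nilBound a * Lead.nilBound b)
        ≤ 2 * (2 ^ ((a + if a = 3 then 1 else 0)!.factorization 2) *
          2 ^ ((b + if b = 3 then 1 else 0)!.factorization 2)) :=
          Nat.mul_le_mul_left 2 (Nat.mul_le_mul iha ihb)
      _ = 2 ^ ((a + if a = 3 then 1 else 0)!.factorization 2 +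
          (b + if b = 3 then 1 else 0)!.factorization 2 + 1) := by
          rw [pow_succ, pow_add]; ring
      _ ≤ 2 ^ ((a * b)!.factorization 2) := Nat.pow_le_pow_right (by norm_num) hchain

theorem nilBound_odd_two_mul_le (m : ℕ) (hodd : Odd m) (h1 : m ≠ 1) (h3 : m ≠ 3) (h5 : m ≠ 5)
    (h9 : m ≠ 9) : 2 * Lead.nilBound m ≤ 2 ^ (m.factorial.factorization 2) :=
  nb21_W m hodd h1 h3 h5 h9

end Cfsg.Agent.Helper21
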