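import Mathlib
import Cfsg.Agent.Helper1.Quat

set_option autoImplicit false

namespace Cfsg.Agent.Helper21

/-- Two commuting elements of order dividing `p`, not in a common cyclic subgroup, give an
abelian subgroup of order `p ^ 2` and exponent `p`. -/
theorem exists_elemAb_sq {G : Type*} [Group G] [Finite G] {p : ℕ} [hp : Fact p.Prime] (z h : G)
    (hz : orderOf z = p) (hh : h ^ p = 1) (hzh : z * h = h * z)
    (hhz : h ∉ Subgroup.zpowers z) :
    ∃ E : Subgroup G, IsMulCommutative ↥E ∧ Nat.card ↥E = p ^ 2 ∧ ∀ a ∈ E, a ^ p = 1 := by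
  classical
  have hcomm : ∀ x ∈ ({z, h} : Set G), ∀ y ∈ ({z, h} : Set G), x * y = y * x := by
    intro x hx y hy
    rcases hx with rfl | rfl <;> rcases hy with rfl | rfl
    · rfl
    · exact hzh
    · exact hzh.symm
    · rfl
  have hC : IsMulCommutative ↥(Subgroup.closure ({z, h} : Set G)) :=
    Subgroup.isMulCommutative_closure hcomm
  have hmulcomm : ∀ a ∈ Subgroup.closure ({z, h} : Set G),
      ∀ b ∈ Subgroup.closure ({z, h} : Set G), a * b = b * a := by
    intro a ha b hb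
    have h1 := hC.is_comm.comm ⟨a, ha⟩ ⟨b, hb⟩
    exact congrArg Subtype.val h1
  have hexp : ∀ a ∈ Subgroup.closure ({z, h} : Set G), a ^ p = 1 := by
    intro a ha
    induction ha using Subgroup.closure_induction with
    | mem x hx =>
      rcases hx with rfl | rfl
      · rw [← hz]
        exact pow_orderOf_eq_one _
      · exact hh
    | one => exact one_pow p
    | mul x y hx hy ihx ihy =>
      rw [(show Commute x y from hmulcomm x hx y hy).mul_pow, ihx, ihy, one_mul]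
    | inv x hx ihx => rw [inv_pow, ihx, inv_one]
  obtain ⟨E, hE⟩ : ∃ E : Subgroup G, E = Subgroup.closure ({z, h} : Set G) := ⟨_, rfl⟩
  rw [← hE] at hmulcomm hexp
  have hEp : IsPGroup p ↥E := by
    intro a
    refine ⟨1, ?_⟩
    rw [pow_one]
    apply Subtype.ext
    rw [SubgroupClass.coe_pow, OneMemClass.coe_one]
    exact hexp a.1 a.2
  obtain ⟨j, hj⟩ := hEp.exists_card_eq
  have hzE : Subgroup.zpowers z ≤ E := by
    rw [Subgroup.zpowers_le, hE]
    exact Subgroup.subset_closure (by simp)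
  have hhE : h ∈ E := by
    rw [hE]
    exact Subgroup.subset_closure (by simp)
  have hj2 : 2 ≤ j := by
    by_contra hlt
    have hj1 : j ≤ 1 := by omega
    have hle : Nat.card ↥E ≤ Nat.card ↥(Subgroup.zpowers z) := by
      rw [hj, Nat.card_zpowers, hz]
      calc p ^ j ≤ p ^ 1 := Nat.pow_le_pow_right hp.out.pos hj1
        _ = p := pow_one p
    have h1 := Subgroup.eq_of_le_of_card_ge hzE hle
    exact hhz (h1 ▸ hhE)
  have hdvd : p ^ 2 ∣ Nat.card ↥E := by
    rw [hj]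
    exact pow_dvd_pow p hj2
  obtain ⟨K, hK⟩ := Sylow.exists_subgroup_card_pow_prime p hdvd
  refine ⟨K.map E.subtype, ?_, ?_, ?_⟩
  · refine IsMulCommutative.of_setLike_mul_comm ?_
    rintro _ ⟨a, -, rfl⟩ _ ⟨b, -, rfl⟩
    exact hmulcomm a.1 a.2 b.1 b.2
  · rw [Subgroup.card_subtype, hK]
  · rintro _ ⟨a, -, rfl⟩
    exact hexp a.1 a.2

/-- If all abelian subgroups of order `p ^ 2` are conjugate, a Sylow `p`-subgroup either has a
unique subgroup of order `p` or has exponent dividing `p`. -/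
theorem sylow_unique_or_exp {G : Type*} [Group G] [Finite G] {p : ℕ} [hp : Fact p.Prime]
    (P : Sylow p G)
    (hB : ∀ A B : Subgroup G, IsMulCommutative ↥A → IsMulCommutative ↥B →
      Nat.card ↥A = p ^ 2 → Nat.card ↥B = p ^ 2 →
      ∃ g : G, B = A.map (MulAut.conj g).toMonoidHom) :
    (∀ H K : Subgroup ↥(P : Subgroup G), Nat.card H = p → Nat.card K = p → H = K) ∨
      ∀ x ∈ (P : Subgroup G), x ^ p = 1 := by
  classical
  by_cases huniq : ∀ H K : Subgroup ↥(P : Subgroup G), Nat.card H = p → Nat.card K = p → H = K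
  · exact Or.inl huniq
  right
  push_neg at huniq
  obtain ⟨H, K, hH, hK, hHK⟩ := huniq
  have hPp : IsPGroup p ↥(P : Subgroup G) := P.isPGroup'
  haveI : Nontrivial ↥(P : Subgroup G) := by
    rw [← Finite.one_lt_card_iff_nontrivial]
    have h1 : Nat.card ↥H ≤ Nat.card ↥(P : Subgroup G) := Subgroup.card_le_card_group H
    have h2 := hp.out.one_lt
    omega
  have hcz : IsPGroup p ↥(Subgroup.center ↥(P : Subgroup G)) := hPp.to_subgroup _
  haveI := hPp.center_nontrivial
  obtain ⟨k, hk⟩ := hcz.exists_card_eq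
  have hk0 : k ≠ 0 := by
    rintro rfl
    rw [pow_zero] at hk
    have h1 := Finite.one_lt_card (α := ↥(Subgroup.center ↥(P : Subgroup G)))
    omega
  have hdvd : p ∣ Nat.card ↥(Subgroup.center ↥(P : Subgroup G)) := by
    rw [hk]
    exact dvd_pow_self p hk0
  obtain ⟨z', hz'⟩ := exists_prime_orderOf_dvd_card' p hdvd
  obtain ⟨Z₀, hZ₀⟩ : ∃ Z₀ : Subgroup ↥(P : Subgroup G),
      Z₀ = Subgroup.zpowers (z' : ↥(P : Subgroup G)) := ⟨_, rfl⟩
  have hZ₀card : Nat.card Z₀ = p := by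
    rw [hZ₀, Nat.card_zpowers, Subgroup.orderOf_coe, hz']
  obtain ⟨H', hH', hH'Z⟩ : ∃ H' : Subgroup ↥(P : Subgroup G), Nat.card H' = p ∧ H' ≠ Z₀ := by
    by_cases h : H = Z₀
    · exact ⟨K, hK, fun h' => hHK (h.trans h'.symm)⟩
    · exact ⟨H, hH, h⟩
  obtain ⟨h', hh'H, hh'Z⟩ : ∃ h' : ↥(P : Subgroup G), h' ∈ H' ∧ h' ∉ Z₀ := by
    by_contra hcon
    push_neg at hcon
    exact hH'Z (Subgroup.eq_of_le_of_card_ge hcon (by rw [hH', hZ₀card]))
  have hh'p : h' ^ p = 1 := by
    have h1 := pow_card_eq_one' (G := ↥H') (x := ⟨h', hh'H⟩)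
    rw [hH'] at h1
    simpa only [SubgroupClass.coe_pow, OneMemClass.coe_one] using congrArg Subtype.val h1
  have hzo : orderOf (((z' : ↥(P : Subgroup G)) : G)) = p := by
    rw [Subgroup.orderOf_coe, Subgroup.orderOf_coe, hz']
  have hhp : (h' : G) ^ p = 1 := by
    simpa only [SubgroupClass.coe_pow, OneMemClass.coe_one] using congrArg Subtype.val hh'p
  have hzh : ((z' : ↥(P : Subgroup G)) : G) * (h' : G) = (h' : G) * ((z' : ↥(P : Subgroup G)) : G) := by
    have h1 := Subgroup.mem_center_iff.1 z'.2 h'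
    exact (congrArg Subtype.val h1).symm
  have hhz : (h' : G) ∉ Subgroup.zpowers (((z' : ↥(P : Subgroup G)) : G)) := by
    intro hmem
    obtain ⟨i, hi⟩ := Subgroup.mem_zpowers_iff.1 hmem
    apply hh'Z
    rw [hZ₀, Subgroup.mem_zpowers_iff]
    refine ⟨i, Subtype.ext ?_⟩
    rw [SubgroupClass.coe_zpow, hi]
  obtain ⟨E, hEc, hEcard, hEexp⟩ := exists_elemAb_sq _ _ hzo hhp hzh hhz
  intro x hx
  by_contra hxp
  obtain ⟨n, hn⟩ := (IsPGroup.iff_orderOf.1 hPp) ⟨x, hx⟩
  rw [Subgroup.orderOf_mk] at hn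
  have hn2 : 2 ≤ n := by
    by_contra hlt
    have hn1 : n ≤ 1 := by omega
    apply hxp
    have h1 : orderOf x ∣ p := by
      rw [hn]
      calc p ^ n ∣ p ^ 1 := pow_dvd_pow p hn1
        _ = p := pow_one p
    exact orderOf_dvd_iff_pow_eq_one.1 h1
  have hx0 : orderOf x ≠ 0 := by
    rw [hn]
    exact pow_ne_zero _ hp.out.ne_zero
  have hyo : orderOf (x ^ (orderOf x / p ^ 2)) = p ^ 2 :=
    orderOf_pow_orderOf_div hx0 (by rw [hn]; exact pow_dvd_pow p hn2)
  obtain ⟨y, hy⟩ : ∃ y : G, orderOf y = p ^ 2 := ⟨_, hyo⟩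
  have hCcard : Nat.card ↥(Subgroup.zpowers y) = p ^ 2 := by rw [Nat.card_zpowers, hy]
  have hCc : IsMulCommutative ↥(Subgroup.zpowers y) := IsCyclic.isMulCommutative
  obtain ⟨g, hg⟩ := hB E (Subgroup.zpowers y) hEc hCc hEcard hCcard
  have hyE : y ∈ E.map (MulAut.conj g).toMonoidHom := hg ▸ Subgroup.mem_zpowers y
  obtain ⟨e, he, hey⟩ := hyE
  have hyp : y ^ p = 1 := by
    rw [← hey, ← map_pow, hEexp e he, map_one]
  have h1 : orderOf y ∣ p := orderOf_dvd_of_pow_eq_one hyp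
  rw [hy] at h1
  have h2 := Nat.le_of_dvd hp.out.pos h1
  have h3 : p < p ^ 2 := by
    have := hp.out.one_lt
    nlinarith
  omega

end Cfsg.Agent.Helper21
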