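import Mathlib
import Cfsg.Prelude.Def_KGroupFacts

set_option autoImplicit false

namespace Cfsg.Agent.Helper21

/-- A Heisenberg-type central extension of `ZMod m × ZMod n` by `ZMod n` (for `n ∣ m`). -/
@[ext] structure Heis (m n : ℕ) (h : n ∣ m) : Type where
  z : ZMod n
  x : ZMod m
  y : ZMod n

namespace Heis

variable {m n : ℕ} {h : n ∣ m}

/-- The reduction `ZMod m → ZMod n`. -/
noncomputable def φ (m n : ℕ) (h : n ∣ m) : ZMod m →+* ZMod n := ZMod.castHom h (ZMod n)

/-- Multiplication. -/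
noncomputable def mul' (a b : Heis m n h) : Heis m n h :=
  ⟨a.z + b.z + φ m n h a.x * b.y, a.x + b.x, a.y + b.y⟩

/-- Inverse. -/
noncomputable def inv' (a : Heis m n h) : Heis m n h :=
  ⟨-a.z + φ m n h a.x * a.y, -a.x, -a.y⟩

noncomputable instance instGroup (m n : ℕ) (h : n ∣ m) : Group (Heis m n h) where
  mul := mul'
  one := ⟨0, 0, 0⟩
  inv := inv'
  mul_assoc a b c := by
    apply Heis.ext
    · show (a.z + b.z + φ m n h a.x * b.y) + c.z + φ m n h (a.x + b.x) * c.y
        = a.z + (b.z + c.z + φ m n h b.x * c.y) + φ m n h a.x * (b.y + c.y)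
      rw [map_add]; ring
    · exact add_assoc _ _ _
    · exact add_assoc _ _ _
  one_mul a := by
    apply Heis.ext
    · show (0 : ZMod n) + a.z + φ m n h 0 * a.y = a.z
      rw [map_zero]; ring
    · exact zero_add _
    · exact zero_add _
  mul_one a := by
    apply Heis.ext
    · show a.z + 0 + φ m n h a.x * 0 = a.z
      ring
    · exact add_zero _
    · exact add_zero _
  inv_mul_cancel a := by
    apply Heis.ext
    · show (-a.z + φ m n h a.x * a.y) + a.z + φ m n h (-a.x) * a.y = 0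
      rw [map_neg]; ring
    · exact neg_add_cancel _
    · exact neg_add_cancel _

theorem mul_z (a b : Heis m n h) : (a * b).z = a.z + b.z + φ m n h a.x * b.y := rfl
theorem mul_x (a b : Heis m n h) : (a * b).x = a.x + b.x := rfl
theorem mul_y (a b : Heis m n h) : (a * b).y = a.y + b.y := rfl
theorem one_z : (1 : Heis m n h).z = 0 := rfl
theorem one_x : (1 : Heis m n h).x = 0 := rfl
theorem one_y : (1 : Heis m n h).y = 0 := rfl
theorem inv_z (a : Heis m n h) : (a⁻¹).z = -a.z + φ m n h a.x * a.y := rfl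
theorem inv_x (a : Heis m n h) : (a⁻¹).x = -a.x := rfl
theorem inv_y (a : Heis m n h) : (a⁻¹).y = -a.y := rfl

/-- The underlying equivalence with a product. -/
def equivProd (m n : ℕ) (h : n ∣ m) : Heis m n h ≃ ZMod n × ZMod m × ZMod n where
  toFun a := (a.z, a.x, a.y)
  invFun t := ⟨t.1, t.2.1, t.2.2⟩
  left_inv _ := rfl
  right_inv _ := rfl

theorem instFinite (m n : ℕ) (h : n ∣ m) [NeZero m] [NeZero n] : Finite (Heis m n h) :=
  Finite.of_equiv _ (equivProd m n h).symm

/-- The projection onto `ZMod m × ZMod n`. -/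
noncomputable def proj (m n : ℕ) (h : n ∣ m) : Heis m n h →* Multiplicative (ZMod m × ZMod n) where
  toFun a := Multiplicative.ofAdd (a.x, a.y)
  map_one' := rfl
  map_mul' _ _ := rfl

theorem proj_apply (a : Heis m n h) : proj m n h a = Multiplicative.ofAdd (a.x, a.y) := rfl

theorem proj_surjective (m n : ℕ) (h : n ∣ m) : Function.Surjective (proj m n h) := by
  intro t
  exact ⟨⟨0, (Multiplicative.toAdd t).1, (Multiplicative.toAdd t).2⟩, rfl⟩

theorem mem_ker_proj (a : Heis m n h) : a ∈ (proj m n h).ker ↔ a.x = 0 ∧ a.y = 0 := by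
  rw [MonoidHom.mem_ker, proj_apply]
  constructor
  · intro h1
    have h2 : (a.x, a.y) = (0, 0) := Multiplicative.ofAdd.injective h1
    exact ⟨congrArg Prod.fst h2, congrArg Prod.snd h2⟩
  · rintro ⟨h1, h2⟩
    rw [h1, h2]
    rfl

/-- The central generator. -/
def cz (m n : ℕ) (h : n ∣ m) : Heis m n h := ⟨1, 0, 0⟩

theorem cz_pow (k : ℕ) : (cz m n h) ^ k = ⟨(k : ZMod n), 0, 0⟩ := by
  induction k with
  | zero =>
    apply Heis.ext
    · show (0 : ZMod n) = ((0 : ℕ) : ZMod n)
      simp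
    · rfl
    · rfl
  | succ k ih =>
    rw [pow_succ, ih]
    apply Heis.ext
    · show (k : ZMod n) + 1 + φ m n h 0 * 0 = ((k + 1 : ℕ) : ZMod n)
      push_cast; ring
    · show (0 : ZMod m) + 0 = 0
      ring
    · show (0 : ZMod n) + 0 = 0
      ring

theorem cz_eq_commutator (m n : ℕ) (h : n ∣ m) :
    cz m n h = (⟨0, 1, 0⟩ : Heis m n h) * ⟨0, 0, 1⟩ * (⟨0, 1, 0⟩ : Heis m n h)⁻¹ * (⟨0, 0, 1⟩ : Heis m n h)⁻¹ := by
  apply Heis.ext
  · simp only [mul_z, mul_x, mul_y, inv_z, inv_x, inv_y, cz, map_zero, map_one, map_add, map_neg]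
    ring
  · simp only [mul_x, inv_x, cz]
    ring
  · simp only [mul_y, inv_y, cz]
    ring

theorem proj_isStem (m n : ℕ) (h : n ∣ m) [NeZero n] : Cfsg.IsStemExtension (proj m n h) := by
  refine ⟨proj_surjective m n h, ?_, ?_⟩
  · intro a ha
    rw [mem_ker_proj] at ha
    rw [Subgroup.mem_center_iff]
    intro g
    apply Heis.ext
    · rw [mul_z, mul_z, ha.1, ha.2, map_zero]
      ring
    · rw [mul_x, mul_x, add_comm]
    · rw [mul_y, mul_y, add_comm]
  · intro a ha
    rw [mem_ker_proj] at ha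
    have h1 : a = (cz m n h) ^ (a.z.val) := by
      rw [cz_pow]
      apply Heis.ext
      · show a.z = ((a.z.val : ℕ) : ZMod n)
        rw [ZMod.natCast_zmod_val]
      · exact ha.1
      · exact ha.2
    rw [h1]
    apply Subgroup.pow_mem
    rw [cz_eq_commutator, commutator_def, ← commutatorElement_def]
    exact Subgroup.commutator_mem_commutator (Subgroup.mem_top _) (Subgroup.mem_top _)

/-- The kernel of the projection is `ZMod n`. -/
noncomputable def kerEquiv (m n : ℕ) (h : n ∣ m) : (proj m n h).ker ≃* Multiplicative (ZMod n) where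
  toFun a := Multiplicative.ofAdd a.1.z
  invFun t := ⟨⟨Multiplicative.toAdd t, 0, 0⟩, (mem_ker_proj _).mpr ⟨rfl, rfl⟩⟩
  left_inv a := by
    apply Subtype.ext
    have ha := (mem_ker_proj a.1).mp a.2
    apply Heis.ext
    · rfl
    · exact ha.1.symm
    · exact ha.2.symm
  right_inv _ := rfl
  map_mul' a b := by
    have hb := (mem_ker_proj b.1).mp b.2
    show Multiplicative.ofAdd ((a.1 * b.1).z) = Multiplicative.ofAdd a.1.z * Multiplicative.ofAdd b.1.z
    rw [mul_z, hb.2, mul_zero, add_zero]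
    rfl

end Heis

end Cfsg.Agent.Helper21
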