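import Mathlib
import Cfsg.Prelude.Def_KGroupFacts
import Cfsg.Agent.Helper21.Heis

set_option autoImplicit false

namespace Cfsg.Agent.Helper21

open scoped Function

universe u

theorem exists_surj_zmod_p_sq {G : Type*} [CommGroup G] [Finite G] (h : ¬ IsCyclic G) :
    ∃ (p : ℕ) (_ : p.Prime) (f : G →* Multiplicative (ZMod p × ZMod p)), Function.Surjective f := by
  classical
  obtain ⟨ι, _, n, hn, ⟨e⟩⟩ := CommGroup.equiv_prod_multiplicative_zmod_of_finite G
  by_cases hcop : Pairwise (Nat.Coprime on n)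
  · exfalso
    apply h
    have e2 : (∀ i, Multiplicative (ZMod (n i))) ≃* Multiplicative (ZMod (∏ i, n i)) :=
      (MulEquiv.piMultiplicative _).symm.trans
        (AddEquiv.toMultiplicative (ZMod.prodEquivPi n hcop).toAddEquiv.symm)
    exact isCyclic_of_surjective (e.trans e2).symm (MulEquiv.surjective _)
  · have hex : ∃ i j, i ≠ j ∧ ¬ Nat.Coprime (n i) (n j) := by
      by_contra hne
      apply hcop
      intro i j hij
      by_contra hc
      exact hne ⟨i, j, hij, hc⟩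
    obtain ⟨i, j, hij, hc⟩ := hex
    obtain ⟨p, hp, hpi, hpj⟩ := Nat.Prime.not_coprime_iff_dvd.mp hc
    have : NeZero p := ⟨hp.ne_zero⟩
    let f : G →* Multiplicative (ZMod p × ZMod p) :=
      { toFun := fun g => Multiplicative.ofAdd
          (ZMod.castHom hpi (ZMod p) (Multiplicative.toAdd (e g i)),
           ZMod.castHom hpj (ZMod p) (Multiplicative.toAdd (e g j)))
        map_one' := by
          simp
        map_mul' := by
          intro a b
          simp only [map_mul, Pi.mul_apply, toAdd_mul, map_add]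
          rfl }
    refine ⟨p, hp, f, ?_⟩
    intro t
    refine ⟨e.symm (Function.update (Function.update 1 i
      (Multiplicative.ofAdd (((Multiplicative.toAdd t).1.val : ℕ) : ZMod (n i)))) j
      (Multiplicative.ofAdd (((Multiplicative.toAdd t).2.val : ℕ) : ZMod (n j)))), ?_⟩
    show Multiplicative.ofAdd (_, _) = t
    rw [MulEquiv.apply_symm_apply, Function.update_self, Function.update_of_ne hij,
      Function.update_self, toAdd_ofAdd, toAdd_ofAdd, map_natCast, map_natCast,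
      ZMod.natCast_zmod_val, ZMod.natCast_zmod_val]
    rfl

theorem Heis.eq_cz_pow_of_mem_ker {m n : ℕ} {h : n ∣ m} [NeZero n] (a : Heis m n h)
    (ha : a ∈ (Heis.proj m n h).ker) : a = (Heis.cz m n h) ^ (a.z.val) := by
  rw [Heis.mem_ker_proj] at ha
  rw [Heis.cz_pow]
  apply Heis.ext
  · show a.z = ((a.z.val : ℕ) : ZMod n)
    rw [ZMod.natCast_zmod_val]
  · exact ha.1
  · exact ha.2

theorem exists_stem_nontrivial {G : Type u} [CommGroup G] [Finite G] (p : ℕ) (hp : p.Prime)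
    (f : G →* Multiplicative (ZMod p × ZMod p)) (hf : Function.Surjective f) :
    ∃ (Γ : Type u) (_ : Group Γ) (_ : Finite Γ) (τ : Γ →* G), Cfsg.IsStemExtension τ ∧ τ.ker ≠ ⊥ := by
  have hne : NeZero p := ⟨hp.ne_zero⟩
  have hfact : Fact (1 < p) := ⟨hp.one_lt⟩
  have hfin : Finite (Heis p p (dvd_refl p)) := Heis.instFinite p p (dvd_refl p)
  obtain ⟨-, hHcen, -⟩ := Heis.proj_isStem p p (dvd_refl p)
  let S : Subgroup (G × Heis p p (dvd_refl p)) :=
    MonoidHom.eqLocus (f.comp (MonoidHom.fst G (Heis p p (dvd_refl p))))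
      ((Heis.proj p p (dvd_refl p)).comp (MonoidHom.snd G (Heis p p (dvd_refl p))))
  have hS : ∀ x : G × Heis p p (dvd_refl p), x ∈ S ↔ f x.1 = Heis.proj p p (dvd_refl p) x.2 :=
    fun x => Iff.rfl
  let τ : S →* G := (MonoidHom.fst G (Heis p p (dvd_refl p))).comp S.subtype
  have hτ : ∀ x : S, τ x = x.1.1 := fun x => rfl
  have hker : ∀ x : S, x ∈ τ.ker → x.1.2 ∈ (Heis.proj p p (dvd_refl p)).ker := by
    intro x hx
    rw [MonoidHom.mem_ker, hτ] at hx
    rw [MonoidHom.mem_ker, ← (hS x.1).mp x.2, hx, map_one]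
  refine ⟨S, inferInstance, inferInstance, τ, ⟨?_, ?_, ?_⟩, ?_⟩
  · intro g
    obtain ⟨a, ha⟩ := Heis.proj_surjective p p (dvd_refl p) (f g)
    exact ⟨⟨(g, a), (hS (g, a)).mpr ha.symm⟩, rfl⟩
  · intro x hx
    have h2 := hHcen (hker x hx)
    rw [Subgroup.mem_center_iff]
    intro y
    apply Subtype.ext
    apply Prod.ext
    · exact mul_comm _ _
    · exact Subgroup.mem_center_iff.mp h2 y.1.2
  · intro x hx
    have h2 := hker x hx
    obtain ⟨gA, hgA⟩ := hf (Heis.proj p p (dvd_refl p) ⟨0, 1, 0⟩)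
    obtain ⟨gB, hgB⟩ := hf (Heis.proj p p (dvd_refl p) ⟨0, 0, 1⟩)
    let A : S := ⟨(gA, ⟨0, 1, 0⟩), (hS _).mpr hgA⟩
    let B : S := ⟨(gB, ⟨0, 0, 1⟩), (hS _).mpr hgB⟩
    have hx1 : x.1.1 = 1 := by
      rw [MonoidHom.mem_ker, hτ] at hx
      exact hx
    have hxe : x = (A * B * A⁻¹ * B⁻¹) ^ (x.1.2.z.val) := by
      apply Subtype.ext
      apply Prod.ext
      · show x.1.1 = (gA * gB * gA⁻¹ * gB⁻¹) ^ (x.1.2.z.val)
        rw [hx1, mul_comm gA gB, mul_inv_cancel_right, mul_inv_cancel, one_pow]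
      · show x.1.2 = ((⟨0, 1, 0⟩ : Heis p p (dvd_refl p)) * ⟨0, 0, 1⟩
          * (⟨0, 1, 0⟩ : Heis p p (dvd_refl p))⁻¹ * (⟨0, 0, 1⟩ : Heis p p (dvd_refl p))⁻¹) ^ (x.1.2.z.val)
        rw [← Heis.cz_eq_commutator]
        exact Heis.eq_cz_pow_of_mem_ker x.1.2 h2
    rw [hxe]
    apply Subgroup.pow_mem
    rw [commutator_def, ← commutatorElement_def]
    exact Subgroup.commutator_mem_commutator (Subgroup.mem_top _) (Subgroup.mem_top _)
  · intro hbot
    have hw : ((1 : G), Heis.cz p p (dvd_refl p)) ∈ S := by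
      rw [hS]
      show f 1 = Heis.proj p p (dvd_refl p) (Heis.cz p p (dvd_refl p))
      rw [map_one]
      rfl
    have hwk : (⟨((1 : G), Heis.cz p p (dvd_refl p)), hw⟩ : S) ∈ τ.ker := by
      rw [MonoidHom.mem_ker, hτ]
    rw [hbot, Subgroup.mem_bot] at hwk
    have h3 := congrArg (fun x : S => x.1.2.z) hwk
    have h4 : (1 : ZMod p) = 0 := h3
    exact one_ne_zero h4

end Cfsg.Agent.Helper21
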