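import Mathlib
import Cfsg.Prelude.Def_KGroupFacts

/-!
Central extensions and Schur multipliers: for a central extension `E` of `Q` with kernel `K`,
the group `K ⊓ commutator E` is a homomorphic image of the Schur multiplier of `Q`.
-/

set_option autoImplicit false

namespace Cfsg.Agent.Helper21

universe u v w

/-- Every finite group is isomorphic to a group in any prescribed universe. -/
theorem exists_mulEquiv_univ (X : Type w) [Group X] [Finite X] :
    ∃ (X' : Type u) (_ : Group X') (_ : Finite X'), Nonempty (X' ≃* X) := by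
  obtain ⟨n, ⟨e⟩⟩ := Finite.exists_equiv_fin X
  let e' : ULift.{u} (Fin n) ≃ X := Equiv.ulift.trans e.symm
  letI : Group (ULift.{u} (Fin n)) := Equiv.group e'
  exact ⟨ULift.{u} (Fin n), inferInstance, inferInstance, ⟨Equiv.mulEquiv e'⟩⟩

theorem map_mem_commutator {G H : Type*} [Group G] [Group H] (f : G →* H) {x : G}
    (hx : x ∈ commutator G) : f x ∈ commutator H := by
  have h1 : f x ∈ (commutator G).map f := Subgroup.mem_map_of_mem f hx
  rw [commutator_def, Subgroup.map_commutator] at h1
  rw [commutator_def]
  exact Subgroup.commutator_mono le_top le_top h1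

theorem exists_mem_commutator_of_surjective {G H : Type*} [Group G] [Group H] (f : G →* H)
    (hf : Function.Surjective f) {y : H} (hy : y ∈ commutator H) :
    ∃ x ∈ commutator G, f x = y := by
  have h1 : (commutator G).map f = commutator H := by
    rw [commutator_def, Subgroup.map_commutator, commutator_def,
      ← MonoidHom.range_eq_map, MonoidHom.range_eq_top.2 hf]
  rw [← h1] at hy
  exact Subgroup.mem_map.1 hy

/-- The kernel of a finite stem extension of `Q` (in any universe) has at most as many elements
as the Schur multiplier. -/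
theorem stem_ker_card_le {Q : Type u} [Group Q] {A : Type v} [CommGroup A]
    (hA : Cfsg.HasSchurMultiplier Q A) {X : Type w} [Group X] [Finite X] (φ : X →* Q)
    (hφ : Cfsg.IsStemExtension φ) : Nat.card φ.ker ≤ Nat.card A := by
  obtain ⟨X', _, _, ⟨e⟩⟩ := exists_mulEquiv_univ.{u, w} X
  have hφ' : Cfsg.IsStemExtension (φ.comp e.toMonoidHom) := by
    refine ⟨hφ.1.comp e.surjective, ?_, ?_⟩
    · intro x hx
      have h1 : e x ∈ Subgroup.center X := hφ.2.1 (MonoidHom.mem_ker.2 (MonoidHom.mem_ker.1 hx))
      rw [Subgroup.mem_center_iff] at h1 ⊢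
      intro g
      apply e.injective
      rw [map_mul, map_mul]
      exact h1 (e g)
    · intro x hx
      have h1 : e x ∈ commutator X := hφ.2.2 (MonoidHom.mem_ker.2 (MonoidHom.mem_ker.1 hx))
      have h2 := map_mem_commutator e.symm.toMonoidHom h1
      simpa using h2
  obtain ⟨π, hπ⟩ := hA.2 X' (φ.comp e.toMonoidHom) hφ'
  obtain ⟨Γ, _, _, σ, _, ⟨i⟩⟩ := hA.1
  haveI : Finite A := Finite.of_equiv _ i.toEquiv
  have h1 : Nat.card (φ.comp e.toMonoidHom).ker ≤ Nat.card A :=
    Nat.card_le_card_of_surjective π hπ
  have h2 : Nat.card (φ.comp e.toMonoidHom).ker = Nat.card φ.ker := by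
    apply Nat.card_congr
    exact Equiv.subtypeEquiv e.toEquiv (fun x => by
      rw [MonoidHom.mem_ker, MonoidHom.mem_ker]; rfl)
  rw [← h2]; exact h1

end Cfsg.Agent.Helper21
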