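import Mathlib
import Cfsg.Agent.Helper21.DihEven

set_option autoImplicit false

namespace Cfsg.Agent.Helper21

/-- The dihedral subgroup `{r i, sr i | i ∈ A}` of `D_n` attached to an additive subgroup `A`. -/
def dihSub {n : ℕ} (A : AddSubgroup (ZMod n)) : Subgroup (DihedralGroup n) where
  carrier := {g | dihIdx g ∈ A}
  mul_mem' := by
    rintro (a | a) (b | b) ha hb
    · show dihIdx (DihedralGroup.r a * DihedralGroup.r b) ∈ A
      rw [DihedralGroup.r_mul_r]
      exact A.add_mem ha hb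
    · show dihIdx (DihedralGroup.r a * DihedralGroup.sr b) ∈ A
      rw [DihedralGroup.r_mul_sr]
      exact A.sub_mem hb ha
    · show dihIdx (DihedralGroup.sr a * DihedralGroup.r b) ∈ A
      rw [DihedralGroup.sr_mul_r]
      exact A.add_mem ha hb
    · show dihIdx (DihedralGroup.sr a * DihedralGroup.sr b) ∈ A
      rw [DihedralGroup.sr_mul_sr]
      exact A.sub_mem hb ha
  one_mem' := by
    show dihIdx (1 : DihedralGroup n) ∈ A
    rw [DihedralGroup.one_def]
    exact A.zero_mem
  inv_mem' := by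
    rintro (a | a) ha
    · show dihIdx (DihedralGroup.r a)⁻¹ ∈ A
      rw [DihedralGroup.inv_r]
      exact A.neg_mem ha
    · show dihIdx (DihedralGroup.sr a)⁻¹ ∈ A
      rw [DihedralGroup.inv_sr]
      exact ha

theorem r_mem_dihSub {n : ℕ} (A : AddSubgroup (ZMod n)) (i : ZMod n) :
    DihedralGroup.r i ∈ dihSub A ↔ i ∈ A := Iff.rfl

theorem sr_mem_dihSub {n : ℕ} (A : AddSubgroup (ZMod n)) (i : ZMod n) :
    DihedralGroup.sr i ∈ dihSub A ↔ i ∈ A := Iff.rfl

end Cfsg.Agent.Helper21
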