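import Mathlib
import Cfsg.Prelude.Def_Solvable
import Cfsg.Agent.Helper1.Subn
import Cfsg.Agent.Helper4.Matsuyama
import Cfsg.Agent.Helper9.Layer
import Cfsg.Agent.Helper20.Conj
import Cfsg.Agent.Helper20.Norm

set_option autoImplicit false

namespace Cfsg.Agent.Helper21

universe u

/-- The left-normed Engel word `[x, g, ..., g]` (`n` entries `g`), `[a, b] = a b a⁻¹ b⁻¹`. -/
def engelFold {G : Type*} [Group G] (g : G) (n : ℕ) (x : G) : G :=
  (List.replicate n g).foldl (fun a b => a * b * a⁻¹ * b⁻¹) x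

theorem engelFold_zero {G : Type*} [Group G] (g x : G) : engelFold g 0 x = x := rfl

theorem engelFold_succ {G : Type*} [Group G] (g : G) (n : ℕ) (x : G) :
    engelFold g (n + 1) x = engelFold g n (x * g * x⁻¹ * g⁻¹) := rfl

theorem coe_engelFold {G : Type*} [Group G] (K : Subgroup G) (g x : K) (n : ℕ) :
    ((engelFold g n x : K) : G) = engelFold (g : G) n (x : G) := by
  induction n generalizing x with
  | zero => rfl
  | succ n ih =>
    rw [engelFold_succ, engelFold_succ, ih]
    rfl

theorem engel_of_mem_fitting {G : Type*} [Group G] [Finite G] (g : G)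
    (hg : g ∈ Cfsg.fittingSubgroup G) (x : G) : ∃ n, engelFold g n x = 1 := by
  have hnil : Group.IsNilpotent ↥(Cfsg.fittingSubgroup G) := Helper9.fitting_nilpotent
  obtain ⟨c, hc⟩ := (Subgroup.isNilpotent_iff_lowerCentralSeries (Cfsg.fittingSubgroup G)).1 hnil
  have hnorm : (Cfsg.fittingSubgroup G).Normal := Helper9.fitting_normal
  have key : ∀ n (y : G) (k : ℕ), y ∈ (Cfsg.fittingSubgroup G).lowerCentralSeries k →
      engelFold g n y ∈ (Cfsg.fittingSubgroup G).lowerCentralSeries (k + n) := by
    intro n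
    induction n with
    | zero => intro y k hy; exact hy
    | succ n ih =>
      intro y k hy
      rw [engelFold_succ]
      have h1 : y * g * y⁻¹ * g⁻¹ ∈ (Cfsg.fittingSubgroup G).lowerCentralSeries (k + 1) := by
        rw [Subgroup.lowerCentralSeries_succ, ← commutatorElement_def]
        exact Subgroup.commutator_mem_commutator hy hg
      have h2 := ih _ (k + 1) h1
      have e : k + 1 + n = k + (n + 1) := by omega
      rw [e] at h2
      exact h2
  have h0 : x * g * x⁻¹ * g⁻¹ ∈ (Cfsg.fittingSubgroup G).lowerCentralSeries 0 := by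
    rw [Subgroup.lowerCentralSeries_zero]
    exact Subgroup.mul_mem _ (hnorm.conj_mem g hg x) (Subgroup.inv_mem _ hg)
  refine ⟨c + 1, ?_⟩
  rw [engelFold_succ]
  have h3 := key c _ 0 h0
  rw [zero_add, hc, Subgroup.mem_bot] at h3
  exact h3

theorem mem_fitting_of_engel_aux (n : ℕ) : ∀ (G : Type u) [Group G] [Finite G], Nat.card G = n →
    ∀ g : G, (∀ x : G, ∃ k, engelFold g k x = 1) → g ∈ Cfsg.fittingSubgroup G := by
  induction n using Nat.strong_induction_on with
  | _ n ih =>
  intro G _ _ hn g hE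
  by_contra hgF
  have hSnil : Group.IsNilpotent ↥(Subgroup.zpowers g) := by
    letI : CommGroup ↥(Subgroup.zpowers g) := IsCyclic.commGroup
    exact CommGroup.isNilpotent
  have hSnot : ¬ (Subgroup.zpowers g).IsSubnormal := fun h =>
    hgF (Helper9.subnormal_nilpotent_le_fitting _ h hSnil (Subgroup.mem_zpowers g))
  have hSprop : ∀ H : Subgroup G, Subgroup.zpowers g ≤ H → H ≠ ⊤ →
      ((Subgroup.zpowers g).subgroupOf H).IsSubnormal := by
    intro H hSH hH
    have hgH : g ∈ H := hSH (Subgroup.mem_zpowers g)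
    have hlt : Nat.card H < n := by
      rw [← hn]
      exact lt_of_le_of_ne (Subgroup.card_le_card_group H)
        (fun h => hH ((Subgroup.card_eq_iff_eq_top H).1 h))
    have h1 : (⟨g, hgH⟩ : H) ∈ Cfsg.fittingSubgroup H := by
      apply ih (Nat.card H) hlt H rfl
      intro x
      obtain ⟨k, hk⟩ := hE x.1
      refine ⟨k, Subtype.ext ?_⟩
      rw [coe_engelFold]
      exact hk
    have hle : (Subgroup.zpowers g).subgroupOf H ≤ Cfsg.fittingSubgroup H := by
      intro z hz
      rw [Subgroup.mem_subgroupOf] at hz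
      obtain ⟨k, hk⟩ := Subgroup.mem_zpowers_iff.1 hz
      have hz' : z = (⟨g, hgH⟩ : H) ^ k := Subtype.ext (by rw [Subgroup.coe_zpow]; exact hk.symm)
      rw [hz']
      exact Subgroup.zpow_mem _ h1 k
    haveI : Group.IsNilpotent ↥(Cfsg.fittingSubgroup H) := Helper9.fitting_nilpotent
    have h2 : (((Subgroup.zpowers g).subgroupOf H).subgroupOf
        (Cfsg.fittingSubgroup H)).IsSubnormal :=
      Helper4.isSubnormal_of_isNilpotent _
    exact Subgroup.IsSubnormal.trans hle h2 (Helper9.fitting_normal).isSubnormal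
  obtain ⟨M, hM, hSM, hMuniq⟩ := Helper1.zipper (Subgroup.zpowers g) hSprop hSnot
  have hgM : g ∈ M := hSM (Subgroup.mem_zpowers g)
  have hMnn : ¬ M.Normal := by
    intro hMn
    exact hSnot (Subgroup.IsSubnormal.trans hSM (hSprop M hSM hM.1) hMn.isSubnormal)
  have hNM : Subgroup.normalizer (M : Set G) = M := by
    rcases (Subgroup.le_normalizer (H := M)).lt_or_eq with h | h
    · exact absurd (Subgroup.normalizer_eq_top_iff.1 (hM.2 _ h)) hMnn
    · exact h.symm
  have hstep : ∀ y : G, y ∉ M → y * g * y⁻¹ * g⁻¹ ∉ M := by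
    intro y hy hc
    have h1 : y * g * y⁻¹ ∈ M := by
      have h0 := M.mul_mem hc hgM
      rwa [inv_mul_cancel_right] at h0
    have hco : IsCoatom (M.map (MulAut.conj y⁻¹).toMonoidHom) :=
      Helper20.isCoatom_map_conj M y⁻¹ hM
    have hgM' : g ∈ M.map (MulAut.conj y⁻¹).toMonoidHom := by
      rw [Helper20.mem_map_conj, inv_inv]
      exact h1
    have heq := hMuniq _ hco ((Subgroup.zpowers_le).2 hgM')
    have hyn : y⁻¹ ∈ Subgroup.normalizer (M : Set G) :=
      (Helper20.mem_normalizer_iff_map_conj M y⁻¹).2 heq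
    rw [hNM] at hyn
    have hy' := M.inv_mem hyn
    rw [inv_inv] at hy'
    exact hy hy'
  have hchain : ∀ k (y : G), y ∉ M → engelFold g k y ∉ M := by
    intro k
    induction k with
    | zero => intro y hy; exact hy
    | succ k ih' =>
      intro y hy
      rw [engelFold_succ]
      exact ih' _ (hstep y hy)
  obtain ⟨y, hy⟩ : ∃ y, y ∉ M := by
    by_contra hall
    push_neg at hall
    exact hM.1 (eq_top_iff.2 (fun y _ => hall y))
  obtain ⟨k, hk⟩ := hE y
  exact hchain k y hy (by rw [hk]; exact M.one_mem)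

end Cfsg.Agent.Helper21
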