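import Mathlib
import Cfsg.Agent.Helper21.Primary

/-!
Frobenius' theorem: the number of solutions of `x ^ n = c` (`c` central) in a finite group is
divisible by `gcd n |G|`.
-/

set_option autoImplicit false

universe u

namespace Cfsg.Agent.Helper21

/-- If `q ∣ a * b` and `gcd q b ∣ N` then `q ∣ a * N`. -/
theorem dvd_mul_of_gcd_dvd {q a b N : ℕ} (h1 : q ∣ a * b) (h2 : Nat.gcd q b ∣ N) :
    q ∣ a * N := by
  have h3 : q ∣ Nat.gcd (a * q) (a * b) := Nat.dvd_gcd (dvd_mul_left q a) h1
  rw [Nat.gcd_mul_left] at h3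
  exact h3.trans (mul_dvd_mul_left a h2)

/-- Fiberwise counting of a subtype. -/
theorem card_subtype_eq_sum_fiber {α β : Type*} [Finite α] [Fintype β] (P : α → Prop)
    (φ : α → β) :
    Nat.card {x : α // P x} = ∑ y : β, Nat.card {x : α // P x ∧ φ x = y} := by
  have e : {x : α // P x} ≃ Σ y : β, {x : α // P x ∧ φ x = y} :=
    { toFun := fun x => ⟨φ x.1, ⟨x.1, x.2, rfl⟩⟩
      invFun := fun s => ⟨s.2.1, s.2.2.1⟩
      left_inv := fun x => rfl
      right_inv := by
        rintro ⟨y, x, hx, rfl⟩
        rfl }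
  rw [Nat.card_congr e, Nat.card_sigma]

/-- Class-sum divisibility: a conjugation-invariant function whose values times class sizes
are divisible by `d` has sum divisible by `d`. -/
theorem dvd_sum_of_conj_invariant {G : Type*} [Group G] [Fintype G] (f : G → ℕ) (d : ℕ)
    (hinv : ∀ g y : G, f (g * y * g⁻¹) = f y)
    (h : ∀ y : G, d ∣ (Subgroup.centralizer ({y} : Set G)).index * f y) :
    d ∣ ∑ y : G, f y := by
  classical
  rw [← Finset.sum_fiberwise Finset.univ (ConjClasses.mk (α := G)) f]
  refine Finset.dvd_sum fun C _ => ?_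
  obtain ⟨y₀, rfl⟩ := ConjClasses.mk_surjective C
  have h1 : ∀ y ∈ Finset.univ.filter (fun y : G => ConjClasses.mk y = ConjClasses.mk y₀),
      f y = f y₀ := by
    intro y hy
    rw [Finset.mem_filter] at hy
    obtain ⟨g, hg⟩ := isConj_iff.1 (ConjClasses.mk_eq_mk_iff_isConj.1 hy.2)
    rw [← hg, hinv]
  rw [Finset.sum_congr rfl h1, Finset.sum_const, smul_eq_mul]
  have h2 : (Finset.univ.filter (fun y : G => ConjClasses.mk y = ConjClasses.mk y₀)).card
      = (Subgroup.centralizer ({y₀} : Set G)).index := by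
    rw [index_centralizer_eq_ncard, ← Set.ncard_coe_finset]
    congr 1
    ext y
    simp [ConjClasses.mem_carrier_iff_mk_eq]
  rw [h2]
  exact h y₀

/-- Conjugation invariance of the number of `n`-th roots. -/
theorem card_pow_eq_conj {G : Type*} [Group G] (n : ℕ) (g y : G) :
    Nat.card {x : G // x ^ n = g * y * g⁻¹} = Nat.card {x : G // x ^ n = y} :=
  Nat.card_congr
    { toFun := fun x => ⟨g⁻¹ * x.1 * g, by
        have h := conj_pow (a := g⁻¹) (b := x.1) (i := n)
        rw [inv_inv] at h
        rw [h, x.2]; group⟩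
      invFun := fun x => ⟨g * x.1 * g⁻¹, by rw [conj_pow, x.2]⟩
      left_inv := fun x => Subtype.ext (show g * (g⁻¹ * x.1 * g) * g⁻¹ = x.1 by group)
      right_inv := fun x => Subtype.ext (show g⁻¹ * (g * x.1 * g⁻¹) * g = x.1 by group) }

/-- Counting `n₁ * r`-th roots of `c` through their `n₁`-th powers. -/
theorem card_pow_eq_sum {G : Type*} [Group G] [Fintype G] [DecidableEq G] (n₁ r : ℕ) (c : G) :
    Nat.card {x : G // x ^ (n₁ * r) = c} =
      ∑ y : G, if y ^ r = c then Nat.card {x : G // x ^ n₁ = y} else 0 := by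
  have hsum : Nat.card {x : G // x ^ (n₁ * r) = c} =
      ∑ y : G, Nat.card {x : G // x ^ (n₁ * r) = c ∧ x ^ n₁ = y} :=
    card_subtype_eq_sum_fiber (fun x : G => x ^ (n₁ * r) = c) (fun x => x ^ n₁)
  rw [hsum]
  refine Finset.sum_congr rfl fun y _ => ?_
  by_cases hy : y ^ r = c
  · rw [if_pos hy]
    exact Nat.card_congr (Equiv.subtypeEquivRight fun x =>
      ⟨fun h => h.2, fun h => ⟨by rw [pow_mul, h, hy], h⟩⟩)
  · rw [if_neg hy]
    haveI : IsEmpty {x : G // x ^ (n₁ * r) = c ∧ x ^ n₁ = y} :=
      ⟨fun x => hy (by rw [← x.2.2, ← pow_mul]; exact x.2.1)⟩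
    exact Nat.card_of_isEmpty

/-- The group order as the sum of the numbers of `n`-th roots. -/
theorem card_eq_sum_card_pow_eq {G : Type*} [Group G] [Fintype G] (n : ℕ) :
    Nat.card G = ∑ y : G, Nat.card {x : G // x ^ n = y} := by
  rw [← Nat.card_congr (Equiv.sigmaFiberEquiv (fun x : G => x ^ n)), Nat.card_sigma]

/-- If `p ∣ orderOf c` and `x ^ (p ^ a) = c` then `orderOf x = p ^ a * orderOf c`. -/
theorem orderOf_eq_of_pow_eq {G : Type*} [Group G] [Finite G] {p a : ℕ} (hp : p.Prime)
    {x c : G} (hc : p ∣ orderOf c) (hx : x ^ (p ^ a) = c) :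
    orderOf x = p ^ a * orderOf c := by
  have h1 : orderOf c = orderOf x / Nat.gcd (orderOf x) (p ^ a) := by
    rw [← hx]; exact orderOf_pow x
  obtain ⟨j, hj, hg⟩ := (Nat.dvd_prime_pow hp).1 (Nat.gcd_dvd_right (orderOf x) (p ^ a))
  have h2 : orderOf x = p ^ j * orderOf c := by
    rw [h1, ← hg]; exact (Nat.mul_div_cancel' (Nat.gcd_dvd_left _ _)).symm
  have h3 : j = a := by
    by_contra hne
    have hlt : j < a := lt_of_le_of_ne hj hne
    have h4 : p ^ (j + 1) ∣ orderOf x := by
      rw [h2, pow_succ]; exact mul_dvd_mul_left _ hc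
    have h5 : p ^ (j + 1) ∣ p ^ a := pow_dvd_pow p hlt
    have h6 : p ^ (j + 1) ∣ p ^ j := by
      rw [← hg]; exact Nat.dvd_gcd h4 h5
    exact absurd (Nat.le_of_dvd (pow_pos hp.pos j) h6)
      (not_le.2 (Nat.pow_lt_pow_right hp.one_lt (Nat.lt_succ_self j)))
  rw [h2, h3]

/-- Block lemma: if `p ∣ orderOf c` then the number of `p ^ a`-th roots of `c` is divisible
by `p ^ a`. -/
theorem pow_dvd_card_pow_eq_of_dvd_orderOf {G : Type*} [Group G] [Finite G] {p : ℕ}
    (hp : p.Prime) (a : ℕ) (c : G) (hc : p ∣ orderOf c) :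
    p ^ a ∣ Nat.card {x : G // x ^ (p ^ a) = c} := by
  classical
  haveI : Fintype (Subgroup G) := Fintype.ofFinite _
  have hsum : Nat.card {x : G // x ^ (p ^ a) = c} =
      ∑ H : Subgroup G, Nat.card {x : G // x ^ (p ^ a) = c ∧ Subgroup.zpowers x = H} :=
    card_subtype_eq_sum_fiber (fun x : G => x ^ (p ^ a) = c) (fun x => Subgroup.zpowers x)
  rw [hsum]
  refine Finset.dvd_sum fun H _ => ?_
  by_cases hne : Nonempty {x : G // x ^ (p ^ a) = c ∧ Subgroup.zpowers x = H}
  · obtain ⟨x₀, hx₀, rfl⟩ := hne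
    have ho : orderOf x₀ = p ^ a * orderOf c := orderOf_eq_of_pow_eq hp hc hx₀
    have hoc : 0 < orderOf c := orderOf_pos c
    have hK : Nat.card (Subgroup.zpowers (x₀ ^ orderOf c)) = p ^ a := by
      rw [Nat.card_zpowers, orderOf_pow_of_dvd hoc.ne' ⟨p ^ a, by rw [ho, mul_comm]⟩, ho,
        Nat.mul_div_cancel _ hoc]
    have hle : Subgroup.zpowers (x₀ ^ orderOf c) ≤ Subgroup.zpowers x₀ :=
      Subgroup.zpowers_le.2 (Subgroup.pow_mem _ (Subgroup.mem_zpowers x₀) _)
    have F1 : ∀ z : G, z ∈ Subgroup.zpowers (x₀ ^ orderOf c) →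
        (x₀ * z) ^ (p ^ a) = c ∧ Subgroup.zpowers (x₀ * z) = Subgroup.zpowers x₀ := by
      intro z hz
      have hz' : z ∈ Subgroup.zpowers x₀ := hle hz
      have hcomm : Commute x₀ z := by
        obtain ⟨k, rfl⟩ := Subgroup.mem_zpowers_iff.1 hz'
        exact (Commute.refl x₀).zpow_right k
      have hz1 : z ^ (p ^ a) = 1 := by
        have h := orderOf_dvd_natCard (⟨z, hz⟩ : Subgroup.zpowers (x₀ ^ orderOf c))
        rw [hK, Subgroup.orderOf_mk] at h
        exact orderOf_dvd_iff_pow_eq_one.1 h
      have h1 : (x₀ * z) ^ (p ^ a) = c := by rw [hcomm.mul_pow, hx₀, hz1, mul_one]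
      refine ⟨h1, ?_⟩
      apply Subgroup.eq_of_le_of_card_ge
      · exact Subgroup.zpowers_le.2 (mul_mem (Subgroup.mem_zpowers x₀) hz')
      · rw [Nat.card_zpowers, Nat.card_zpowers, orderOf_eq_of_pow_eq hp hc h1, ho]
    have F2 : ∀ y : G, y ^ (p ^ a) = c → Subgroup.zpowers y = Subgroup.zpowers x₀ →
        x₀⁻¹ * y ∈ Subgroup.zpowers (x₀ ^ orderOf c) := by
      intro y hy hyz
      have hy' : y ∈ Subgroup.zpowers x₀ := hyz ▸ Subgroup.mem_zpowers y
      obtain ⟨k, rfl⟩ := Subgroup.mem_zpowers_iff.1 hy'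
      have h1 : x₀ ^ ((k - 1) * ((p ^ a : ℕ) : ℤ)) = 1 := by
        rw [sub_mul, one_mul, zpow_sub, zpow_mul, zpow_natCast, zpow_natCast, hy, hx₀,
          mul_inv_cancel]
      have h2 : (orderOf c : ℤ) * ((p ^ a : ℕ) : ℤ) ∣ (k - 1) * ((p ^ a : ℕ) : ℤ) := by
        have h := orderOf_dvd_iff_zpow_eq_one.2 h1
        rw [ho, mul_comm (p ^ a) (orderOf c), Nat.cast_mul] at h
        exact h
      have hpa : ((p ^ a : ℕ) : ℤ) ≠ 0 := by exact_mod_cast (pow_pos hp.pos a).ne'
      obtain ⟨m, hm⟩ := (mul_dvd_mul_iff_right hpa).1 h2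
      rw [Subgroup.mem_zpowers_iff]
      refine ⟨m, ?_⟩
      rw [← zpow_natCast, ← zpow_mul, ← hm, sub_eq_neg_add, zpow_add, zpow_neg_one]
    have e : Subgroup.zpowers (x₀ ^ orderOf c) ≃
        {x : G // x ^ (p ^ a) = c ∧ Subgroup.zpowers x = Subgroup.zpowers x₀} :=
      { toFun := fun z => ⟨x₀ * z.1, F1 z.1 z.2⟩
        invFun := fun y => ⟨x₀⁻¹ * y.1, F2 y.1 y.2.1 y.2.2⟩
        left_inv := fun z => Subtype.ext (inv_mul_cancel_left x₀ z.1)
        right_inv := fun y => Subtype.ext (mul_inv_cancel_left x₀ y.1) }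
    rw [← Nat.card_congr e, hK]
  · rw [not_nonempty_iff] at hne
    rw [Nat.card_of_isEmpty]
    exact dvd_zero _

/-- Central elements of order prime to `p` have as many `p ^ a`-th roots as `1`. -/
theorem card_pow_eq_central_coprime {G : Type*} [Group G] [Finite G] {p : ℕ} (hp : p.Prime)
    (a : ℕ) {c : G} (hc : c ∈ Subgroup.center G) (hpc : ¬ p ∣ orderOf c) :
    Nat.card {x : G // x ^ (p ^ a) = c} = Nat.card {x : G // x ^ (p ^ a) = 1} := by
  have hcop : (Nat.card (Subgroup.zpowers c)).Coprime (p ^ a) := by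
    rw [Nat.card_zpowers]
    exact Nat.Coprime.pow_right a ((Nat.Prime.coprime_iff_not_dvd hp).2 hpc).symm
  obtain ⟨⟨d, hd⟩, hdc⟩ := (powCoprime hcop).surjective ⟨c, Subgroup.mem_zpowers c⟩
  have hdc' : d ^ (p ^ a) = c := by simpa using congrArg Subtype.val hdc
  have hdZ : d ∈ Subgroup.center G := (Subgroup.zpowers_le.2 hc) hd
  have hcomm : ∀ x : G, Commute x d := fun x => Subgroup.mem_center_iff.1 hdZ x
  symm
  exact Nat.card_congr
    { toFun := fun x => ⟨x.1 * d, by rw [(hcomm x.1).mul_pow, x.2, one_mul, hdc']⟩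
      invFun := fun y => ⟨y.1 * d⁻¹, by
        rw [((hcomm y.1).inv_right).mul_pow, y.2, inv_pow, hdc', mul_inv_cancel]⟩
      left_inv := fun x => Subtype.ext (mul_inv_cancel_right x.1 d)
      right_inv := fun y => Subtype.ext (inv_mul_cancel_right y.1 d) }

theorem mem_centralizer_self {G : Type*} [Group G] (y : G) :
    y ∈ Subgroup.centralizer ({y} : Set G) :=
  Subgroup.mem_centralizer_iff.2 fun h hh => by rw [Set.mem_singleton_iff.1 hh]

/-- `n`-th roots of `y` lie in the centralizer of `y`. -/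
theorem card_pow_eq_centralizer {G : Type*} [Group G] (n : ℕ) (y : G) :
    Nat.card {x : G // x ^ n = y} =
      Nat.card {x : Subgroup.centralizer ({y} : Set G) //
        x ^ n = ⟨y, mem_centralizer_self y⟩} := by
  have hmem : ∀ x : G, x ^ n = y → x ∈ Subgroup.centralizer ({y} : Set G) := by
    intro x hx
    refine Subgroup.mem_centralizer_iff.2 fun h hh => ?_
    rw [Set.mem_singleton_iff.1 hh, ← hx]
    exact ((Commute.refl x).pow_left n).eq
  exact Nat.card_congr
    { toFun := fun x => ⟨⟨x.1, hmem x.1 x.2⟩, Subtype.ext x.2⟩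
      invFun := fun x => ⟨x.1.1, congrArg Subtype.val x.2⟩
      left_inv := fun x => rfl
      right_inv := fun x => rfl }

/-- The central elements of order prime to `p` form a subgroup of order prime to `p`. -/
theorem exists_center_pprime_subgroup {G : Type*} [Group G] [Finite G] {p : ℕ}
    (hp : p.Prime) :
    ∃ K : Subgroup G, (∀ y, y ∈ K ↔ y ∈ Subgroup.center G ∧ ¬ p ∣ orderOf y) ∧
      ¬ p ∣ Nat.card K := by
  let K : Subgroup G :=
    { carrier := {y | y ∈ Subgroup.center G ∧ ¬ p ∣ orderOf y}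
      one_mem' := ⟨one_mem _, by
        rw [orderOf_one]; exact fun h => hp.one_lt.ne' (Nat.dvd_one.1 h)⟩
      mul_mem' := by
        rintro y z ⟨hy, hy'⟩ ⟨hz, hz'⟩
        refine ⟨mul_mem hy hz, fun h => ?_⟩
        have hcomm : Commute y z := Subgroup.mem_center_iff.1 hz y
        have h1 : p ∣ Nat.lcm (orderOf y) (orderOf z) := h.trans hcomm.orderOf_mul_dvd_lcm
        have h2 : p ∣ orderOf y * orderOf z := h1.trans (Nat.lcm_dvd_mul _ _)
        rcases (Nat.Prime.dvd_mul hp).1 h2 with h3 | h3
        · exact hy' h3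
        · exact hz' h3
      inv_mem' := by
        rintro y ⟨hy, hy'⟩
        exact ⟨inv_mem hy, by rwa [orderOf_inv]⟩ }
  refine ⟨K, fun y => Iff.rfl, fun h => ?_⟩
  haveI : Fact p.Prime := ⟨hp⟩
  obtain ⟨x, hx⟩ := exists_prime_orderOf_dvd_card' p h
  have h1 : orderOf (x : G) = p := by rw [Subgroup.orderOf_coe]; exact hx
  have h2 : (x : G) ∈ Subgroup.center G ∧ ¬ p ∣ orderOf (x : G) := x.2
  exact h2.2 (by rw [h1])

/-- Frobenius' theorem, prime-power form, by induction on the group order and on `n`. -/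
theorem frob_central_aux (N : ℕ) : ∀ (G : Type u) [Group G] [Finite G], Nat.card G = N →
    ∀ n : ℕ, 0 < n → ∀ c : G, c ∈ Subgroup.center G → ∀ p : ℕ, p.Prime → ∀ k : ℕ,
      p ^ k ∣ n → p ^ k ∣ Nat.card G → p ^ k ∣ Nat.card {x : G // x ^ n = c} := by
  induction N using Nat.strong_induction_on with
  | _ N IH =>
    intro G _ _ hN n
    induction n using Nat.strong_induction_on with
    | _ n ih =>
      intro hn c hc p hp k hkn hkG
      classical
      haveI : Fintype G := Fintype.ofFinite G
      have hconjZ : ∀ (g z : G), z ∈ Subgroup.center G → g * z * g⁻¹ = z := fun g z hz => by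
        rw [Subgroup.mem_center_iff.1 hz g, mul_inv_cancel_right]
      have hconjZ' : ∀ (g y : G), g * y * g⁻¹ ∈ Subgroup.center G ↔ y ∈ Subgroup.center G := by
        intro g y
        constructor
        · intro h
          have h2 := hconjZ g⁻¹ _ h
          have h3 : g⁻¹ * (g * y * g⁻¹) * g⁻¹⁻¹ = y := by group
          rw [h3] at h2
          rw [h2]; exact h
        · intro h; rw [hconjZ g y h]; exact h
      have H3 : ∀ (n' : ℕ), 0 < n' → ∀ y : G, y ∉ Subgroup.center G → ∀ k' : ℕ,
          p ^ k' ∣ n' → p ^ k' ∣ Nat.card G →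
          p ^ k' ∣ (Subgroup.centralizer ({y} : Set G)).index *
            Nat.card {x : G // x ^ n' = y} := by
        intro n' hn' y hy k' hk'n hk'G
        rw [card_pow_eq_centralizer n' y]
        refine dvd_mul_of_gcd_dvd (b := Nat.card (Subgroup.centralizer ({y} : Set G))) ?_ ?_
        · rw [Subgroup.index_mul_card]; exact hk'G
        · obtain ⟨j, hj, hg⟩ := (Nat.dvd_prime_pow hp).1
            (Nat.gcd_dvd_left (p ^ k') (Nat.card (Subgroup.centralizer ({y} : Set G))))
          have hjC : p ^ j ∣ Nat.card (Subgroup.centralizer ({y} : Set G)) := by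
            rw [← hg]; exact Nat.gcd_dvd_right _ _
          rw [hg]
          have hlt : Nat.card (Subgroup.centralizer ({y} : Set G)) < N := by
            rw [← hN]
            refine lt_of_le_of_ne (Subgroup.card_le_card_group _) fun h => hy ?_
            have htop := (Subgroup.card_eq_iff_eq_top _).1 h
            refine Subgroup.mem_center_iff.2 fun g => ?_
            have hg' : g ∈ Subgroup.centralizer ({y} : Set G) := by rw [htop]; trivial
            exact (Subgroup.mem_centralizer_iff.1 hg' y (Set.mem_singleton y)).symm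
          refine IH _ hlt (Subgroup.centralizer ({y} : Set G)) rfl n' hn'
            ⟨y, mem_centralizer_self y⟩ ?_ p hp j ((pow_dvd_pow p hj).trans hk'n) hjC
          rw [Subgroup.mem_center_iff]
          rintro ⟨g, hg'⟩
          exact Subtype.ext (Subgroup.mem_centralizer_iff.1 hg' y (Set.mem_singleton y)).symm
      by_cases hr : ∃ r : ℕ, r.Prime ∧ r ≠ p ∧ r ∣ n
      · obtain ⟨r, hrp, hrne, n₁, hn₁⟩ := hr
        have hn₁pos : 0 < n₁ := by
          rcases Nat.eq_zero_or_pos n₁ with h | h
          · rw [h, mul_zero] at hn₁; omega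
          · exact h
        have hn₁lt : n₁ < n := by
          have := hrp.two_le
          rw [hn₁]; nlinarith
        have hkn₁ : p ^ k ∣ n₁ := by
          have hcop : Nat.Coprime (p ^ k) r :=
            Nat.Coprime.pow_left k ((Nat.coprime_primes hp hrp).2 (Ne.symm hrne))
          rw [hn₁] at hkn
          exact hcop.dvd_of_dvd_mul_left hkn
        have hsum : Nat.card {x : G // x ^ n = c} =
            ∑ y : G, if y ^ r = c then Nat.card {x : G // x ^ n₁ = y} else 0 := by
          rw [hn₁, mul_comm r n₁]; exact card_pow_eq_sum n₁ r c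
        rw [hsum]
        apply dvd_sum_of_conj_invariant
        · intro g y
          have h1 : (g * y * g⁻¹) ^ r = c ↔ y ^ r = c := by
            rw [conj_pow]
            constructor
            · intro h
              have h' : g * y ^ r * g⁻¹ = g * c * g⁻¹ := h.trans (hconjZ g c hc).symm
              exact mul_right_injective g (mul_left_injective g⁻¹ h')
            · intro h
              rw [h]; exact hconjZ g c hc
          by_cases hyc : y ^ r = c
          · rw [if_pos hyc, if_pos (h1.2 hyc), card_pow_eq_conj]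
          · rw [if_neg hyc, if_neg (fun h => hyc (h1.1 h))]
        · intro y
          by_cases hyc : y ^ r = c
          · rw [if_pos hyc]
            by_cases hyZ : y ∈ Subgroup.center G
            · exact Dvd.dvd.mul_left (ih n₁ hn₁lt hn₁pos y hyZ p hp k hkn₁ hkG) _
            · exact H3 n₁ hn₁pos y hyZ k hkn₁ hkG
          · rw [if_neg hyc, mul_zero]; exact dvd_zero _
      · obtain ⟨a, rfl⟩ : ∃ a, n = p ^ a :=
          ⟨_, Nat.eq_prime_pow_of_unique_prime_dvd hn.ne'
            (fun {q} hq hqn => by_contra fun hne => hr ⟨q, hq, hne, hqn⟩)⟩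
        by_cases hpc : p ∣ orderOf c
        · exact hkn.trans (pow_dvd_card_pow_eq_of_dvd_orderOf hp a c hpc)
        · rw [card_pow_eq_central_coprime hp a hc hpc]
          obtain ⟨K, hK, hKp⟩ := exists_center_pprime_subgroup (G := G) hp
          have hG : Nat.card G = ∑ y : G, Nat.card {x : G // x ^ (p ^ a) = y} :=
            card_eq_sum_card_pow_eq (p ^ a)
          obtain ⟨N1, hN1⟩ : ∃ N1, N1 = Nat.card {x : G // x ^ (p ^ a) = 1} := ⟨_, rfl⟩
          rw [← hN1]
          have hsplit : ∀ y : G, Nat.card {x : G // x ^ (p ^ a) = y} =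
              (if y ∈ Subgroup.center G then 0 else Nat.card {x : G // x ^ (p ^ a) = y}) +
              ((if y ∈ Subgroup.center G ∧ p ∣ orderOf y then
                  Nat.card {x : G // x ^ (p ^ a) = y} else 0) +
               (if y ∈ K then N1 else 0)) := by
            intro y
            by_cases h1 : y ∈ Subgroup.center G
            · by_cases h2 : p ∣ orderOf y
              · rw [if_pos h1, if_pos ⟨h1, h2⟩, if_neg (fun h => ((hK y).1 h).2 h2)]
                simp
              · rw [if_pos h1, if_neg (fun h => h2 h.2), if_pos ((hK y).2 ⟨h1, h2⟩),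
                  card_pow_eq_central_coprime hp a h1 h2, hN1]
                simp
            · rw [if_neg h1, if_neg (fun h => h1 h.1), if_neg (fun h => h1 ((hK y).1 h).1)]
              simp
          have hS1 : p ^ k ∣ ∑ y : G,
              (if y ∈ Subgroup.center G then 0 else Nat.card {x : G // x ^ (p ^ a) = y}) := by
            apply dvd_sum_of_conj_invariant
            · intro g y
              by_cases hy : y ∈ Subgroup.center G
              · rw [if_pos hy, if_pos ((hconjZ' g y).2 hy)]
              · rw [if_neg hy, if_neg (fun h => hy ((hconjZ' g y).1 h)), card_pow_eq_conj]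
            · intro y
              by_cases hy : y ∈ Subgroup.center G
              · rw [if_pos hy, mul_zero]; exact dvd_zero _
              · rw [if_neg hy]; exact H3 (p ^ a) hn y hy k hkn hkG
          have hS2 : p ^ k ∣ ∑ y : G,
              (if y ∈ Subgroup.center G ∧ p ∣ orderOf y then
                  Nat.card {x : G // x ^ (p ^ a) = y} else 0) := by
            refine Finset.dvd_sum fun y _ => ?_
            by_cases hy : y ∈ Subgroup.center G ∧ p ∣ orderOf y
            · rw [if_pos hy]
              exact hkn.trans (pow_dvd_card_pow_eq_of_dvd_orderOf hp a y hy.2)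
            · rw [if_neg hy]; exact dvd_zero _
          have hS3 : ∑ y : G, (if y ∈ K then N1 else 0) = Nat.card K * N1 := by
            rw [← Finset.sum_filter, Finset.sum_const, smul_eq_mul]
            congr 1
            rw [Nat.card_eq_fintype_card]
            exact (Fintype.card_of_subtype _ (fun x => by simp)).symm
          have htot : Nat.card G =
              (∑ y : G, (if y ∈ Subgroup.center G then 0
                  else Nat.card {x : G // x ^ (p ^ a) = y})) +
              ((∑ y : G, (if y ∈ Subgroup.center G ∧ p ∣ orderOf y then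
                  Nat.card {x : G // x ^ (p ^ a) = y} else 0)) + Nat.card K * N1) := by
            rw [hG, ← hS3, ← Finset.sum_add_distrib, ← Finset.sum_add_distrib]
            exact Finset.sum_congr rfl fun y _ => hsplit y
          have h4 : p ^ k ∣ Nat.card K * N1 := by
            rw [htot] at hkG
            exact (Nat.dvd_add_right hS2).1 ((Nat.dvd_add_right hS1).1 hkG)
          exact (Nat.Coprime.pow_left k
            ((Nat.Prime.coprime_iff_not_dvd hp).2 hKp)).dvd_of_dvd_mul_left h4

/-- Frobenius' theorem: `gcd n |G|` divides the number of `n`-th roots of a central element. -/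
theorem frobenius_gcd_dvd {G : Type u} [Group G] [Finite G] (n : ℕ) (hn : 0 < n) (c : G)
    (hc : c ∈ Subgroup.center G) : Nat.gcd n (Nat.card G) ∣ Nat.card {x : G // x ^ n = c} := by
  rw [Nat.dvd_iff_prime_pow_dvd_dvd]
  intro p k hp hpk
  exact frob_central_aux (Nat.card G) G rfl n hn c hc p hp k
    (hpk.trans (Nat.gcd_dvd_left _ _)) (hpk.trans (Nat.gcd_dvd_right _ _))

/-- Frobenius' theorem: if `m ∣ |G|` then `m` divides the number of solutions of `g ^ m = 1`. -/
theorem frobenius_dvd {G : Type u} [Group G] [Finite G] (m : ℕ) (hm : m ∣ Nat.card G) :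
    m ∣ Nat.card {g : G // g ^ m = 1} := by
  have hm0 : 0 < m := Nat.pos_of_dvd_of_pos hm Nat.card_pos
  have h := frobenius_gcd_dvd (G := G) m hm0 1 (one_mem _)
  rwa [Nat.gcd_eq_left hm] at h

end Cfsg.Agent.Helper21
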