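import Mathlib
import Cfsg.Agent.Helper21.NilCoprime
import Cfsg.Agent.Helper21.OrderType
import Cfsg.Agent.Helper21.Primary
import Cfsg.Agent.Helper21.BaerSuzuki

set_option autoImplicit false

namespace Cfsg.Agent.Helper21

open scoped commutatorElement

theorem isNilpotent_of_le {G : Type*} [Group G] {A B : Subgroup G} (h : A ≤ B)
    (hB : Group.IsNilpotent ↥B) : Group.IsNilpotent ↥A := by
  obtain ⟨n, hn⟩ := (Subgroup.isNilpotent_iff_lowerCentralSeries B).1 hB
  refine (Subgroup.isNilpotent_iff_lowerCentralSeries A).2 ⟨n, ?_⟩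
  rw [eq_bot_iff, ← hn]
  exact Subgroup.lowerCentralSeries_mono n h

theorem isPGroup_closure_pair_of_nilpotent {G : Type*} [Group G] [Finite G] {q : ℕ}
    [Fact q.Prime] {a b : G} (ha : ∃ k, orderOf a = q ^ k) (hb : ∃ k, orderOf b = q ^ k)
    (hnil : Group.IsNilpotent ↥(Subgroup.closure ({a, b} : Set G))) :
    IsPGroup q ↥(Subgroup.closure ({a, b} : Set G)) := by
  haveI := hnil
  obtain ⟨ka, hka⟩ := ha
  obtain ⟨kb, hkb⟩ := hb
  have haH : a ∈ Subgroup.closure ({a, b} : Set G) :=
    Subgroup.subset_closure (Set.mem_insert a _)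
  have hbH : b ∈ Subgroup.closure ({a, b} : Set G) :=
    Subgroup.subset_closure (Set.mem_insert_of_mem a (Set.mem_singleton b))
  obtain ⟨S, hS⟩ := exists_sylow_mem_of_orderOf_eq_pow
    (G := ↥(Subgroup.closure ({a, b} : Set G))) (p := q) (g := ⟨a, haH⟩) (k := ka)
    (by rw [Subgroup.orderOf_mk]; exact hka)
  obtain ⟨S', hS'⟩ := exists_sylow_mem_of_orderOf_eq_pow
    (G := ↥(Subgroup.closure ({a, b} : Set G))) (p := q) (g := ⟨b, hbH⟩) (k := kb)
    (by rw [Subgroup.orderOf_mk]; exact hkb)
  have hSS : S' = S := by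
    haveI := Sylow.unique_of_normal S inferInstance
    exact Subsingleton.elim _ _
  rw [hSS] at hS'
  have htop : (S : Subgroup ↥(Subgroup.closure ({a, b} : Set G))) = ⊤ := by
    rw [eq_top_iff, ← Subgroup.closure_closure_coe_preimage (k := ({a, b} : Set G)),
      Subgroup.closure_le]
    intro h hh
    have hh' : (h : G) ∈ ({a, b} : Set G) := hh
    rcases hh' with h1 | h1
    · have e : h = ⟨a, haH⟩ := Subtype.ext h1
      rw [e]; exact hS
    · rw [Set.mem_singleton_iff] at h1
      have e : h = ⟨b, hbH⟩ := Subtype.ext h1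
      rw [e]; exact hS'
  intro h
  have hhS : h ∈ (S : Subgroup ↥(Subgroup.closure ({a, b} : Set G))) := by
    rw [htop]; exact Subgroup.mem_top h
  obtain ⟨k, hk⟩ := S.isPGroup' ⟨h, hhS⟩
  refine ⟨k, ?_⟩
  have h2 := congrArg Subtype.val hk
  rw [Subgroup.coe_pow, Subgroup.coe_one] at h2
  exact h2

theorem commute_of_nilpotent_closure {G : Type*} [Group G] {x z : G}
    (hnil : Group.IsNilpotent ↥(Subgroup.closure ({x, z} : Set G)))
    (hcop : (orderOf x).Coprime (orderOf z)) : x * z = z * x := by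
  haveI := hnil
  have hxH : x ∈ Subgroup.closure ({x, z} : Set G) :=
    Subgroup.subset_closure (Set.mem_insert x _)
  have hzH : z ∈ Subgroup.closure ({x, z} : Set G) :=
    Subgroup.subset_closure (Set.mem_insert_of_mem x (Set.mem_singleton z))
  have h := commute_of_coprime_orderOf (G := ↥(Subgroup.closure ({x, z} : Set G)))
    ⟨x, hxH⟩ ⟨z, hzH⟩ (by rw [Subgroup.orderOf_mk, Subgroup.orderOf_mk]; exact hcop)
  exact congrArg Subtype.val h.eq

/-- A normal `q`-subgroup centralized by all `q'`-elements lies in the hypercenter. -/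
theorem le_upperCentralSeries_of_centralized {G : Type*} [Group G] [Finite G] {q : ℕ}
    [Fact q.Prime] (N : Subgroup G) [N.Normal] (hN : IsPGroup q N)
    (hc : ∀ x : G, (orderOf x).Coprime q → ∀ n ∈ N, x * n = n * x) :
    ∃ c, N ≤ Subgroup.upperCentralSeries G c := by
  obtain ⟨P, hNP⟩ := hN.exists_le_sylow
  have hsup : Subgroup.centralizer (N : Set G) ⊔ (P : Subgroup G) = ⊤ := by
    rw [← Subgroup.index_eq_one]
    by_contra hne
    obtain ⟨r, hr, hrd⟩ := Nat.exists_prime_and_dvd hne
    haveI : Fact r.Prime := ⟨hr⟩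
    by_cases hrq : r = q
    · subst hrq
      exact P.not_dvd_index (dvd_trans hrd (Subgroup.index_dvd_of_le le_sup_right))
    · obtain ⟨R⟩ : Nonempty (Sylow r G) := inferInstance
      have hRC : (R : Subgroup G) ≤ Subgroup.centralizer (N : Set G) := by
        intro x hx
        obtain ⟨j, hj⟩ := exists_orderOf_eq_pow_of_mem_sylow R hx
        rw [Subgroup.mem_centralizer_iff]
        intro n hn
        have hcop : (orderOf x).Coprime q := by
          rw [hj]
          exact Nat.Coprime.pow_left j ((Nat.coprime_primes hr Fact.out).2 hrq)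
        exact (hc x hcop n hn).symm
      exact R.not_dvd_index
        (dvd_trans hrd (Subgroup.index_dvd_of_le (le_trans hRC le_sup_left)))
  have hdec : ∀ y : G, ∃ c ∈ Subgroup.centralizer (N : Set G), ∃ b ∈ (P : Subgroup G),
      y = c * b := by
    intro y
    have hy : y ∈ ((Subgroup.centralizer (N : Set G) ⊔ (P : Subgroup G) : Subgroup G) : Set G) := by
      rw [hsup]; exact Subgroup.mem_top y
    rw [Subgroup.normal_mul] at hy
    obtain ⟨c, hc', b, hb, hcb⟩ := Set.mem_mul.1 hy
    exact ⟨c, hc', b, hb, hcb.symm⟩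
  have key : ∀ i : ℕ, ∀ n : G, n ∈ N → ∀ hnP : n ∈ (P : Subgroup G),
      (⟨n, hnP⟩ : (P : Subgroup G)) ∈ Subgroup.upperCentralSeries (P : Subgroup G) i →
      n ∈ Subgroup.upperCentralSeries G i := by
    intro i
    induction i with
    | zero =>
      intro n hn hnP h
      rw [Subgroup.upperCentralSeries_zero, Subgroup.mem_bot] at h
      have e : n = 1 := congrArg Subtype.val h
      rw [e]; exact Subgroup.one_mem _
    | succ i ih =>
      intro n hn hnP h
      rw [Subgroup.mem_upperCentralSeries_succ_iff] at h ⊢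
      intro y
      obtain ⟨c, hcC, b, hb, rfl⟩ := hdec y
      rw [Subgroup.mem_centralizer_iff] at hcC
      have hnb : n * b * n⁻¹ * b⁻¹ ∈ N := by
        have h1 : b * n⁻¹ * b⁻¹ ∈ N :=
          Subgroup.Normal.conj_mem inferInstance n⁻¹ (N.inv_mem hn) b
        have h2 := N.mul_mem hn h1
        have e : n * (b * n⁻¹ * b⁻¹) = n * b * n⁻¹ * b⁻¹ := by group
        rw [e] at h2
        exact h2
      have hnbP : n * b * n⁻¹ * b⁻¹ ∈ (P : Subgroup G) := hNP hnb
      have e : ⁅n, c * b⁆ = n * b * n⁻¹ * b⁻¹ := by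
        rw [commutatorElement_def]
        have h1 := hcC n hn
        have h2 := hcC _ hnb
        calc n * (c * b) * n⁻¹ * (c * b)⁻¹ = (n * c) * (b * n⁻¹ * b⁻¹) * c⁻¹ := by group
          _ = c * (n * b * n⁻¹ * b⁻¹) * c⁻¹ := by rw [h1]; group
          _ = (n * b * n⁻¹ * b⁻¹) * c * c⁻¹ := by rw [h2]
          _ = n * b * n⁻¹ * b⁻¹ := by group
      rw [e]
      apply ih _ hnb hnbP
      exact h ⟨b, hb⟩
  haveI : Group.IsNilpotent (P : Subgroup G) := P.isPGroup'.isNilpotent
  refine ⟨Group.nilpotencyClass (P : Subgroup G), fun n hn => ?_⟩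
  apply key _ n hn (hNP hn)
  rw [Subgroup.upperCentralSeries_nilpotencyClass]
  exact Subgroup.mem_top _

theorem mem_hypercenter_of_forall_nilpotent {G : Type*} [Group G] [Finite G] (g : G)
    (h : ∀ x : G, Group.IsNilpotent ↥(Subgroup.closure ({x, g} : Set G))) :
    g ∈ ⨆ n : ℕ, Subgroup.upperCentralSeries G n := by
  apply mem_of_primary_powers_mem
  intro z hz hzo
  obtain ⟨q, b, hq, hzo⟩ := hzo
  haveI : Fact q.Prime := ⟨hq⟩
  have hzn : ∀ x : G, Group.IsNilpotent ↥(Subgroup.closure ({x, z} : Set G)) := by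
    intro x
    apply isNilpotent_of_le _ (h x)
    rw [Subgroup.closure_le]
    intro y hy
    rcases hy with hy | hy
    · rw [hy]; exact Subgroup.subset_closure (Set.mem_insert x _)
    · rw [Set.mem_singleton_iff] at hy
      rw [hy]
      exact (Subgroup.zpowers_le.2 (Subgroup.subset_closure
        (Set.mem_insert_of_mem x (Set.mem_singleton g)))) hz
  have hcomm : ∀ x : G, (orderOf x).Coprime q → x * z = z * x := by
    intro x hx
    apply commute_of_nilpotent_closure (hzn x)
    rw [hzo]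
    exact Nat.Coprime.pow_right b hx
  have hconj_ord : ∀ u : G, orderOf (u * z * u⁻¹) = q ^ b := by
    intro u
    rw [← hzo, ← MulAut.conj_apply]
    exact MulEquiv.orderOf_eq _ _
  obtain ⟨N₀, hN₀n, hN₀p, hN₀X⟩ := baer_suzuki_normal (p := q)
    {y : G | ∃ u : G, y = u * z * u⁻¹}
    (by
      rintro g' x ⟨u, rfl⟩
      exact ⟨g' * u, by group⟩)
    (by
      rintro y₁ ⟨h₁, rfl⟩ y₂ ⟨h₂, rfl⟩
      have h1 : IsPGroup q
          ↥(Subgroup.closure ({z, (h₁⁻¹ * h₂) * z * (h₁⁻¹ * h₂)⁻¹} : Set G)) := by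
        apply isPGroup_closure_pair_of_nilpotent ⟨b, hzo⟩ ⟨b, hconj_ord _⟩
        have h0 := hzn ((h₁⁻¹ * h₂) * z * (h₁⁻¹ * h₂)⁻¹)
        rwa [Set.pair_comm] at h0
      have e1 : (MulAut.conj h₁).toMonoidHom z = h₁ * z * h₁⁻¹ := rfl
      have e2 : (MulAut.conj h₁).toMonoidHom ((h₁⁻¹ * h₂) * z * (h₁⁻¹ * h₂)⁻¹) =
          h₂ * z * h₂⁻¹ := by
        show h₁ * ((h₁⁻¹ * h₂) * z * (h₁⁻¹ * h₂)⁻¹) * h₁⁻¹ = h₂ * z * h₂⁻¹
        group
      have e : Subgroup.closure ({h₁ * z * h₁⁻¹, h₂ * z * h₂⁻¹} : Set G) =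
          (Subgroup.closure ({z, (h₁⁻¹ * h₂) * z * (h₁⁻¹ * h₂)⁻¹} : Set G)).map
            (MulAut.conj h₁).toMonoidHom := by
        rw [MonoidHom.map_closure, Set.image_pair, e1, e2]
      rw [e]
      exact h1.map _)
  have hNle : Subgroup.normalClosure ({z} : Set G) ≤ N₀ := by
    haveI := hN₀n
    apply Subgroup.normalClosure_le_normal
    intro y hy
    rw [Set.mem_singleton_iff] at hy
    rw [hy]
    exact hN₀X z ⟨1, by group⟩
  have hNp : IsPGroup q ↥(Subgroup.normalClosure ({z} : Set G)) := hN₀p.to_le hNle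
  have hNc : ∀ x : G, (orderOf x).Coprime q →
      ∀ n ∈ Subgroup.normalClosure ({z} : Set G), x * n = n * x := by
    intro x hx n hn
    have hle : Subgroup.normalClosure ({z} : Set G) ≤ Subgroup.centralizer ({x} : Set G) := by
      unfold Subgroup.normalClosure
      rw [Subgroup.closure_le]
      intro y hy
      rw [Group.mem_conjugatesOfSet_iff] at hy
      obtain ⟨a, ha, hay⟩ := hy
      rw [Set.mem_singleton_iff] at ha
      rw [ha, isConj_iff] at hay
      obtain ⟨u, hu⟩ := hay
      rw [SetLike.mem_coe, Subgroup.mem_centralizer_iff]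
      intro w hw
      rw [Set.mem_singleton_iff] at hw
      rw [hw, ← hu]
      have h1 : orderOf (u⁻¹ * x * u) = orderOf x := by
        have h0 := MulEquiv.orderOf_eq (MulAut.conj u⁻¹) x
        rw [MulAut.conj_apply, inv_inv] at h0
        exact h0
      have h2 := hcomm (u⁻¹ * x * u) (by rw [h1]; exact hx)
      calc x * (u * z * u⁻¹) = u * (u⁻¹ * x * u * z) * u⁻¹ := by group
        _ = u * (z * (u⁻¹ * x * u)) * u⁻¹ := by rw [h2]
        _ = u * z * u⁻¹ * x := by group
    have h3 := hle hn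
    rw [Subgroup.mem_centralizer_iff] at h3
    exact h3 x (Set.mem_singleton x)
  obtain ⟨c, hc⟩ := le_upperCentralSeries_of_centralized
    (Subgroup.normalClosure ({z} : Set G)) hNp hNc
  exact Subgroup.mem_iSup_of_mem c (hc (Subgroup.subset_normalClosure (Set.mem_singleton z)))

theorem mem_upperCentralSeries_subgroup {G : Type*} [Group G] (H : Subgroup G) :
    ∀ n (h : H), (h : G) ∈ Subgroup.upperCentralSeries G n →
      h ∈ Subgroup.upperCentralSeries H n := by
  intro n
  induction n with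
  | zero =>
    intro h hh
    rw [Subgroup.upperCentralSeries_zero, Subgroup.mem_bot] at hh ⊢
    exact Subtype.ext hh
  | succ n ih =>
    intro h hh
    rw [Subgroup.mem_upperCentralSeries_succ_iff] at hh ⊢
    intro y
    exact ih _ (hh y.1)

theorem isNilpotent_of_closure_pair_eq_top {H : Type*} [Group H] (x g : H) (n : ℕ)
    (hg : g ∈ Subgroup.upperCentralSeries H n)
    (htop : Subgroup.closure ({x, g} : Set H) = ⊤) : Group.IsNilpotent H := by
  have hall : ∀ h : H, QuotientGroup.mk' (Subgroup.upperCentralSeries H n) h ∈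
      Subgroup.zpowers (QuotientGroup.mk' (Subgroup.upperCentralSeries H n) x) := by
    have hle : Subgroup.closure ({x, g} : Set H) ≤
        (Subgroup.zpowers (QuotientGroup.mk' (Subgroup.upperCentralSeries H n) x)).comap
          (QuotientGroup.mk' (Subgroup.upperCentralSeries H n)) := by
      rw [Subgroup.closure_le]
      intro h hh
      rw [SetLike.mem_coe, Subgroup.mem_comap]
      rcases hh with h1 | h1
      · rw [h1]; exact Subgroup.mem_zpowers _
      · rw [Set.mem_singleton_iff] at h1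
        rw [h1]
        have h2 : QuotientGroup.mk' (Subgroup.upperCentralSeries H n) g = 1 :=
          (QuotientGroup.eq_one_iff _).2 hg
        rw [h2]; exact Subgroup.one_mem _
    intro h
    apply hle
    rw [htop]; exact Subgroup.mem_top h
  refine ⟨⟨n + 1, ?_⟩⟩
  rw [eq_top_iff]
  intro h _
  rw [Subgroup.mem_upperCentralSeries_succ_iff]
  intro y
  obtain ⟨a, ha⟩ := Subgroup.mem_zpowers_iff.1 (hall h)
  obtain ⟨b, hb⟩ := Subgroup.mem_zpowers_iff.1 (hall y)
  have h3 : QuotientGroup.mk' (Subgroup.upperCentralSeries H n) ⁅h, y⁆ = 1 := by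
    rw [map_commutatorElement, ← ha, ← hb, commutatorElement_eq_one_iff_commute]
    exact (Commute.refl _).zpow_zpow a b
  exact (QuotientGroup.eq_one_iff _).1 h3

theorem nilpotent_closure_of_mem_upperCentralSeries {G : Type*} [Group G] (g x : G) (n : ℕ)
    (hg : g ∈ Subgroup.upperCentralSeries G n) :
    Group.IsNilpotent ↥(Subgroup.closure ({x, g} : Set G)) := by
  have hxH : x ∈ Subgroup.closure ({x, g} : Set G) :=
    Subgroup.subset_closure (Set.mem_insert x _)
  have hgH : g ∈ Subgroup.closure ({x, g} : Set G) :=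
    Subgroup.subset_closure (Set.mem_insert_of_mem x (Set.mem_singleton g))
  apply isNilpotent_of_closure_pair_eq_top
    (⟨x, hxH⟩ : ↥(Subgroup.closure ({x, g} : Set G))) ⟨g, hgH⟩ n
  · exact mem_upperCentralSeries_subgroup _ n ⟨g, hgH⟩ hg
  · rw [eq_top_iff, ← Subgroup.closure_closure_coe_preimage (k := ({x, g} : Set G))]
    apply Subgroup.closure_mono
    intro h hh
    have hh' : (h : G) ∈ ({x, g} : Set G) := hh
    rcases hh' with h1 | h1
    · exact Set.mem_insert_iff.2 (Or.inl (Subtype.ext h1))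
    · rw [Set.mem_singleton_iff] at h1
      exact Set.mem_insert_iff.2 (Or.inr (Set.mem_singleton_iff.2 (Subtype.ext h1)))

theorem exists_mem_upperCentralSeries_of_mem_iSup {G : Type*} [Group G] {g : G}
    (hg : g ∈ ⨆ n : ℕ, Subgroup.upperCentralSeries G n) :
    ∃ n, g ∈ Subgroup.upperCentralSeries G n :=
  (Subgroup.mem_iSup_of_directed (Subgroup.upperCentralSeries_mono G).directed_le).1 hg

end Cfsg.Agent.Helper21
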