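import Mathlib
import Cfsg.Agent.S2167

/-!
[T1] of the S2584 sprint: in characteristic two, an isometry `A` of a quadratic form with
nondegenerate polar form has even rank of `(A - 1) ^ k` for every even `k`.
-/

set_option autoImplicit false

namespace Cfsg.Agent.Helper21

open Matrix

theorem jo2x_twist {F : Type*} [Field F] {ι : Type*} [Fintype ι] [DecidableEq ι]
    (A P : Matrix ι ι F) (hA : Aᵀ * P * A = P) (i : ℕ) :
    ((A - 1)ᵀ) ^ i * P * A ^ i = (-1 : F) ^ i • (P * (A - 1) ^ i) := by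
  have h1 : (A - 1)ᵀ * P * A = -(P * (A - 1)) := by
    rw [Matrix.transpose_sub, Matrix.transpose_one, sub_mul, sub_mul, hA, one_mul, mul_sub,
      mul_one]
    abel
  have hc : Commute A (A - 1) := (Commute.refl A).sub_right (Commute.one_right A)
  induction i with
  | zero => simp
  | succ i ih =>
    have hci : A * (A - 1) ^ i = (A - 1) ^ i * A := (hc.pow_right i).eq
    calc ((A - 1)ᵀ) ^ (i + 1) * P * A ^ (i + 1)
        = (A - 1)ᵀ * (((A - 1)ᵀ) ^ i * P * A ^ i) * A := by
          rw [pow_succ' ((A - 1)ᵀ) i, pow_succ A i]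
          simp only [mul_assoc]
      _ = (A - 1)ᵀ * ((-1 : F) ^ i • (P * (A - 1) ^ i)) * A := by rw [ih]
      _ = (-1 : F) ^ i • ((A - 1)ᵀ * P * ((A - 1) ^ i * A)) := by
          rw [Matrix.mul_smul, Matrix.smul_mul]
          simp only [mul_assoc]
      _ = (-1 : F) ^ i • (((A - 1)ᵀ * P * A) * (A - 1) ^ i) := by
          rw [← hci]
          simp only [mul_assoc]
      _ = (-1 : F) ^ i • ((-(P * (A - 1))) * (A - 1) ^ i) := by rw [h1]
      _ = (-1 : F) ^ (i + 1) • (P * (A - 1) ^ (i + 1)) := by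
          rw [pow_succ (-1 : F) i, pow_succ' (A - 1) i, neg_mul, smul_neg, mul_neg_one,
            neg_smul, mul_assoc]

/-- Even powers of `A - 1` have even rank when `A` preserves a nondegenerate alternating matrix
(any finite index type, any field). -/
theorem jo2x_alt_rank_even {F : Type*} [Field F] {ι : Type*} [Fintype ι] [DecidableEq ι]
    (A P : Matrix ι ι F) (halt : ∀ v, v ⬝ᵥ P *ᵥ v = 0)
    (hdet : P.det ≠ 0) (hA : Aᵀ * P * A = P) (k : ℕ) (hk : Even k) :
    Even ((A - 1) ^ k).rank := by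
  obtain ⟨i, rfl⟩ := hk
  have hdetA : A.det ≠ 0 := by
    intro h0
    apply hdet
    have h := congrArg Matrix.det hA
    rw [Matrix.det_mul, Matrix.det_mul, h0, mul_zero] at h
    exact h.symm
  have hS : Even (((A - 1) ^ i)ᵀ * P * (A - 1) ^ i).rank := by
    apply Cfsg.Agent.S2167.even_rank_of_alt
    intro v
    rw [← Matrix.mulVec_mulVec, ← Matrix.mulVec_mulVec, Matrix.dotProduct_mulVec,
      Matrix.vecMul_transpose]
    exact halt _
  have hc : Commute A (A - 1) := (Commute.refl A).sub_right (Commute.one_right A)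
  have hci : (A - 1) ^ i * A ^ i = A ^ i * (A - 1) ^ i := ((hc.pow_pow i i).eq).symm
  have hkey : ((A - 1) ^ i)ᵀ * P * (A - 1) ^ i * A ^ i
      = ((-1 : F) ^ i • P) * (A - 1) ^ (i + i) := by
    calc ((A - 1) ^ i)ᵀ * P * (A - 1) ^ i * A ^ i
        = (((A - 1)ᵀ) ^ i * P * A ^ i) * (A - 1) ^ i := by
          rw [Matrix.transpose_pow, mul_assoc _ ((A - 1) ^ i) (A ^ i), hci]
          simp only [mul_assoc]
      _ = ((-1 : F) ^ i • P) * (A - 1) ^ (i + i) := by
          rw [jo2x_twist A P hA i, pow_add, Matrix.smul_mul, Matrix.smul_mul, mul_assoc]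
  have hu1 : IsUnit (A ^ i).det := by
    rw [Matrix.det_pow]
    exact (isUnit_iff_ne_zero.mpr hdetA).pow i
  have hu2 : IsUnit ((-1 : F) ^ i • P).det := by
    rw [Matrix.det_smul]
    exact isUnit_iff_ne_zero.mpr
      (mul_ne_zero (pow_ne_zero _ (pow_ne_zero _ (neg_ne_zero.mpr one_ne_zero))) hdet)
  have hr : (((A - 1) ^ i)ᵀ * P * (A - 1) ^ i).rank = ((A - 1) ^ (i + i)).rank := by
    rw [← Matrix.rank_mul_eq_left_of_isUnit_det (A ^ i) _ hu1, hkey,
      Matrix.rank_mul_eq_right_of_isUnit_det _ _ hu2]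
  rw [← hr]
  exact hS

/-- [T1] -/
theorem orth2_rank_even {F : Type*} [Field F] [CharP F 2] {n : ℕ}
    (Q : QuadraticForm F (Fin n → F)) (hQ : (QuadraticMap.polarBilin Q).Nondegenerate)
    (A : Matrix (Fin n) (Fin n) F) (hA : ∀ v, Q (A *ᵥ v) = Q v) (k : ℕ) (hk : Even k) :
    Even ((A - 1) ^ k).rank := by
  classical
  have hP : ∀ v w : Fin n → F,
      v ⬝ᵥ (LinearMap.BilinForm.toMatrix' (QuadraticMap.polarBilin Q)) *ᵥ w
        = QuadraticMap.polar (⇑Q) v w := by
    intro v w
    rw [← Matrix.toBilin'_apply', Matrix.toBilin'_toMatrix',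
      QuadraticMap.polarBilin_apply_apply]
  have halt : ∀ v : Fin n → F,
      v ⬝ᵥ (LinearMap.BilinForm.toMatrix' (QuadraticMap.polarBilin Q)) *ᵥ v = 0 := by
    intro v
    rw [hP v v]
    have hvv : v + v = 0 := by
      funext i
      exact CharTwo.add_self_eq_zero (v i)
    have hqq : Q v + Q v = 0 := CharTwo.add_self_eq_zero (Q v)
    unfold QuadraticMap.polar
    rw [hvv, map_zero, zero_sub, sub_eq_add_neg, ← neg_add, hqq, neg_zero]
  have hdet : (LinearMap.BilinForm.toMatrix' (QuadraticMap.polarBilin Q)).det ≠ 0 := by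
    rw [← Matrix.nondegenerate_iff_det_ne_zero]
    exact LinearMap.BilinForm.nondegenerate_toMatrix'_iff.mpr hQ
  have hAP : Aᵀ * (LinearMap.BilinForm.toMatrix' (QuadraticMap.polarBilin Q)) * A
      = LinearMap.BilinForm.toMatrix' (QuadraticMap.polarBilin Q) := by
    have h2 : LinearMap.BilinForm.comp (QuadraticMap.polarBilin Q) (Matrix.toLin' A)
        (Matrix.toLin' A) = QuadraticMap.polarBilin Q := by
      apply LinearMap.ext₂
      intro u w
      simp only [LinearMap.BilinForm.comp_apply, Matrix.toLin'_apply,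
        QuadraticMap.polarBilin_apply_apply, QuadraticMap.polar, ← Matrix.mulVec_add, hA]
    have h3 := congrArg LinearMap.BilinForm.toMatrix' h2
    rw [LinearMap.BilinForm.toMatrix'_comp] at h3
    simpa using h3
  exact jo2x_alt_rank_even A _ halt hdet hAP k hk

end Cfsg.Agent.Helper21
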