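import Mathlib
import Cfsg.Prelude.Def_Classical
import Cfsg.Prelude.Def_JordanBlocks
import Cfsg.Agent.Helper21.JordOrth2
import Cfsg.Agent.Helper21.JordSympFwd

/-!
Forward direction of S2584 (orthogonal groups in characteristic two) as a lemma, with the
signature fixed in the team sprint: from `orth2_rank_even` (T1), `js21_rank_conj`,
P1 (Helper2) and R4 (Helper24).
-/

set_option autoImplicit false

namespace Cfsg.Agent.Helper21

open Matrix

theorem s2584_fwd {F : Type*} [Field F] [CharP F 2] {n t : ℕ} (d : Fin t → ℕ)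
    (Q : QuadraticForm F (Fin n → F)) (hQ : (QuadraticMap.polarBilin Q).Nondegenerate)
    (e : ((k : Fin t) × Fin (d k)) ≃ Fin n) (A : ↥(Cfsg.isometryGroup F ⇑Q))
    (hconj : IsConj (Matrix.reindex e e (Cfsg.jordanTypeMatrix d F))
      ((A : Matrix.GeneralLinearGroup (Fin n) F) : Matrix (Fin n) (Fin n) F)) :
    ∀ j : ℕ, Odd j → Even (Finset.univ.filter (fun k : Fin t => d k = j)).card := by
  classical
  have hev : ∀ k, Even k → Even (∑ i, (d i - k)) := by
    intro k hk
    rw [← Cfsg.Agent.Helper2.jordanType_rank (F := F) d k, ← js21_rank_conj e _ _ hconj k]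
    exact orth2_rank_even Q hQ _ (fun v => A.2 v v) k hk
  exact Cfsg.Agent.Helper24.count_even_of_rank_even_odd d hev

end Cfsg.Agent.Helper21
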