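import Mathlib
import Cfsg.Agent.Helper1.FpfNil2
import Cfsg.Agent.Helper12.Syl

set_option autoImplicit false

namespace Cfsg.Agent.Helper21

/-- If `y ^ a ∈ H` and `y ^ b ∈ H` with `a`, `b` coprime, then `y ∈ H`. -/
theorem mem_of_pow_mem_of_coprime_mc {G : Type*} [Group G] (H : Subgroup G) (y : G) (a b : ℕ)
    (hab : Nat.Coprime a b) (ha : y ^ a ∈ H) (hb : y ^ b ∈ H) : y ∈ H := by
  have h1 : (a : ℤ) * Nat.gcdA a b + (b : ℤ) * Nat.gcdB a b = 1 := by
    rw [← Nat.gcd_eq_gcd_ab, Nat.Coprime.gcd_eq_one hab, Nat.cast_one]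
  have h2 : y = (y ^ a) ^ (Nat.gcdA a b) * (y ^ b) ^ (Nat.gcdB a b) := by
    rw [← zpow_natCast, ← zpow_natCast, ← zpow_mul, ← zpow_mul, ← zpow_add, h1, zpow_one]
  rw [h2]
  exact H.mul_mem (H.zpow_mem ha _) (H.zpow_mem hb _)

/-- If every element outside the normal subgroup `N` has prime power order, then every element
commuting with an element `y ∉ N` of `q`-power order is a `q`-element. -/
theorem centralizer_pelement_of_outside {G : Type*} [Group G] [Finite G] (N : Subgroup G)
    [N.Normal] (h : ∀ x : G, x ∉ N → IsPrimePow (orderOf x))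
    (y : G) (hy : y ∉ N) (q j : ℕ) (hq : q.Prime) (hyo : orderOf y = q ^ j) :
    ∀ u : G, u * y = y * u → ∃ i : ℕ, u ^ q ^ i = 1 := by
  have hyq : y ^ q ^ j = 1 := by rw [← hyo]; exact pow_orderOf_eq_one y
  have hj : j ≠ 0 := by
    intro h0
    rw [h0, pow_zero, orderOf_eq_one_iff] at hyo
    exact hy (hyo ▸ N.one_mem)
  have hA : ∀ u : G, u * y = y * u → u ∈ N → ∃ i : ℕ, u ^ q ^ i = 1 := by
    intro u huy huN
    have hyu : y * u ∉ N := fun hc => hy (by
      have := N.mul_mem hc (N.inv_mem huN)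
      simpa using this)
    have hcomm : Commute y u := huy.symm
    obtain ⟨s, i, hs, hi, hsi⟩ := (isPrimePow_nat_iff _).1 (h _ hyu)
    have hpow : (y * u) ^ s ^ i = 1 := by rw [hsi]; exact pow_orderOf_eq_one _
    by_cases hsq : s = q
    · rw [hsq] at hpow
      refine ⟨i + j, ?_⟩
      have h1 : (y * u) ^ q ^ (i + j) = 1 := by
        rw [pow_add, pow_mul, hpow, one_pow]
      rw [hcomm.mul_pow] at h1
      have h2 : y ^ q ^ (i + j) = 1 := by
        rw [pow_add, mul_comm, pow_mul, hyq, one_pow]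
      rwa [h2, one_mul] at h1
    · exfalso
      rw [hcomm.mul_pow] at hpow
      have h1 : y ^ s ^ i ∈ N := by
        have : y ^ s ^ i = (u ^ s ^ i)⁻¹ := eq_inv_of_mul_eq_one_left hpow
        rw [this]
        exact N.inv_mem (N.pow_mem huN _)
      have h2 : y ^ q ^ j ∈ N := by rw [hyq]; exact N.one_mem
      have hcop : Nat.Coprime (s ^ i) (q ^ j) :=
        Nat.Coprime.pow _ _ ((Nat.coprime_primes hs hq).2 hsq)
      exact hy (mem_of_pow_mem_of_coprime_mc N y _ _ hcop h1 h2)
  intro u huy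
  by_cases huN : u ∈ N
  · exact hA u huy huN
  obtain ⟨s, i, hs, hi, hsi⟩ := (isPrimePow_nat_iff _).1 (h _ huN)
  have hus : u ^ s ^ i = 1 := by rw [hsi]; exact pow_orderOf_eq_one _
  by_cases hsq : s = q
  · exact ⟨i, hsq ▸ hus⟩
  exfalso
  have hcomm : Commute y u := huy.symm
  by_cases hyuN : y * u ∈ N
  · have hyuy : (y * u) * y = y * (y * u) := by rw [mul_assoc, huy]
    obtain ⟨i', hi'⟩ := hA (y * u) hyuy hyuN
    have h1 : (y * u) ^ q ^ (i' + j) = 1 := by rw [pow_add, pow_mul, hi', one_pow]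
    rw [hcomm.mul_pow] at h1
    have h2 : y ^ q ^ (i' + j) = 1 := by rw [pow_add, mul_comm, pow_mul, hyq, one_pow]
    rw [h2, one_mul] at h1
    have h3 : s ^ i ∣ q ^ (i' + j) := by rw [hsi]; exact orderOf_dvd_of_pow_eq_one h1
    have h4 : s ∣ q ^ (i' + j) := (dvd_pow_self s hi.ne').trans h3
    exact hsq ((Nat.prime_dvd_prime_iff_eq hs hq).1 (hs.dvd_of_dvd_pow h4))
  · obtain ⟨t, l, ht, hl, htl⟩ := (isPrimePow_nat_iff _).1 (h _ hyuN)
    have hpow : (y * u) ^ t ^ l = 1 := by rw [htl]; exact pow_orderOf_eq_one _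
    rw [hcomm.mul_pow] at hpow
    have he : y ^ t ^ l = (u ^ t ^ l)⁻¹ := eq_inv_of_mul_eq_one_left hpow
    have he1 : (y ^ t ^ l) ^ q ^ j = 1 := by
      rw [← pow_mul, mul_comm, pow_mul, hyq, one_pow]
    have he2 : (y ^ t ^ l) ^ s ^ i = 1 := by
      rw [he, inv_pow, ← pow_mul, mul_comm, pow_mul, hus, one_pow, inv_one]
    have hcop : Nat.Coprime (q ^ j) (s ^ i) :=
      Nat.Coprime.pow _ _ ((Nat.coprime_primes hq hs).2 (Ne.symm hsq))
    have he3 : y ^ t ^ l = 1 := by
      have hm := mem_of_pow_mem_of_coprime_mc (⊥ : Subgroup G) (y ^ t ^ l) _ _ hcop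
        (by rw [he1]; exact Subgroup.one_mem _) (by rw [he2]; exact Subgroup.one_mem _)
      exact Subgroup.mem_bot.1 hm
    have he4 : u ^ t ^ l = 1 := by
      rw [he3] at he
      exact inv_eq_one.1 he.symm
    have h5 : q ^ j ∣ t ^ l := by rw [← hyo]; exact orderOf_dvd_of_pow_eq_one he3
    have h6 : s ^ i ∣ t ^ l := by rw [hsi]; exact orderOf_dvd_of_pow_eq_one he4
    have h7 : q = t :=
      (Nat.prime_dvd_prime_iff_eq hq ht).1 (hq.dvd_of_dvd_pow ((dvd_pow_self q hj).trans h5))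
    have h8 : s = t :=
      (Nat.prime_dvd_prime_iff_eq hs ht).1 (hs.dvd_of_dvd_pow ((dvd_pow_self s hi.ne').trans h6))
    exact hsq (h8.trans h7.symm)

/-- Membership in the centralizer of a singleton. -/
theorem mem_centralizer_singleton_iff' {G : Type*} [Group G] (x u : G) :
    u ∈ Subgroup.centralizer ({x} : Set G) ↔ u * x = x * u := by
  rw [Subgroup.mem_centralizer_iff]
  constructor
  · intro hu
    exact (hu x (Set.mem_singleton x)).symm
  · intro hu y hy
    rw [Set.mem_singleton_iff] at hy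
    rw [hy]
    exact hu.symm

/-- S3903: if every element outside the proper normal subgroup `N` has prime power order and a
maximal centralizer, then `N` is solvable. -/
theorem solvable_of_outside_coatom {G : Type*} [Group G] [Finite G] (N : Subgroup G) [N.Normal]
    (hN : N ≠ ⊤)
    (h : ∀ x : G, x ∉ N → IsPrimePow (orderOf x) ∧ IsCoatom (Subgroup.centralizer ({x} : Set G))) :
    Group.IsSolvable ↥N := by
  classical
  have hpp : ∀ x : G, x ∉ N → IsPrimePow (orderOf x) := fun x hx => (h x hx).1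
  obtain ⟨x, hx⟩ : ∃ x : G, x ∉ N := by
    by_contra hcon
    push_neg at hcon
    exact hN ((Subgroup.eq_top_iff' N).2 hcon)
  obtain ⟨p, k, hp, hk, hxo⟩ := (isPrimePow_nat_iff _).1 (hpp x hx)
  haveI : Fact p.Prime := ⟨hp⟩
  have hxco := (h x hx).2
  set M : Subgroup G := Subgroup.centralizer ({x} : Set G) with hMdef
  have hmemM : ∀ u : G, u ∈ M ↔ u * x = x * u := fun u => mem_centralizer_singleton_iff' x u
  have hMp : IsPGroup p M := by
    intro u
    obtain ⟨i, hi⟩ := centralizer_pelement_of_outside N hpp x hx p k hp hxo.symm u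
      ((hmemM u).1 u.2)
    exact ⟨i, Subtype.ext (by rw [Subgroup.coe_pow, Subgroup.coe_one]; exact hi)⟩
  by_cases hGp : IsPGroup p G
  · haveI : Group.IsNilpotent G := hGp.isNilpotent
    haveI : Group.IsSolvable G := IsNilpotent.to_isSolvable
    exact Group.isSolvable_of_isSolvable_injective N.subtype_injective
  obtain ⟨P, hMP⟩ := hMp.exists_le_sylow
  have hMeq : M = (P : Subgroup G) := by
    by_contra hne
    have hlt : M < (P : Subgroup G) := lt_of_le_of_ne hMP hne
    have htop := hxco.2 _ hlt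
    apply hGp
    intro g
    have hg : g ∈ (P : Subgroup G) := by rw [htop]; exact Subgroup.mem_top g
    obtain ⟨i, hi⟩ := P.isPGroup' ⟨g, hg⟩
    have h1 := congrArg Subtype.val hi
    rw [Subgroup.coe_pow, Subgroup.coe_one] at h1
    exact ⟨i, h1⟩
  by_cases hNM : N ≤ M
  · have hNp : IsPGroup p N := hMp.to_le hNM
    haveI : Group.IsNilpotent N := hNp.isNilpotent
    exact IsNilpotent.to_isSolvable
  have hsup : N ⊔ M = ⊤ := by
    apply hxco.2
    refine lt_of_le_of_ne le_sup_right ?_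
    intro heq
    apply hNM
    rw [heq]
    exact le_sup_left
  -- elements outside `N` are `p`-elements
  have hpel : ∀ y : G, y ∉ N → ∃ j : ℕ, orderOf y = p ^ j := by
    intro y hy
    obtain ⟨q, j, hq, hj, hyo⟩ := (isPrimePow_nat_iff _).1 (hpp y hy)
    have hyq : y ^ q ^ j = 1 := by rw [hyo]; exact pow_orderOf_eq_one y
    by_cases hqp : q = p
    · exact ⟨j, by rw [← hyo, hqp]⟩
    exfalso
    have hymem : y ∈ ((N ⊔ M : Subgroup G) : Set G) := by rw [hsup]; exact Subgroup.mem_top y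
    rw [Subgroup.normal_mul] at hymem
    obtain ⟨n, hn, m, hm, rfl⟩ := Set.mem_mul.1 hymem
    obtain ⟨i, hi⟩ := hMp ⟨m, hm⟩
    have hmi : m ^ p ^ i = 1 := by
      have h1 := congrArg Subtype.val hi
      rwa [Subgroup.coe_pow, Subgroup.coe_one] at h1
    have h1 : (n * m) ^ p ^ i ∈ N := by
      rw [← QuotientGroup.eq_one_iff, QuotientGroup.mk_pow, QuotientGroup.mk_mul,
        (QuotientGroup.eq_one_iff n).2 hn, one_mul, ← QuotientGroup.mk_pow, hmi,
        QuotientGroup.mk_one]
    have h2 : (n * m) ^ q ^ j ∈ N := by rw [hyq]; exact N.one_mem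
    have hcop : Nat.Coprime (p ^ i) (q ^ j) :=
      Nat.Coprime.pow _ _ ((Nat.coprime_primes hp hq).2 (Ne.symm hqp))
    exact hy (mem_of_pow_mem_of_coprime_mc N _ _ _ hcop h1 h2)
  -- centralizers of elements outside `N` are conjugates of `M`
  have hcent : ∀ y : G, y ∉ N → ∃ g : G, ∀ u : G, u * y = y * u ↔ g⁻¹ * u * g ∈ M := by
    intro y hy
    obtain ⟨j, hyo⟩ := hpel y hy
    have hyco := (h y hy).2
    have hmemC : ∀ u : G, u ∈ Subgroup.centralizer ({y} : Set G) ↔ u * y = y * u :=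
      fun u => mem_centralizer_singleton_iff' y u
    have hCp : IsPGroup p (Subgroup.centralizer ({y} : Set G)) := by
      intro u
      obtain ⟨i, hi⟩ := centralizer_pelement_of_outside N hpp y hy p j hp hyo u
        ((hmemC u).1 u.2)
      exact ⟨i, Subtype.ext (by rw [Subgroup.coe_pow, Subgroup.coe_one]; exact hi)⟩
    obtain ⟨P', hCP'⟩ := hCp.exists_le_sylow
    have hCeq : Subgroup.centralizer ({y} : Set G) = (P' : Subgroup G) := by
      by_contra hne
      have hlt : Subgroup.centralizer ({y} : Set G) < (P' : Subgroup G) := lt_of_le_of_ne hCP' hne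
      have htop := hyco.2 _ hlt
      apply hGp
      intro g
      have hg : g ∈ (P' : Subgroup G) := by rw [htop]; exact Subgroup.mem_top g
      obtain ⟨i, hi⟩ := P'.isPGroup' ⟨g, hg⟩
      have h1 := congrArg Subtype.val hi
      rw [Subgroup.coe_pow, Subgroup.coe_one] at h1
      exact ⟨i, h1⟩
    obtain ⟨g, hg⟩ := MulAction.exists_smul_eq G P P'
    refine ⟨g, fun u => ?_⟩
    rw [← hmemC u, hCeq, ← hg, hMeq]
    exact Cfsg.Agent.Helper12.mem_sylow_smul_iff P g u
  have hconj : ∀ y : G, y ∉ N → ∃ g z : G, z ∈ M ∧ z ∉ N ∧ (∀ m ∈ M, z * m = m * z) ∧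
      y = g * z * g⁻¹ := by
    intro y hy
    obtain ⟨g, hg⟩ := hcent y hy
    refine ⟨g, g⁻¹ * y * g, (hg y).1 rfl, ?_, ?_, by group⟩
    · intro hc
      apply hy
      have h1 := (inferInstance : N.Normal).conj_mem _ hc g
      have e : g * (g⁻¹ * y * g) * g⁻¹ = y := by group
      rwa [e] at h1
    · intro m hm
      have h1 : g⁻¹ * (g * m * g⁻¹) * g ∈ M := by
        have e : g⁻¹ * (g * m * g⁻¹) * g = m := by group
        rw [e]; exact hm
      have h2 := (hg (g * m * g⁻¹)).2 h1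
      calc g⁻¹ * y * g * m = g⁻¹ * (y * (g * m * g⁻¹)) * g := by group
        _ = g⁻¹ * (g * m * g⁻¹ * y) * g := by rw [h2]
        _ = m * (g⁻¹ * y * g) := by group
  -- counting: every element of `M` outside `N` is central in `M`
  have hcentral : ∀ z : G, z ∈ M → z ∉ N → ∀ m ∈ M, z * m = m * z := by
    let W : Set G := {z | z ∈ M ∧ z ∉ N}
    let Z₀ : Set G := {z | z ∈ M ∧ z ∉ N ∧ ∀ m ∈ M, z * m = m * z}
    have hZW : Z₀ ⊆ W := fun z hz => ⟨hz.1, hz.2.1⟩
    have hsub : ((N : Set G)ᶜ) ⊆ (fun a : (G ⧸ M) × G => Quotient.out a.1 * a.2 *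
        (Quotient.out a.1)⁻¹) '' ((Set.univ : Set (G ⧸ M)) ×ˢ Z₀) := by
      intro y hy
      obtain ⟨g, z, hzM, hzN, hzc, rfl⟩ := hconj y hy
      obtain ⟨m, hm⟩ := QuotientGroup.mk_out_eq_mul M g
      refine ⟨((g : G ⧸ M), z), ⟨Set.mem_univ _, hzM, hzN, hzc⟩, ?_⟩
      show Quotient.out (g : G ⧸ M) * z * (Quotient.out (g : G ⧸ M))⁻¹ = g * z * g⁻¹
      rw [hm]
      have h1 := hzc m m.2
      calc g * ↑m * z * (g * ↑m)⁻¹ = g * (↑m * z) * (↑m)⁻¹ * g⁻¹ := by group
        _ = g * (z * ↑m) * (↑m)⁻¹ * g⁻¹ := by rw [h1]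
        _ = g * z * g⁻¹ := by group
    have hfin : ((Set.univ : Set (G ⧸ M)) ×ˢ Z₀).Finite := Set.toFinite _
    have h1 : ((N : Set G)ᶜ).ncard ≤ ((Set.univ : Set (G ⧸ M)) ×ˢ Z₀).ncard :=
      (Set.ncard_le_ncard hsub (Set.toFinite _)).trans (Set.ncard_image_le hfin)
    rw [Set.ncard_prod, Set.ncard_univ] at h1
    have hNc : (N : Set G).ncard = Nat.card N := (Nat.card_coe_set_eq (N : Set G)).symm
    have hMc : (M : Set G).ncard = Nat.card M := (Nat.card_coe_set_eq (M : Set G)).symm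
    have hMNc : ((M ⊓ N : Subgroup G) : Set G).ncard = Nat.card (M ⊓ N : Subgroup G) :=
      (Nat.card_coe_set_eq ((M ⊓ N : Subgroup G) : Set G)).symm
    have h2 : ((N : Set G)ᶜ).ncard = Nat.card G - Nat.card N := by
      rw [Set.ncard_compl, hNc]
    have hWeq : W = (M : Set G) \ ((M ⊓ N : Subgroup G) : Set G) := by
      ext z
      simp only [W, Set.mem_setOf_eq, Set.mem_diff, SetLike.mem_coe, Subgroup.mem_inf]
      tauto
    have h3 : W.ncard = Nat.card M - Nat.card (M ⊓ N : Subgroup G) := by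
      rw [hWeq, Set.ncard_diff (fun z hz => (Subgroup.mem_inf.1 hz).1), hMc, hMNc]
    -- index arithmetic
    have e1 : Nat.card (M ⊓ N : Subgroup G) * N.index = Nat.card M := by
      have a1 := Subgroup.relIndex_mul_relIndex (⊥ : Subgroup G) (M ⊓ N) M bot_le inf_le_left
      rw [Subgroup.relIndex_bot_left, Subgroup.relIndex_bot_left, Subgroup.inf_relIndex_left] at a1
      have a2 : N.relIndex M = N.index := by
        rw [← Subgroup.relIndex_sup_left (K := N) (H := M), hsup, Subgroup.relIndex_top_right]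
      rw [a2] at a1
      exact a1
    have e2 : Nat.card N * N.index = Nat.card G := Subgroup.card_mul_index N
    have e3 : Nat.card M * M.index = Nat.card G := Subgroup.card_mul_index M
    have hNi : 0 < N.index := Nat.pos_of_ne_zero Subgroup.index_ne_zero_of_finite
    have hMi : 0 < M.index := Nat.pos_of_ne_zero Subgroup.index_ne_zero_of_finite
    have e4 : Nat.card N = Nat.card (M ⊓ N : Subgroup G) * M.index := by
      apply Nat.eq_of_mul_eq_mul_right hNi
      rw [e2, ← e3, ← e1]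
      ring
    have hindex : M.index = Nat.card (G ⧸ M) := rfl
    rw [← hindex] at h1
    have h4 : M.index * (Nat.card M - Nat.card (M ⊓ N : Subgroup G)) ≤ M.index * Z₀.ncard := by
      have : M.index * (Nat.card M - Nat.card (M ⊓ N : Subgroup G)) = Nat.card G - Nat.card N := by
        rw [Nat.mul_sub, ← e3, e4]
        ring_nf
      rw [this, ← h2]
      exact h1
    have h5 : W.ncard ≤ Z₀.ncard := by
      rw [h3]
      exact Nat.le_of_mul_le_mul_left h4 hMi
    have h6 : Z₀ = W := Set.eq_of_subset_of_ncard_le hZW h5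
    intro z hzM hzN
    have hz : z ∈ Z₀ := by rw [h6]; exact ⟨hzM, hzN⟩
    exact hz.2.2
  have hxM : x ∈ M := (hmemM x).2 rfl
  have hMcomm : ∀ a ∈ M, ∀ b ∈ M, a * b = b * a := by
    intro a ha b hb
    by_cases haN : a ∈ N
    · have haxN : a * x ∉ N := fun hc => hx (by
        have := N.mul_mem (N.inv_mem haN) hc
        simpa using this)
      have h1 := hcentral (a * x) (M.mul_mem ha hxM) haxN b hb
      have h2 := hcentral x hxM hx b hb
      have h3 : a * x * b = a * b * x := by rw [mul_assoc, h2, ← mul_assoc]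
      have h4 : a * b * x = b * a * x := by rw [← h3, h1, mul_assoc]
      exact mul_right_cancel h4
    · exact hcentral a ha haN b hb
  haveI hMsolv : Group.IsSolvable M :=
    Group.isSolvable_of_comm (fun a b => Subtype.ext (hMcomm a a.2 b b.2))
  suffices hG : Group.IsSolvable G from Group.isSolvable_of_isSolvable_injective N.subtype_injective
  have hnorm : M ≤ Subgroup.normalizer (M : Set G) := Subgroup.le_normalizer
  rcases eq_or_lt_of_le hnorm with heq | hlt
  · -- Burnside's transfer theorem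
    have hP : Subgroup.normalizer ((P : Subgroup G) : Set G) ≤
        Subgroup.centralizer ((P : Subgroup G) : Set G) := by
      rw [← hMeq, ← heq]
      intro a ha
      rw [Subgroup.mem_centralizer_iff]
      intro b hb
      exact hMcomm b hb a ha
    have hcompl := MonoidHom.ker_transferSylow_isComplement' P hP
    have hKM : (MonoidHom.transferSylow P hP).ker ⊓ M = ⊥ := by
      rw [hMeq]
      exact disjoint_iff.1 hcompl.disjoint
    have hsupKM : (MonoidHom.transferSylow P hP).ker ⊔ M = ⊤ := by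
      rw [hMeq]
      exact hcompl.sup_eq_top
    obtain ⟨K, hKn, hKM, hsupKM⟩ : ∃ K : Subgroup G, K.Normal ∧ K ⊓ M = ⊥ ∧ K ⊔ M = ⊤ :=
      ⟨(MonoidHom.transferSylow P hP).ker, inferInstance, hKM, hsupKM⟩
    haveI := hKn
    have hex : ∃ i : ℕ, Subgroup.centralizer ({x ^ p ^ i} : Set G) = ⊤ := by
      refine ⟨k, ?_⟩
      have h1 : x ^ p ^ k = 1 := by rw [hxo]; exact pow_orderOf_eq_one x
      rw [h1, Subgroup.eq_top_iff']
      intro g
      rw [mem_centralizer_singleton_iff', one_mul, mul_one]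
    obtain ⟨i₀, hi₀, hmin⟩ : ∃ i, Subgroup.centralizer ({x ^ p ^ i} : Set G) = ⊤ ∧
        ∀ j < i, ¬ (Subgroup.centralizer ({x ^ p ^ j} : Set G) = ⊤) :=
      ⟨Nat.find hex, Nat.find_spec hex, fun j hj => Nat.find_min hex hj⟩
    have hi₀0 : i₀ ≠ 0 := by
      intro h0
      rw [h0, pow_zero, pow_one] at hi₀
      exact hxco.1 hi₀
    obtain ⟨i₁, rfl⟩ := Nat.exists_eq_add_one_of_ne_zero hi₀0
    have hw := hmin i₁ (Nat.lt_succ_self i₁)
    have hwM : x ^ p ^ i₁ ∈ M := M.pow_mem hxM _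
    have hCw : Subgroup.centralizer ({x ^ p ^ i₁} : Set G) = M := by
      have hle : M ≤ Subgroup.centralizer ({x ^ p ^ i₁} : Set G) := by
        intro m hm
        rw [mem_centralizer_singleton_iff']
        exact hMcomm m hm _ hwM
      by_contra hne
      exact hw (hxco.2 _ (lt_of_le_of_ne hle (Ne.symm hne)))
    have hwp : ∀ a : G, (x ^ p ^ i₁) ^ p * a = a * (x ^ p ^ i₁) ^ p := by
      intro a
      have h1 : (x ^ p ^ i₁) ^ p = x ^ p ^ (i₁ + 1) := by rw [← pow_mul, ← pow_succ]
      have h2 : a ∈ Subgroup.centralizer ({x ^ p ^ (i₁ + 1)} : Set G) := by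
        rw [hi₀]; exact Subgroup.mem_top a
      rw [mem_centralizer_singleton_iff'] at h2
      rw [h1]
      exact h2.symm
    have hφp : (MulAut.conjNormal (x ^ p ^ i₁) : MulAut K) ^ p = 1 := by
      rw [← map_pow]
      refine MulEquiv.ext (fun k' => Subtype.ext ?_)
      rw [MulAut.conjNormal_apply, MulAut.one_apply, hwp (k' : G), mul_assoc, mul_inv_cancel,
        mul_one]
    have hφf : MonoidHom.FixedPointFree
        (((MulAut.conjNormal (x ^ p ^ i₁) : MulAut K) : K ≃* K) : K →* K) := by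
      intro k' hk'
      have hk'' : (MulAut.conjNormal (x ^ p ^ i₁) : MulAut K) k' = k' := hk'
      have h1 : x ^ p ^ i₁ * (k' : G) * (x ^ p ^ i₁)⁻¹ = k' :=
        (MulAut.conjNormal_apply (x ^ p ^ i₁) k').symm.trans (congrArg Subtype.val hk'')
      have h2 : (k' : G) ∈ Subgroup.centralizer ({x ^ p ^ i₁} : Set G) := by
        rw [mem_centralizer_singleton_iff']
        calc (k' : G) * x ^ p ^ i₁
            = x ^ p ^ i₁ * (k' : G) * (x ^ p ^ i₁)⁻¹ * x ^ p ^ i₁ := by rw [h1]
          _ = x ^ p ^ i₁ * (k' : G) := by group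
      rw [hCw] at h2
      have h3 : (k' : G) ∈ K ⊓ M := ⟨k'.2, h2⟩
      rw [hKM] at h3
      exact Subtype.ext (Subgroup.mem_bot.1 h3)
    haveI hKnil : Group.IsNilpotent K :=
      Cfsg.Agent.Helper1.fpf_nilpotent_aux p hp (Nat.card K) K rfl _ hφf hφp
    haveI : Group.IsSolvable K := IsNilpotent.to_isSolvable
    have hsurj : Function.Surjective ((QuotientGroup.mk' K).comp M.subtype) := by
      intro a
      obtain ⟨a', rfl⟩ := QuotientGroup.mk_surjective a
      have ha' : a' ∈ ((K ⊔ M : Subgroup G) : Set G) := by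
        rw [hsupKM]; exact Subgroup.mem_top a'
      rw [Subgroup.normal_mul] at ha'
      obtain ⟨k', hk', m, hm, rfl⟩ := Set.mem_mul.1 ha'
      refine ⟨⟨m, hm⟩, ?_⟩
      show ((m : G) : G ⧸ K) = ((k' * m : G) : G ⧸ K)
      rw [QuotientGroup.mk_mul, (QuotientGroup.eq_one_iff k').2 hk', one_mul]
    haveI : Group.IsSolvable (G ⧸ K) := Group.isSolvable_of_surjective hsurj
    exact Group.isSolvable_of_ker_le_range K.subtype (QuotientGroup.mk' K) (by simp)
  · have htop := hxco.2 _ hlt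
    haveI hMn : M.Normal := Subgroup.normalizer_eq_top_iff.1 htop
    obtain ⟨g, hg⟩ : ∃ g : G, g ∉ M := by
      by_contra hcon
      push_neg at hcon
      exact hxco.1 ((Subgroup.eq_top_iff' M).2 hcon)
    have hMg : M ⊔ Subgroup.zpowers g = ⊤ := by
      apply hxco.2
      refine lt_of_le_of_ne le_sup_left ?_
      intro heq
      apply hg
      rw [heq]
      exact (le_sup_right : Subgroup.zpowers g ≤ M ⊔ Subgroup.zpowers g) (Subgroup.mem_zpowers g)
    have hrep : ∀ a : G ⧸ M, ∃ i : ℤ, a = ((g ^ i : G) : G ⧸ M) := by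
      intro a
      obtain ⟨a', rfl⟩ := QuotientGroup.mk_surjective a
      have ha' : a' ∈ ((M ⊔ Subgroup.zpowers g : Subgroup G) : Set G) := by
        rw [hMg]; exact Subgroup.mem_top a'
      rw [Subgroup.normal_mul] at ha'
      obtain ⟨m, hm, z, hz, rfl⟩ := Set.mem_mul.1 ha'
      obtain ⟨i, rfl⟩ := Subgroup.mem_zpowers_iff.1 hz
      refine ⟨i, ?_⟩
      rw [QuotientGroup.mk_mul, (QuotientGroup.eq_one_iff m).2 hm, one_mul]
    have hqc : ∀ a b : G ⧸ M, a * b = b * a := by
      intro a b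
      obtain ⟨i, rfl⟩ := hrep a
      obtain ⟨j, rfl⟩ := hrep b
      rw [← QuotientGroup.mk_mul, ← QuotientGroup.mk_mul, ← zpow_add, ← zpow_add, add_comm]
    haveI : Group.IsSolvable (G ⧸ M) := Group.isSolvable_of_comm hqc
    exact Group.isSolvable_of_ker_le_range M.subtype (QuotientGroup.mk' M) (by simp)

end Cfsg.Agent.Helper21
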