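import Mathlib
import Cfsg.Prelude.Def_KGroupFacts

set_option autoImplicit false

namespace Cfsg.Agent.Helper21

theorem exists_hom_zmod_of_pow_eq_one {K : Type*} [Group K] (n : ℕ) (c : K) (hc : c ^ n = 1) :
    ∃ π : Multiplicative (ZMod n) →* K, ∀ t : ℤ, π (Multiplicative.ofAdd (t : ZMod n)) = c ^ t := by
  have hf : (zmultiplesHom (Additive K) (Additive.ofMul c)) (n : ℤ) = 0 := by
    rw [zmultiplesHom_apply, natCast_zsmul, ← ofMul_pow, hc]
    rfl
  refine ⟨AddMonoidHom.toMultiplicativeLeft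
    (ZMod.lift n ⟨zmultiplesHom (Additive K) (Additive.ofMul c), hf⟩), ?_⟩
  intro t
  show (ZMod.lift n ⟨zmultiplesHom (Additive K) (Additive.ofMul c), hf⟩ (t : ZMod n)).toMul = c ^ t
  rw [ZMod.lift_coe]
  show (zmultiplesHom (Additive K) (Additive.ofMul c) t).toMul = c ^ t
  rw [zmultiplesHom_apply, ← ofMul_zpow]
  rfl

/-- The kernel of a stem extension of `ZMod m × ZMod n` is a quotient of `ZMod n`. -/
theorem stem_zmod_prod (m n : ℕ) [NeZero m] [NeZero n] {Γ : Type*} [Group Γ]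
    (σ : Γ →* Multiplicative (ZMod m × ZMod n)) (hσ : Cfsg.IsStemExtension σ) :
    ∃ π : Multiplicative (ZMod n) →* σ.ker, Function.Surjective π := by
  obtain ⟨hsurj, hcenter, hcomm⟩ := hσ
  obtain ⟨a, ha⟩ := hsurj (Multiplicative.ofAdd ((1 : ZMod m), (0 : ZMod n)))
  obtain ⟨b, hb⟩ := hsurj (Multiplicative.ofAdd ((0 : ZMod m), (1 : ZMod n)))
  have hcen : ∀ k : Γ, σ k = 1 → ∀ g : Γ, g * k = k * g := by
    intro k hk g
    exact Subgroup.mem_center_iff.mp (hcenter (MonoidHom.mem_ker.mpr hk)) g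
  set c : Γ := a * b * a⁻¹ * b⁻¹ with hcdef
  have hc : σ c = 1 := by
    rw [hcdef, map_mul, map_mul, map_mul, map_inv, map_inv]
    rw [mul_comm (σ a) (σ b), mul_inv_cancel_right, mul_inv_cancel]
  have hcc : ∀ g : Γ, g * c = c * g := hcen c hc
  -- decomposition
  have hdecomp : ∀ g : Γ, ∃ i j : ℕ, ∃ k : Γ, σ k = 1 ∧ g = a ^ i * b ^ j * k := by
    intro g
    refine ⟨(Multiplicative.toAdd (σ g)).1.val, (Multiplicative.toAdd (σ g)).2.val,
      (a ^ (Multiplicative.toAdd (σ g)).1.val * b ^ (Multiplicative.toAdd (σ g)).2.val)⁻¹ * g, ?_,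
      by group⟩
    rw [map_mul, map_inv, map_mul, map_pow, map_pow, ha, hb, ← ofAdd_nsmul, ← ofAdd_nsmul, ← ofAdd_add]
    have h1 : (Multiplicative.toAdd (σ g)).1.val • ((1 : ZMod m), (0 : ZMod n))
        + (Multiplicative.toAdd (σ g)).2.val • ((0 : ZMod m), (1 : ZMod n))
        = Multiplicative.toAdd (σ g) := by
      apply Prod.ext
      · simp
      · simp
    rw [h1, ofAdd_toAdd, inv_mul_cancel]
  -- the subgroup generated by c is normal
  have hZn : (Subgroup.zpowers c).Normal := by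
    constructor
    intro x hx g
    obtain ⟨t, rfl⟩ := hx
    have : g * c ^ t * g⁻¹ = c ^ t := by
      have h1 : Commute g (c ^ t) := (Commute.zpow_right (hcc g) t)
      rw [h1.eq]
      group
    rw [this]
    exact ⟨t, rfl⟩
  have hab : (QuotientGroup.mk a : Γ ⧸ Subgroup.zpowers c) * QuotientGroup.mk b
      = QuotientGroup.mk b * QuotientGroup.mk a := by
    rw [← QuotientGroup.mk_mul, ← QuotientGroup.mk_mul, eq_comm, QuotientGroup.eq]
    have h1 : (b * a)⁻¹ * (a * b) = c := by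
      calc (b * a)⁻¹ * (a * b) = a⁻¹ * b⁻¹ * (a * b * a⁻¹ * b⁻¹) * (b * a) := by group
        _ = a⁻¹ * b⁻¹ * (c * (b * a)) := by rw [← hcdef]; group
        _ = a⁻¹ * b⁻¹ * ((b * a) * c) := by rw [hcc (b * a)]
        _ = c := by group
    rw [h1]
    exact Subgroup.mem_zpowers c
  have hkc : ∀ k : Γ, σ k = 1 → ∀ g : Γ,
      Commute (QuotientGroup.mk k : Γ ⧸ Subgroup.zpowers c) (QuotientGroup.mk g) := by
    intro k hk g
    show (QuotientGroup.mk k : Γ ⧸ Subgroup.zpowers c) * QuotientGroup.mk g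
      = QuotientGroup.mk g * QuotientGroup.mk k
    rw [← QuotientGroup.mk_mul, ← QuotientGroup.mk_mul, hcen k hk g]
  have hmk : ∀ g : Γ, ∃ i j : ℕ, ∃ k : Γ, σ k = 1 ∧
      (QuotientGroup.mk g : Γ ⧸ Subgroup.zpowers c)
        = QuotientGroup.mk a ^ i * QuotientGroup.mk b ^ j * QuotientGroup.mk k := by
    intro g
    obtain ⟨i, j, k, hk, rfl⟩ := hdecomp g
    exact ⟨i, j, k, hk, by simp⟩
  have hPa : ∀ g : Γ, Commute (QuotientGroup.mk a : Γ ⧸ Subgroup.zpowers c) (QuotientGroup.mk g) := by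
    intro g
    obtain ⟨i, j, k, hk, hg⟩ := hmk g
    rw [hg]
    exact ((Commute.refl _).pow_right i |>.mul_right ((show Commute _ _ from hab).pow_right j)).mul_right
      (hkc k hk a).symm
  have hPb : ∀ g : Γ, Commute (QuotientGroup.mk b : Γ ⧸ Subgroup.zpowers c) (QuotientGroup.mk g) := by
    intro g
    obtain ⟨i, j, k, hk, hg⟩ := hmk g
    rw [hg]
    exact (((show Commute _ _ from hab).symm.pow_right i).mul_right ((Commute.refl _).pow_right j)).mul_right
      (hkc k hk b).symm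
  have hP : ∀ g h : Γ, Commute (QuotientGroup.mk g : Γ ⧸ Subgroup.zpowers c) (QuotientGroup.mk h) := by
    intro g h
    obtain ⟨i, j, k, hk, hg⟩ := hmk g
    rw [hg]
    exact (((hPa h).pow_left i).mul_left ((hPb h).pow_left j)).mul_left (hkc k hk h)
  have hle : commutator Γ ≤ Subgroup.zpowers c := by
    rw [commutator_def, Subgroup.commutator_le]
    intro g _ h _
    rw [← QuotientGroup.eq_one_iff (N := Subgroup.zpowers c), commutatorElement_def]
    simp only [QuotientGroup.mk_mul, QuotientGroup.mk_inv]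
    rw [(hP g h).eq]
    group
  -- c ^ n = 1
  have hpow : ∀ k : ℕ, a * b ^ k = c ^ k * b ^ k * a := by
    intro k
    induction k with
    | zero => simp
    | succ k ih =>
      have h1 : a * b = c * b * a := by rw [hcdef]; group
      have h2 : Commute (b ^ k) c := (Commute.pow_left (hcc b) k)
      calc a * b ^ (k + 1) = (a * b ^ k) * b := by rw [pow_succ]; group
        _ = c ^ k * b ^ k * (a * b) := by rw [ih]; group
        _ = c ^ k * (b ^ k * c) * b * a := by rw [h1]; group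
        _ = c ^ k * (c * b ^ k) * b * a := by rw [h2.eq]
        _ = c ^ (k + 1) * b ^ (k + 1) * a := by rw [pow_succ, pow_succ]; group
  have hbn : σ (b ^ n) = 1 := by
    rw [map_pow, hb, ← ofAdd_nsmul]
    have : n • ((0 : ZMod m), (1 : ZMod n)) = 0 := by
      apply Prod.ext
      · simp
      · simp
    rw [this]
    rfl
  have hcn : c ^ n = 1 := by
    have h1 := hpow n
    rw [hcen (b ^ n) hbn a] at h1
    have h2 : c ^ n * (b ^ n * a) = 1 * (b ^ n * a) := by rw [one_mul, ← mul_assoc]; exact h1.symm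
    exact mul_right_cancel h2
  have hcn' : (⟨c, MonoidHom.mem_ker.mpr hc⟩ : σ.ker) ^ n = 1 := by
    apply Subtype.ext
    simp [hcn]
  obtain ⟨π, hπ⟩ := exists_hom_zmod_of_pow_eq_one n (⟨c, MonoidHom.mem_ker.mpr hc⟩ : σ.ker) hcn'
  refine ⟨π, ?_⟩
  intro x
  obtain ⟨t, ht⟩ := hle (hcomm x.2)
  refine ⟨Multiplicative.ofAdd (t : ZMod n), ?_⟩
  rw [hπ t]
  apply Subtype.ext
  rw [← ht]
  simp

end Cfsg.Agent.Helper21
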