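import Mathlib
import Cfsg.Agent.Helper21.Frobenius
import Cfsg.Agent.Helper21.CentralExt
import Cfsg.Agent.Helper21.StemAbelian
import Cfsg.Agent.Helper1.Quat

/-!
Finite groups in which the numbers of elements of each occurring order take only the two
values `1` and `n`.
-/

set_option autoImplicit false

universe u

namespace Cfsg.Agent.Helper21

/-- The number of elements of order `m`. -/
noncomputable def ordCount (G : Type u) [Group G] (m : ℕ) : ℕ :=
  Nat.card {x : G // orderOf x = m}

theorem dvd_eight_iff21 (x : ℕ) : x ∣ 8 ↔ x = 1 ∨ x = 2 ∨ x = 4 ∨ x = 8 := by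
  constructor
  · intro h
    have := Nat.le_of_dvd (by norm_num) h
    interval_cases x <;> omega
  · rintro (rfl | rfl | rfl | rfl) <;> norm_num

theorem dvd_four_mul_prime_iff {q : ℕ} (hq : q.Prime) (x : ℕ) :
    x ∣ 4 * q ↔ x = 1 ∨ x = 2 ∨ x = 4 ∨ x = q ∨ x = 2 * q ∨ x = 4 * q := by
  constructor
  · intro h
    obtain ⟨y, w, hy, hw, rfl⟩ := (Nat.dvd_mul).1 h
    have hy4 := Nat.le_of_dvd (by norm_num) hy
    rcases (Nat.dvd_prime hq).1 hw with h1 | h1
    · subst h1
      interval_cases y <;> omega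
    · subst h1
      interval_cases y <;> omega
  · rintro (rfl | rfl | rfl | rfl | rfl | rfl)
    · exact one_dvd _
    · exact ⟨2 * q, by ring⟩
    · exact dvd_mul_right 4 q
    · exact dvd_mul_left x 4
    · exact ⟨2, by ring⟩
    · exact dvd_refl _

theorem coprime_four_of_odd_prime {q : ℕ} (hq : q.Prime) (hq2 : q ≠ 2) : Nat.Coprime 4 q := by
  refine Nat.Coprime.symm ((Nat.Prime.coprime_iff_not_dvd hq).2 (fun h => ?_))
  have h4 := Nat.le_of_dvd (by norm_num) h
  have h2 := hq.two_le
  interval_cases q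
  · exact hq2 rfl
  · omega
  · norm_num at hq

section NseTwo

variable {G : Type u} [Group G] [Finite G]

theorem ordCount_one : ordCount G 1 = 1 := by
  unfold ordCount
  rw [Nat.card_eq_one_iff_unique]
  refine ⟨⟨fun a b => Subtype.ext ?_⟩, ⟨⟨1, orderOf_one⟩⟩⟩
  rw [orderOf_eq_one_iff.1 a.2, orderOf_eq_one_iff.1 b.2]

theorem ordCount_pos (g : G) : 0 < ordCount G (orderOf g) := by
  unfold ordCount
  haveI : Nonempty {x : G // orderOf x = orderOf g} := ⟨⟨g, rfl⟩⟩
  exact Nat.card_pos

theorem ordCount_eq_zero (m : ℕ) (h : ∀ g : G, orderOf g ≠ m) : ordCount G m = 0 := by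
  unfold ordCount
  haveI : IsEmpty {x : G // orderOf x = m} := ⟨fun x => h x.1 x.2⟩
  exact Nat.card_of_isEmpty

theorem eq_of_ordCount_eq_one {m : ℕ} (h : ordCount G m = 1) (a b : G) (ha : orderOf a = m)
    (hb : orderOf b = m) : a = b := by
  unfold ordCount at h
  rw [Nat.card_eq_one_iff_unique] at h
  obtain ⟨h1, _⟩ := h
  exact congrArg Subtype.val (h1.elim ⟨a, ha⟩ ⟨b, hb⟩)

theorem card_pow_eq_one_eq_sum (d : ℕ) (D : Finset ℕ)
    (hD : ∀ g : G, g ^ d = 1 ↔ orderOf g ∈ D) :
    Nat.card {g : G // g ^ d = 1} = ∑ m ∈ D, ordCount G m := by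
  classical
  have e : {g : G // g ^ d = 1} ≃ Σ m : D, {g : G // orderOf g = (m : ℕ)} :=
    { toFun := fun g => ⟨⟨orderOf g.1, (hD g.1).1 g.2⟩, ⟨g.1, rfl⟩⟩
      invFun := fun s => ⟨s.2.1, (hD s.2.1).2 (by rw [s.2.2]; exact s.1.2)⟩
      left_inv := fun g => rfl
      right_inv := by
        rintro ⟨⟨m, hm⟩, g, hg⟩
        have hg' : orderOf g = m := hg
        subst hg'
        rfl }
  rw [Nat.card_congr e, Nat.card_sigma]
  exact Finset.sum_coe_sort D (fun m => ordCount G m)

theorem sum_ordCount_le (T : Finset ℕ) : ∑ m ∈ T, ordCount G m ≤ Nat.card G := by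
  classical
  have hinj : Function.Injective
      (fun s : (Σ m : T, {g : G // orderOf g = (m : ℕ)}) => s.2.1) := by
    rintro ⟨⟨m, hm⟩, g, hg⟩ ⟨⟨m', hm'⟩, g', hg'⟩ h
    simp only at h
    subst h
    have e1 : orderOf g = m := hg
    have e2 : orderOf g = m' := hg'
    subst e1
    subst e2
    rfl
  have h1 := Nat.card_le_card_of_injective _ hinj
  rw [Nat.card_sigma] at h1
  rw [← Finset.sum_coe_sort T (fun m => ordCount G m)]
  exact h1

theorem orderOf_conj21 (x z : G) : orderOf (x * z * x⁻¹) = orderOf z :=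
  orderOf_injective (MulAut.conj x).toMonoidHom (MulAut.conj x).injective z

theorem ordCount_eq_of_three_le {n : ℕ}
    (hs : ∀ g : G, ordCount G (orderOf g) = 1 ∨ ordCount G (orderOf g) = n) (g : G)
    (h3 : 3 ≤ orderOf g) : ordCount G (orderOf g) = n := by
  rcases hs g with h | h
  · exfalso
    have h1 := eq_of_ordCount_eq_one h g g⁻¹ rfl (orderOf_inv g)
    have h2 : g ^ 2 = 1 := by
      have : g * g = g * g⁻¹ := by rw [← h1]
      rw [pow_two, this, mul_inv_cancel]
    have h4 := Nat.le_of_dvd (by norm_num) (orderOf_dvd_of_pow_eq_one h2)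
    omega
  · exact h

theorem central_of_ordCount_two (h : ordCount G 2 = 1) (z : G) (hz : orderOf z = 2) (x : G) :
    x * z = z * x := by
  have h1 : orderOf (x * z * x⁻¹) = 2 := by
    rw [orderOf_conj21]; exact hz
  have h2 := eq_of_ordCount_eq_one h (x * z * x⁻¹) z h1 hz
  calc x * z = (x * z * x⁻¹) * x := by group
    _ = z * x := by rw [h2]

theorem prime_dvd_one_add_ordCount {p : ℕ} (hp : p.Prime) (hpN : p ∣ Nat.card G) :
    p ∣ 1 + ordCount G p := by
  have h1 := frobenius_dvd (G := G) p hpN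
  have h2 := card_pow_eq_one_eq_sum (G := G) p {1, p} (by
    intro g
    rw [← orderOf_dvd_iff_pow_eq_one, Nat.dvd_prime hp, Finset.mem_insert, Finset.mem_singleton])
  rw [h2, Finset.sum_pair hp.one_lt.ne, ordCount_one] at h1
  exact h1

theorem order_one_or_prime {p : ℕ} (hp : p.Prime) (hsq : ∀ g : G, orderOf g ≠ p ^ 2) (g : G)
    (k : ℕ) (h : g ^ (p ^ k) = 1) : orderOf g = 1 ∨ orderOf g = p := by
  obtain ⟨j, hjk, hj⟩ := (Nat.dvd_prime_pow hp).1 (orderOf_dvd_of_pow_eq_one h)
  rcases Nat.lt_or_ge j 2 with hj2 | hj2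
  · interval_cases j
    · left; simpa using hj
    · right; simpa using hj
  · exfalso
    refine hsq (g ^ (orderOf g / p ^ 2)) (orderOf_pow_orderOf_div (orderOf_pos g).ne' ?_)
    rw [hj]
    exact pow_dvd_pow p hj2

theorem prime_pow_dvd_one_add_ordCount {p : ℕ} (hp : p.Prime)
    (hsq : ∀ g : G, orderOf g ≠ p ^ 2) (k : ℕ) (hpN : p ^ k ∣ Nat.card G) :
    p ^ k ∣ 1 + ordCount G p := by
  rcases Nat.eq_zero_or_pos k with rfl | hk
  · simp
  have h1 := frobenius_dvd (G := G) (p ^ k) hpN
  have h2 := card_pow_eq_one_eq_sum (G := G) (p ^ k) {1, p} (by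
    intro g
    rw [Finset.mem_insert, Finset.mem_singleton]
    constructor
    · intro h
      exact order_one_or_prime hp hsq g k h
    · rintro (h | h)
      · rw [orderOf_eq_one_iff.1 h, one_pow]
      · rw [← orderOf_dvd_iff_pow_eq_one, h]; exact dvd_pow_self p hk.ne')
  rw [h2, Finset.sum_pair hp.one_lt.ne, ordCount_one] at h1
  exact h1

theorem sq_dvd_count {p m : ℕ} (hp : p.Prime) (hm : m = p ^ 2) (hpN : m ∣ Nat.card G) :
    m ∣ 1 + ordCount G p + ordCount G m := by
  subst hm
  have h1 := frobenius_dvd (G := G) (p ^ 2) hpN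
  have h2 := card_pow_eq_one_eq_sum (G := G) (p ^ 2) {1, p, p ^ 2} (by
    intro g
    rw [← orderOf_dvd_iff_pow_eq_one, Nat.dvd_prime_pow hp, Finset.mem_insert,
      Finset.mem_insert, Finset.mem_singleton]
    constructor
    · rintro ⟨j, hj, h⟩
      interval_cases j
      · left; simpa using h
      · right; left; simpa using h
      · right; right; exact h
    · rintro (h | h | h)
      · exact ⟨0, by norm_num, by simpa using h⟩
      · exact ⟨1, by norm_num, by simpa using h⟩
      · exact ⟨2, le_refl 2, h⟩)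
  have hp1 : 1 < p := hp.one_lt
  have hpp : p < p ^ 2 := by
    have := Nat.pow_lt_pow_right hp1 (show 1 < 2 by norm_num)
    rwa [pow_one] at this
  have hne1 : (1 : ℕ) ∉ ({p, p ^ 2} : Finset ℕ) := by
    rw [Finset.mem_insert, Finset.mem_singleton]
    rintro (h | h) <;> omega
  have hne2 : p ≠ p ^ 2 := by omega
  rw [h2, Finset.sum_insert hne1, Finset.sum_pair hne2, ordCount_one] at h1
  rw [add_assoc]
  exact h1

theorem eight_dvd_count (h8 : 8 ∣ Nat.card G) :
    8 ∣ 1 + ordCount G 2 + ordCount G 4 + ordCount G 8 := by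
  have h1 := frobenius_dvd (G := G) 8 h8
  have h2 := card_pow_eq_one_eq_sum (G := G) 8 {1, 2, 4, 8} (by
    intro g
    rw [← orderOf_dvd_iff_pow_eq_one, dvd_eight_iff21]
    simp only [Finset.mem_insert, Finset.mem_singleton])
  have e1 : (1 : ℕ) ∉ ({2, 4, 8} : Finset ℕ) := by decide
  have e2 : (2 : ℕ) ∉ ({4, 8} : Finset ℕ) := by decide
  have e3 : (4 : ℕ) ≠ 8 := by decide
  rw [h2, Finset.sum_insert e1, Finset.sum_insert e2, Finset.sum_pair e3, ordCount_one] at h1
  convert h1 using 1
  ring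

theorem four_mul_prime_dvd_count {q : ℕ} (hq : q.Prime) (hq2 : q ≠ 2)
    (h : 4 * q ∣ Nat.card G) :
    4 * q ∣ 1 + ordCount G 2 + ordCount G 4 + ordCount G q + ordCount G (2 * q)
      + ordCount G (4 * q) := by
  have hq3 : 3 ≤ q := by have := hq.two_le; omega
  have hqodd : q % 2 = 1 := by
    rcases hq.eq_two_or_odd with h | h
    · exact absurd h hq2
    · exact h
  have h1 := frobenius_dvd (G := G) (4 * q) h
  have h2 := card_pow_eq_one_eq_sum (G := G) (4 * q) {1, 2, 4, q, 2 * q, 4 * q} (by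
    intro g
    rw [← orderOf_dvd_iff_pow_eq_one, dvd_four_mul_prime_iff hq]
    simp only [Finset.mem_insert, Finset.mem_singleton])
  have e1 : (1 : ℕ) ∉ ({2, 4, q, 2 * q, 4 * q} : Finset ℕ) := by
    simp only [Finset.mem_insert, Finset.mem_singleton]; omega
  have e2 : (2 : ℕ) ∉ ({4, q, 2 * q, 4 * q} : Finset ℕ) := by
    simp only [Finset.mem_insert, Finset.mem_singleton]; omega
  have e3 : (4 : ℕ) ∉ ({q, 2 * q, 4 * q} : Finset ℕ) := by
    simp only [Finset.mem_insert, Finset.mem_singleton]; omega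
  have e4 : q ∉ ({2 * q, 4 * q} : Finset ℕ) := by
    simp only [Finset.mem_insert, Finset.mem_singleton]; omega
  have e5 : 2 * q ≠ 4 * q := by omega
  rw [h2, Finset.sum_insert e1, Finset.sum_insert e2, Finset.sum_insert e3,
    Finset.sum_insert e4, Finset.sum_pair e5, ordCount_one] at h1
  convert h1 using 1
  ring

theorem no_order_sq_odd {n : ℕ}
    (hs : ∀ g : G, ordCount G (orderOf g) = 1 ∨ ordCount G (orderOf g) = n)
    {p : ℕ} (hp : p.Prime) (hp2 : p ≠ 2) (g : G) (hg : orderOf g = p ^ 2) : False := by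
  have hp3 : 3 ≤ p := by have := hp.two_le; omega
  have hpN2 : p ^ 2 ∣ Nat.card G := by rw [← hg]; exact orderOf_dvd_natCard g
  have hpN : p ∣ Nat.card G := dvd_trans (dvd_pow_self p (by norm_num)) hpN2
  haveI : Fact p.Prime := ⟨hp⟩
  obtain ⟨y, hy⟩ := exists_prime_orderOf_dvd_card' (G := G) p hpN
  have hsp : ordCount G p = n := by
    have := ordCount_eq_of_three_le hs y (by rw [hy]; exact hp3)
    rwa [hy] at this
  have hsp2 : ordCount G (p ^ 2) = n := by
    have h9 : 3 ≤ p ^ 2 := by
      have : p ^ 1 ≤ p ^ 2 := Nat.pow_le_pow_right hp.pos (by norm_num)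
      rw [pow_one] at this
      omega
    have := ordCount_eq_of_three_le hs g (by rw [hg]; exact h9)
    rwa [hg] at this
  have h1 := sq_dvd_count (G := G) hp rfl hpN2
  rw [hsp, hsp2] at h1
  have h2 := prime_dvd_one_add_ordCount (G := G) hp hpN
  rw [hsp] at h2
  have h3 : p ∣ 1 + n + n := dvd_trans (dvd_pow_self p (by norm_num)) h1
  have h5 : p ∣ n := (Nat.dvd_add_right h2).1 h3
  have h6 : p ∣ 1 := (Nat.dvd_add_left h5).1 h2
  have := Nat.le_of_dvd (by norm_num) h6
  omega

theorem nse_two_caseI {n : ℕ}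
    (hs : ∀ g : G, ordCount G (orderOf g) = 1 ∨ ordCount G (orderOf g) = n)
    (g : G) (hg : orderOf g = 4) :
    Nonempty (G ≃* QuaternionGroup 2) ∨ (IsCyclic G ∧ Nat.card G = 4) := by
  have hbig : ∀ x : G, 3 ≤ orderOf x → ordCount G (orderOf x) = n :=
    fun x hx => ordCount_eq_of_three_le hs x hx
  have h4N : 4 ∣ Nat.card G := by rw [← hg]; exact orderOf_dvd_natCard g
  have h44 : g ^ 4 = 1 := by rw [← hg]; exact pow_orderOf_eq_one g
  obtain ⟨z, hz⟩ : ∃ z : G, orderOf z = 2 := by
    refine ⟨g ^ 2, orderOf_eq_prime ?_ ?_⟩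
    · rw [← pow_mul]; exact h44
    · intro h
      have h1 := orderOf_dvd_of_pow_eq_one h
      rw [hg] at h1
      omega
  have hs4 : ordCount G 4 = n := by
    have := hbig g (by rw [hg]; norm_num)
    rwa [hg] at this
  have hcnt : 4 ∣ 1 + ordCount G 2 + ordCount G 4 :=
    sq_dvd_count (G := G) Nat.prime_two (show 4 = 2 ^ 2 by norm_num) h4N
  rw [hs4] at hcnt
  have hs2 : ordCount G 2 = 1 := by
    have h2 : ordCount G 2 = 1 ∨ ordCount G 2 = n := by
      have := hs z
      rwa [hz] at this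
    rcases h2 with h2 | h2
    · exact h2
    · rw [h2] at hcnt
      omega
  rw [hs2] at hcnt
  have hcent : ∀ x : G, x * z = z * x := central_of_ordCount_two hs2 z hz
  have hnoodd : ∀ q : ℕ, q.Prime → q ∣ Nat.card G → q = 2 := by
    intro q hq hqN
    by_contra hq2
    have hq3 : 3 ≤ q := by
      have := hq.two_le
      omega
    haveI : Fact q.Prime := ⟨hq⟩
    obtain ⟨y, hy⟩ := exists_prime_orderOf_dvd_card' (G := G) q hqN
    have hsq : ordCount G q = n := by
      have := hbig y (by rw [hy]; exact hq3)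
      rwa [hy] at this
    have hq1n : q ∣ 1 + n := by
      have := prime_dvd_one_add_ordCount (G := G) hq hqN
      rwa [hsq] at this
    have hzy : orderOf (z * y) = 2 * q := by
      have hcop : (orderOf z).Coprime (orderOf y) := by
        rw [hz, hy]
        exact (Nat.coprime_primes Nat.prime_two hq).2 (Ne.symm hq2)
      have := Commute.orderOf_mul_eq_mul_orderOf_of_coprime
        (show Commute z y from (hcent y).symm) hcop
      rw [this, hz, hy]
    have hs2q : ordCount G (2 * q) = n := by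
      have := hbig (z * y) (by rw [hzy]; omega)
      rwa [hzy] at this
    have h4q : 4 * q ∣ Nat.card G :=
      Nat.Coprime.mul_dvd_of_dvd_of_dvd (coprime_four_of_odd_prime hq hq2) h4N hqN
    have hcount := four_mul_prime_dvd_count (G := G) hq hq2 h4q
    rw [hs2, hs4, hsq, hs2q] at hcount
    have hqc : q ∣ 1 + 1 + n + n + n + ordCount G (4 * q) :=
      dvd_trans (dvd_mul_left q 4) hcount
    by_cases h4 : ∃ w : G, orderOf w = 4 * q
    · obtain ⟨w, hw⟩ := h4
      have hs4q : ordCount G (4 * q) = n := by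
        have := hbig w (by rw [hw]; omega)
        rwa [hw] at this
      rw [hs4q] at hqc
      have h5 : q ∣ (1 + 1 + n + n + n + n) + 2 := by
        have := Dvd.dvd.mul_left hq1n 4
        have e : 4 * (1 + n) = (1 + 1 + n + n + n + n) + 2 := by ring
        rwa [e] at this
      have h6 : q ∣ 2 := (Nat.dvd_add_right hqc).1 h5
      have := Nat.le_of_dvd (by norm_num) h6
      omega
    · push_neg at h4
      rw [ordCount_eq_zero _ h4] at hqc
      have h5 : q ∣ (1 + 1 + n + n + n + 0) + 1 := by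
        have := Dvd.dvd.mul_left hq1n 3
        have e : 3 * (1 + n) = (1 + 1 + n + n + n + 0) + 1 := by ring
        rwa [e] at this
      have h6 : q ∣ 1 := (Nat.dvd_add_right hqc).1 h5
      have := Nat.le_of_dvd (by norm_num) h6
      omega
  obtain ⟨k, hk⟩ : ∃ k, Nat.card G = 2 ^ k :=
    ⟨_, Nat.eq_prime_pow_of_unique_prime_dvd Nat.card_pos.ne'
      (fun {d} hd hdN => hnoodd d hd hdN)⟩
  have hG : IsPGroup 2 G := IsPGroup.of_card hk
  have hs8 : ∀ w : G, orderOf w ≠ 8 := by
    intro w hw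
    have h8N : 8 ∣ Nat.card G := by rw [← hw]; exact orderOf_dvd_natCard w
    have h1 := eight_dvd_count (G := G) h8N
    have hs8 : ordCount G 8 = n := by
      have := hbig w (by rw [hw]; norm_num)
      rwa [hw] at this
    rw [hs2, hs4, hs8] at h1
    omega
  have hord4 : ∀ x : G, orderOf x ∣ 4 := by
    intro x
    obtain ⟨j, hj⟩ := (IsPGroup.iff_orderOf.1 hG) x
    rcases Nat.lt_or_ge j 3 with hj3 | hj3
    · rw [hj, show (4 : ℕ) = 2 ^ 2 from by norm_num]
      exact pow_dvd_pow 2 (by omega)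
    · exfalso
      refine hs8 (x ^ (orderOf x / 8)) (orderOf_pow_orderOf_div (orderOf_pos x).ne' ?_)
      rw [hj, show (8 : ℕ) = 2 ^ 3 from by norm_num]
      exact pow_dvd_pow 2 hj3
  have huniq : ∀ H K : Subgroup G, Nat.card H = 2 → Nat.card K = 2 → H = K := by
    have key : ∀ H : Subgroup G, Nat.card H = 2 → H = Subgroup.zpowers z := by
      intro H hH
      obtain ⟨x, hx⟩ := exists_prime_orderOf_dvd_card' (G := H) 2 (by rw [hH])
      have hx' : orderOf (x : G) = 2 := by rw [Subgroup.orderOf_coe]; exact hx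
      have hxz : (x : G) = z := eq_of_ordCount_eq_one hs2 _ _ hx' hz
      have hzH : z ∈ H := hxz ▸ x.2
      symm
      apply Subgroup.eq_of_le_of_card_ge
      · rw [Subgroup.zpowers_le]; exact hzH
      · rw [hH, Nat.card_zpowers, hz]
    intro H K hH hK
    rw [key H hH, key K hK]
  have hcyc : IsCyclic G → IsCyclic G ∧ Nat.card G = 4 := by
    intro hc
    refine ⟨hc, ?_⟩
    obtain ⟨g₀, hg₀⟩ := IsCyclic.exists_generator (α := G)
    have h1 : orderOf g₀ = Nat.card G := orderOf_eq_card_of_forall_mem_zpowers hg₀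
    have h2 := hord4 g₀
    rw [h1] at h2
    exact Nat.dvd_antisymm h2 h4N
  rcases Cfsg.Agent.Helper1.pgroup_unique_cyclic_or_quat 2 hG huniq with hc | ⟨_, j, ⟨e⟩⟩
  · exact Or.inr (hcyc hc)
  · have h1 : orderOf (e.symm (QuaternionGroup.a 1)) = 2 * 2 ^ j := by
      rw [MulEquiv.orderOf_eq, QuaternionGroup.orderOf_a_one]
    have h2 : 2 * 2 ^ j ∣ 4 := by rw [← h1]; exact hord4 _
    have h3 : j = 0 ∨ j = 1 := by
      have h4 := Nat.le_of_dvd (by norm_num) h2
      rcases Nat.lt_or_ge j 2 with hj | hj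
      · omega
      · have := Nat.pow_le_pow_right (show 0 < 2 by norm_num) hj
        omega
    rcases h3 with rfl | rfl
    · rw [pow_zero] at e
      haveI : IsCyclic (QuaternionGroup 1) := QuaternionGroup.quaternionGroup_one_isCyclic
      exact Or.inr (hcyc (isCyclic_of_surjective e.symm e.symm.surjective))
    · rw [pow_one] at e
      exact Or.inl ⟨e⟩

theorem nse_two_caseII {n : ℕ} (hn : n ≠ 1) (hn2 : 2 ≤ n)
    (hs : ∀ g : G, ordCount G (orderOf g) = 1 ∨ ordCount G (orderOf g) = n)
    (hex : ∃ g : G, ordCount G (orderOf g) = n)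
    (hsq : ∀ p : ℕ, p.Prime → ∀ g : G, orderOf g ≠ p ^ 2) :
    (∃ p : ℕ, p.Prime ∧ IsPGroup p G ∧ 3 ≤ Nat.card G ∧ Monoid.exponent G = p) ∨
      (∃ (p : ℕ) (P : Type) (_ : Group P) (_ : Finite P), p.Prime ∧ p ≠ 2 ∧ IsPGroup p P ∧
        Monoid.exponent P = p ∧ Nonempty (G ≃* Multiplicative (ZMod 2) × P)) := by
  have hbig : ∀ x : G, 3 ≤ orderOf x → ordCount G (orderOf x) = n :=
    fun x hx => ordCount_eq_of_three_le hs x hx
  have hfull : ∀ p k : ℕ, p.Prime → p ^ k ∣ Nat.card G → p ^ k ∣ 1 + ordCount G p :=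
    fun p k hp h => prime_pow_dvd_one_add_ordCount hp (hsq p hp) k h
  have hodd : ∀ q : ℕ, q.Prime → q ≠ 2 → q ∣ Nat.card G → ordCount G q = n := by
    intro q hq hq2 hqN
    haveI : Fact q.Prime := ⟨hq⟩
    obtain ⟨y, hy⟩ := exists_prime_orderOf_dvd_card' (G := G) q hqN
    have h3 : 3 ≤ q := by have := hq.two_le; omega
    have := hbig y (by rw [hy]; exact h3)
    rwa [hy] at this
  obtain ⟨g₁, hg₁⟩ := hex
  have hNne1 : Nat.card G ≠ 1 := by
    intro h1
    haveI : Subsingleton G := (Nat.card_eq_one_iff_unique.1 h1).1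
    have : g₁ = 1 := Subsingleton.elim _ _
    rw [this, orderOf_one, ordCount_one] at hg₁
    exact hn hg₁.symm
  by_cases h2 : (∃ z : G, orderOf z = 2) ∧ ordCount G 2 = 1
  · right
    obtain ⟨⟨z, hz⟩, hs2⟩ := h2
    have hcent : ∀ x : G, x * z = z * x := central_of_ordCount_two hs2 z hz
    have hz2 : z ^ 2 = 1 := by rw [← hz]; exact pow_orderOf_eq_one z
    have hg1 : orderOf g₁ ≠ 1 := by
      intro h
      rw [h, ordCount_one] at hg₁
      exact hn hg₁.symm
    have hg2 : orderOf g₁ ≠ 2 := by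
      intro h
      rw [h, hs2] at hg₁
      exact hn hg₁.symm
    obtain ⟨q, hq, hqg, hq2⟩ : ∃ q : ℕ, q.Prime ∧ q ∣ orderOf g₁ ∧ q ≠ 2 := by
      by_contra hcon
      push_neg at hcon
      obtain ⟨j, hj⟩ : ∃ j, orderOf g₁ = 2 ^ j :=
        ⟨_, Nat.eq_prime_pow_of_unique_prime_dvd (orderOf_pos g₁).ne'
          (fun {d} hd hdN => hcon d hd hdN)⟩
      have h2 : g₁ ^ (2 ^ j) = 1 := by rw [← hj]; exact pow_orderOf_eq_one g₁
      rcases order_one_or_prime Nat.prime_two (hsq 2 Nat.prime_two) g₁ j h2 with h | h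
      · exact hg1 h
      · exact hg2 h
    have hqN : q ∣ Nat.card G := dvd_trans hqg (orderOf_dvd_natCard g₁)
    have hq3 : 3 ≤ q := by have := hq.two_le; omega
    have hqodd : q % 2 = 1 := by
      rcases hq.eq_two_or_odd with h | h
      · exact absurd h hq2
      · exact h
    haveI : Fact q.Prime := ⟨hq⟩
    obtain ⟨y, hy⟩ := exists_prime_orderOf_dvd_card' (G := G) q hqN
    have hsq' : ordCount G q = n := hodd q hq hq2 hqN
    have hzy : orderOf (z * y) = 2 * q := by
      have hcop : (orderOf z).Coprime (orderOf y) := by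
        rw [hz, hy]
        exact (Nat.coprime_primes Nat.prime_two hq).2 (Ne.symm hq2)
      have := Commute.orderOf_mul_eq_mul_orderOf_of_coprime
        (show Commute z y from (hcent y).symm) hcop
      rw [this, hz, hy]
    have hs2q : ordCount G (2 * q) = n := by
      have := hbig (z * y) (by rw [hzy]; omega)
      rwa [hzy] at this
    have hN2 : Nat.card G ∣ 2 * (1 + n) := by
      rw [Nat.dvd_iff_prime_pow_dvd_dvd]
      intro p k hp hpk
      rcases Nat.eq_zero_or_pos k with rfl | hk
      · simp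
      · have hpN : p ∣ Nat.card G := dvd_trans (dvd_pow_self p hk.ne') hpk
        have h1 := hfull p k hp hpk
        by_cases hp2 : p = 2
        · subst hp2
          rw [hs2] at h1
          exact dvd_trans h1 ⟨1 + n, by ring⟩
        · rw [hodd p hp hp2 hpN] at h1
          exact dvd_trans h1 (dvd_mul_left (1 + n) 2)
    have hNle : Nat.card G ≤ 2 * (1 + n) := Nat.le_of_dvd (by omega) hN2
    have huq : ∀ r : ℕ, r.Prime → r ∣ Nat.card G → r = 2 ∨ r = q := by
      intro r hr hrN
      by_contra hcon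
      push_neg at hcon
      obtain ⟨hr2, hrq⟩ := hcon
      have hr3 : 3 ≤ r := by have := hr.two_le; omega
      have hrodd : r % 2 = 1 := by
        rcases hr.eq_two_or_odd with h | h
        · exact absurd h hr2
        · exact h
      have e1 : (1 : ℕ) ∉ ({q, r, 2 * q} : Finset ℕ) := by
        simp only [Finset.mem_insert, Finset.mem_singleton]; omega
      have e2 : q ∉ ({r, 2 * q} : Finset ℕ) := by
        simp only [Finset.mem_insert, Finset.mem_singleton]; omega
      have e3 : r ≠ 2 * q := by omega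
      have := sum_ordCount_le (G := G) {1, q, r, 2 * q}
      rw [Finset.sum_insert e1, Finset.sum_insert e2, Finset.sum_pair e3, ordCount_one, hsq',
        hodd r hr hr2 hrN, hs2q] at this
      omega
    obtain ⟨K⟩ : Nonempty (Sylow q G) := inferInstance
    have hKp : IsPGroup q (K : Subgroup G) := K.isPGroup'
    have hzK : z ∉ (K : Subgroup G) := by
      intro hzK
      obtain ⟨j, hj⟩ := hKp ⟨z, hzK⟩
      have h1 : z ^ q ^ j = 1 := by
        have := congrArg Subtype.val hj
        simpa using this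
      have h2 : 2 ∣ q ^ j := by rw [← hz]; exact orderOf_dvd_of_pow_eq_one h1
      have h3 : 2 ∣ q := Nat.Prime.dvd_of_dvd_pow Nat.prime_two h2
      omega
    have hKpow : ∀ x : G, x ∈ (K : Subgroup G) → x ^ q = 1 := by
      intro x hx
      obtain ⟨j, hj⟩ := hKp ⟨x, hx⟩
      have h1 : x ^ q ^ j = 1 := by
        have := congrArg Subtype.val hj
        simpa using this
      rcases order_one_or_prime hq (hsq q hq) x j h1 with h | h
      · rw [orderOf_eq_one_iff.1 h, one_pow]
      · rw [← h]; exact pow_orderOf_eq_one x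
    have hidx : (K : Subgroup G).index = 2 := by
      have h1 : ∀ {d : ℕ}, d.Prime → d ∣ (K : Subgroup G).index → d = 2 := by
        intro d hd hdi
        have hdN : d ∣ Nat.card G := dvd_trans hdi (Subgroup.index_dvd_card _)
        rcases huq d hd hdN with h | h
        · exact h
        · exfalso
          rw [h] at hdi
          exact K.not_dvd_index hdi
      obtain ⟨j, hj⟩ : ∃ j, (K : Subgroup G).index = 2 ^ j :=
        ⟨_, Nat.eq_prime_pow_of_unique_prime_dvd Subgroup.index_ne_zero_of_finite h1⟩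
      have h3 : 2 ^ j ∣ 1 + ordCount G 2 :=
        hfull 2 j Nat.prime_two (by rw [← hj]; exact Subgroup.index_dvd_card _)
      rw [hs2] at h3
      have h4 := Nat.le_of_dvd (by norm_num) h3
      rcases Nat.lt_or_ge j 2 with hj2 | hj2
      · interval_cases j
        · exfalso
          rw [pow_zero, Subgroup.index_eq_one] at hj
          exact hzK (by rw [hj]; exact Subgroup.mem_top z)
        · rw [hj, pow_one]
      · exfalso
        have := Nat.pow_le_pow_right (show 0 < 2 by norm_num) hj2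
        omega
    have hKcard : 2 * Nat.card (K : Subgroup G) = Nat.card G := by
      rw [← hidx]; exact Subgroup.index_mul_card _
    obtain ⟨φ₁, hφ₁⟩ := exists_hom_zmod_of_pow_eq_one 2 z hz2
    have hφz : φ₁ (Multiplicative.ofAdd (1 : ZMod 2)) = z := by
      have := hφ₁ 1
      simpa using this
    have hφpow : ∀ a : Multiplicative (ZMod 2), ∃ t : ℤ, φ₁ a = z ^ t := by
      intro a
      obtain ⟨t, ht⟩ := ZMod.intCast_surjective (Multiplicative.toAdd a)
      refine ⟨t, ?_⟩
      rw [← hφ₁ t, ht]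
      rfl
    have hcomm : ∀ (a : Multiplicative (ZMod 2)) (k : (K : Subgroup G)),
        Commute (φ₁ a) ((K : Subgroup G).subtype k) := by
      intro a k
      obtain ⟨t, ht⟩ := hφpow a
      rw [ht]
      exact Commute.zpow_left (show Commute z _ from (hcent _).symm) t
    let φ : Multiplicative (ZMod 2) × (K : Subgroup G) →* G :=
      MonoidHom.noncommCoprod φ₁ (K : Subgroup G).subtype hcomm
    have hφ : ∀ (a : Multiplicative (ZMod 2)) (k : (K : Subgroup G)),
        φ (a, k) = φ₁ a * (k : G) := fun a k => rfl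
    have h01 : ∀ b : ZMod 2, b = 0 ∨ b = 1 := by decide
    have hinj : Function.Injective φ := by
      rw [injective_iff_map_eq_one]
      rintro ⟨a, k⟩ hak
      rw [hφ] at hak
      have ha : a = 1 := by
        rcases h01 (Multiplicative.toAdd a) with h | h
        · exact congrArg Multiplicative.ofAdd h
        · exfalso
          have ha' : a = Multiplicative.ofAdd (1 : ZMod 2) := congrArg Multiplicative.ofAdd h
          rw [ha', hφz] at hak
          apply hzK
          have : z = (k : G)⁻¹ := eq_inv_of_mul_eq_one_left hak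
          rw [this]
          exact inv_mem k.2
      subst ha
      rw [map_one, one_mul] at hak
      exact Prod.ext rfl (Subtype.ext hak)
    have hcardφ : Nat.card (Multiplicative (ZMod 2) × (K : Subgroup G)) = Nat.card G := by
      rw [Nat.card_prod]
      have : Nat.card (Multiplicative (ZMod 2)) = 2 := Nat.card_zmod 2
      rw [this, hKcard]
    have hbij : Function.Bijective φ :=
      (Nat.bijective_iff_injective_and_card φ).2 ⟨hinj, hcardφ⟩
    obtain ⟨P, hPg, hPf, ⟨eP⟩⟩ : ∃ (X' : Type) (_ : Group X') (_ : Finite X'),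
        Nonempty (X' ≃* (K : Subgroup G)) := exists_mulEquiv_univ _
    refine ⟨q, P, hPg, hPf, hq, hq2, hKp.of_equiv eP.symm, ?_,
      ⟨(MulEquiv.ofBijective φ hbij).symm.trans
        (MulEquiv.prodCongr (MulEquiv.refl _) eP.symm)⟩⟩
    rw [Monoid.exponent_eq_of_mulEquiv eP]
    have h1 : Monoid.exponent (K : Subgroup G) ∣ q :=
      Monoid.exponent_dvd_of_forall_pow_eq_one (fun x => Subtype.ext (by
        rw [Subgroup.coe_pow]; exact hKpow x.1 x.2))
    rcases (Nat.dvd_prime hq).1 h1 with h | h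
    · exfalso
      rw [Monoid.exp_eq_one_iff] at h
      have hK1 : Nat.card (K : Subgroup G) = 1 := Nat.card_eq_one_iff_unique.2 ⟨h, ⟨1⟩⟩
      rw [hK1] at hKcard
      have h5 : q ∣ 2 * 1 := by rw [hKcard]; exact hqN
      have := Nat.le_of_dvd (by norm_num) h5
      omega
    · exact h
  · left
    have hsp : ∀ p : ℕ, p.Prime → p ∣ Nat.card G → ordCount G p = n := by
      intro p hp hpN
      by_cases hp2 : p = 2
      · subst hp2
        obtain ⟨x, hx⟩ := exists_prime_orderOf_dvd_card' (G := G) 2 hpN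
        rcases hs x with h | h
        · rw [hx] at h
          exact absurd ⟨⟨x, hx⟩, h⟩ h2
        · rwa [hx] at h
      · exact hodd p hp hp2 hpN
    have hN1 : Nat.card G ∣ 1 + n := by
      rw [Nat.dvd_iff_prime_pow_dvd_dvd]
      intro p k hp hpk
      rcases Nat.eq_zero_or_pos k with rfl | hk
      · simp
      · have hpN : p ∣ Nat.card G := dvd_trans (dvd_pow_self p hk.ne') hpk
        have := hfull p k hp hpk
        rwa [hsp p hp hpN] at this
    have hNle : Nat.card G ≤ 1 + n := Nat.le_of_dvd (by omega) hN1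
    obtain ⟨p, hp, hpN⟩ := Nat.exists_prime_and_dvd hNne1
    have hle1 : 1 + n ≤ Nat.card G := by
      have := sum_ordCount_le (G := G) {1, p}
      rw [Finset.sum_pair hp.one_lt.ne, ordCount_one, hsp p hp hpN] at this
      exact this
    have huniq : ∀ q : ℕ, q.Prime → q ∣ Nat.card G → q = p := by
      intro q hq hqN
      by_contra hqp
      have h1 : (1 : ℕ) ∉ ({p, q} : Finset ℕ) := by
        rw [Finset.mem_insert, Finset.mem_singleton]
        have := hp.one_lt
        have := hq.one_lt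
        omega
      have := sum_ordCount_le (G := G) {1, p, q}
      rw [Finset.sum_insert h1, Finset.sum_pair (Ne.symm hqp), ordCount_one, hsp p hp hpN,
        hsp q hq hqN] at this
      omega
    obtain ⟨k, hk⟩ : ∃ k, Nat.card G = p ^ k :=
      ⟨_, Nat.eq_prime_pow_of_unique_prime_dvd Nat.card_pos.ne'
        (fun {d} hd hdN => huniq d hd hdN)⟩
    have hG : IsPGroup p G := IsPGroup.of_card hk
    refine ⟨p, hp, hG, by omega, ?_⟩
    have hpow : ∀ x : G, x ^ p = 1 := by
      intro x
      obtain ⟨j, hj⟩ := hG x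
      rcases order_one_or_prime hp (hsq p hp) x j hj with h | h
      · rw [orderOf_eq_one_iff.1 h, one_pow]
      · rw [← h]; exact pow_orderOf_eq_one x
    have h1 : Monoid.exponent G ∣ p := Monoid.exponent_dvd_of_forall_pow_eq_one hpow
    rcases (Nat.dvd_prime hp).1 h1 with h | h
    · exfalso
      rw [Monoid.exp_eq_one_iff] at h
      exact hNne1 (Nat.card_eq_one_iff_unique.2 ⟨h, ⟨1⟩⟩)
    · exact h

theorem nse_two_values {n : ℕ} (hn : n ≠ 1)
    (hs : ∀ g : G, ordCount G (orderOf g) = 1 ∨ ordCount G (orderOf g) = n)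
    (hex : ∃ g : G, ordCount G (orderOf g) = n) :
    (∃ p : ℕ, p.Prime ∧ IsPGroup p G ∧ 3 ≤ Nat.card G ∧ Monoid.exponent G = p) ∨
      Nonempty (G ≃* QuaternionGroup 2) ∨ (IsCyclic G ∧ Nat.card G = 4) ∨
      (∃ (p : ℕ) (P : Type) (_ : Group P) (_ : Finite P), p.Prime ∧ p ≠ 2 ∧ IsPGroup p P ∧
        Monoid.exponent P = p ∧ Nonempty (G ≃* Multiplicative (ZMod 2) × P)) := by
  have hn2 : 2 ≤ n := by
    obtain ⟨g, hg⟩ := hex
    have := ordCount_pos g
    omega
  by_cases hsq : ∃ (p : ℕ) (g : G), p.Prime ∧ orderOf g = p ^ 2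
  · obtain ⟨p, g, hp, hg⟩ := hsq
    by_cases hp2 : p = 2
    · subst hp2
      rcases nse_two_caseI hs g (by rw [hg]; norm_num) with h | h
      · exact Or.inr (Or.inl h)
      · exact Or.inr (Or.inr (Or.inl h))
    · exact (no_order_sq_odd hs hp hp2 g hg).elim
  · push_neg at hsq
    rcases nse_two_caseII hn hn2 hs hex (fun p hp g => hsq p g hp) with h | h
    · exact Or.inl h
    · exact Or.inr (Or.inr (Or.inr h))

end NseTwo

end Cfsg.Agent.Helper21
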