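import Mathlib
import Cfsg.Agent.Helper21.NseTwo
import Cfsg.Agent.S0144

/-!
Finite groups in which the numbers of elements of each occurring order take at most three
values: counting lemmas and solvability.
-/

set_option autoImplicit false

universe u

namespace Cfsg.Agent.Helper21

/-! ### Arithmetic -/

theorem n3_one_ne {p : ℕ} (hp : 3 ≤ p) : (1 : ZMod p) ≠ 0 := by
  intro h
  have h1 : ((1 : ℕ) : ZMod p) = 0 := by simpa using h
  have h2 := (ZMod.natCast_eq_zero_iff 1 p).1 h1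
  have := Nat.le_of_dvd one_pos h2
  omega

theorem n3_two_ne {p : ℕ} (hp : 3 ≤ p) : (2 : ZMod p) ≠ 0 := by
  intro h
  have h1 : ((2 : ℕ) : ZMod p) = 0 := by simpa using h
  have h2 := (ZMod.natCast_eq_zero_iff 2 p).1 h1
  have := Nat.le_of_dvd (by norm_num) h2
  omega

theorem n3_cast {p n : ℕ} (h : p ∣ n) : (n : ZMod p) = 0 :=
  (ZMod.natCast_eq_zero_iff n p).2 h

theorem n3_same {p a b x : ℕ} (hp : 3 ≤ p) (hpa : p ∣ 1 + a)
    (hx : x = 0 ∨ x = a ∨ x = b) (h : p ∣ 1 + a + a + x) :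
    x = b ∧ (b : ZMod p) = 1 := by
  have A := n3_cast hpa
  push_cast at A
  rcases hx with rfl | rfl | rfl
  · exfalso
    have E := n3_cast h
    push_cast at E
    exact n3_one_ne hp (by linear_combination 2 * A - E)
  · exfalso
    have E := n3_cast h
    push_cast at E
    exact n3_two_ne hp (by linear_combination 3 * A - E)
  · refine ⟨rfl, ?_⟩
    have E := n3_cast h
    push_cast at E
    linear_combination E - 2 * A

theorem n3_mixed {p a b x : ℕ} (hp : 3 ≤ p) (A : (1 : ZMod p) + a = 0) (B : (b : ZMod p) = 1)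
    (hx : x = 0 ∨ x = a ∨ x = b) (h : p ∣ 1 + a + b + x) : x = a := by
  rcases hx with rfl | rfl | rfl
  · exfalso
    have E := n3_cast h
    push_cast at E
    exact n3_one_ne hp (by linear_combination E - A - B)
  · rfl
  · exfalso
    have E := n3_cast h
    push_cast at E
    exact n3_two_ne hp (by linear_combination E - A - 2 * B)

theorem n3_third {r a b y : ℕ} (hr : 3 ≤ r) (hrb : r ∣ 1 + b) (hpr : r ∣ 1 + a + b + a)
    (hy : y = 0 ∨ y = a ∨ y = b) (h : r ∣ 1 + a + a + b + b + a + a + y) : False := by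
  have B := n3_cast hrb
  push_cast at B
  have D0 := n3_cast hpr
  push_cast at D0
  have D : (2 : ZMod r) * a = 0 := by linear_combination D0 - B
  rcases hy with rfl | rfl | rfl
  · have E := n3_cast h
    push_cast at E
    exact n3_one_ne hr (by linear_combination -E + 2 * D + 2 * B)
  · have E := n3_cast h
    push_cast at E
    exact n3_two_ne hr (by linear_combination -2 * E + 5 * D + 4 * B)
  · have E := n3_cast h
    push_cast at E
    exact n3_two_ne hr (by linear_combination -E + 2 * D + 3 * B)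

theorem n3_nosq {l a b x : ℕ} (hl : 3 ≤ l) (A : (1 : ZMod l) + a = 0) (B : (b : ZMod l) = 1)
    (hx : x = a ∨ x = b) (h : l ∣ 1 + a + x) : False := by
  rcases hx with rfl | rfl
  · have E := n3_cast h
    push_cast at E
    exact n3_one_ne hl (by linear_combination 2 * A - E)
  · have E := n3_cast h
    push_cast at E
    exact n3_one_ne hl (by linear_combination E - A - B)

theorem n3_A1 {p q a b yp yq w t T4p T4q Tpq T : ℕ} (hp : 3 ≤ p) (hq : 3 ≤ q)
    (hpa : p ∣ 1 + a) (hqa : q ∣ 1 + a) (h4 : 4 ∣ 1 + 1 + a)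
    (hyp : yp = 0 ∨ yp = a ∨ yp = b) (hyq : yq = 0 ∨ yq = a ∨ yq = b)
    (hw : w = 0 ∨ w = a ∨ w = b) (ht : t = 0 ∨ t = a ∨ t = b)
    (e4p : T4p = 1 + 1 + a + a + a + yp) (e4q : T4q = 1 + 1 + a + a + a + yq)
    (epq : Tpq = 1 + a + a + w)
    (eT : T = 1 + 1 + a + a + a + yp + a + a + yq + w + w + t)
    (d4p4 : 4 ∣ T4p) (d4pp : p ∣ T4p) (d4qq : q ∣ T4q)
    (dpqp : p ∣ Tpq) (dT4 : 4 ∣ T) (dTp : p ∣ T) : False := by
  subst e4p e4q epq eT
  have A := n3_cast hpa
  push_cast at A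
  have Aq := n3_cast hqa
  push_cast at Aq
  obtain ⟨hwb, B⟩ := n3_same hp hpa hw dpqp
  subst hwb
  have hypb : yp = w := by
    rcases hyp with rfl | rfl | rfl
    · exfalso
      have E := n3_cast d4pp
      push_cast at E
      exact n3_one_ne hp (by linear_combination 3 * A - E)
    · exfalso
      have E := n3_cast d4pp
      push_cast at E
      exact n3_two_ne hp (by linear_combination 4 * A - E)
    · rfl
  subst hypb
  have hyqb : yq = yp := by
    rcases hyq with rfl | rfl | rfl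
    · exfalso
      have E := n3_cast d4qq
      push_cast at E
      exact n3_one_ne hq (by linear_combination 3 * Aq - E)
    · exfalso
      have E := n3_cast d4qq
      push_cast at E
      exact n3_two_ne hq (by linear_combination 4 * Aq - E)
    · rfl
  subst hyqb
  rcases ht with rfl | rfl | rfl
  · have E := n3_cast dTp
    push_cast at E
    exact n3_one_ne hp (by linear_combination E - 5 * A - 4 * B)
  · omega
  · have E := n3_cast dTp
    push_cast at E
    exact n3_two_ne hp (by linear_combination E - 5 * A - 5 * B)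

theorem n3_A2 {p q a b yp yq w t T4p T4q Tpq T : ℕ} (hp : 3 ≤ p) (hq : 3 ≤ q)
    (hpa : p ∣ 1 + a) (hqa : q ∣ 1 + a) (h4 : 4 ∣ 1 + 1 + b)
    (hyp : yp = 0 ∨ yp = a ∨ yp = b) (hyq : yq = 0 ∨ yq = a ∨ yq = b)
    (hw : w = 0 ∨ w = a ∨ w = b) (ht : t = 0 ∨ t = a ∨ t = b)
    (e4p : T4p = 1 + 1 + b + a + a + yp) (e4q : T4q = 1 + 1 + b + a + a + yq)
    (epq : Tpq = 1 + a + a + w)
    (eT : T = 1 + 1 + b + a + a + yp + a + a + yq + w + w + t)
    (d4p4 : 4 ∣ T4p) (d4pp : p ∣ T4p) (d4qq : q ∣ T4q)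
    (dpqp : p ∣ Tpq) (dpqq : q ∣ Tpq) (dT4 : 4 ∣ T) (dTp : p ∣ T) : False := by
  subst e4p e4q epq eT
  have A := n3_cast hpa
  push_cast at A
  have Aq := n3_cast hqa
  push_cast at Aq
  obtain ⟨hwb, B⟩ := n3_same hp hpa hw dpqp
  obtain ⟨-, Bq⟩ := n3_same hq hqa hw dpqq
  subst hwb
  have hypa : yp = a := by
    rcases hyp with rfl | rfl | rfl
    · exfalso
      have E := n3_cast d4pp
      push_cast at E
      exact n3_one_ne hp (by linear_combination E - 2 * A - B)
    · rfl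
    · exfalso
      have E := n3_cast d4pp
      push_cast at E
      exact n3_two_ne hp (by linear_combination E - 2 * A - 2 * B)
  subst hypa
  have hyqa : yq = yp := by
    rcases hyq with rfl | rfl | rfl
    · exfalso
      have E := n3_cast d4qq
      push_cast at E
      exact n3_one_ne hq (by linear_combination E - 2 * Aq - Bq)
    · rfl
    · exfalso
      have E := n3_cast d4qq
      push_cast at E
      exact n3_two_ne hq (by linear_combination E - 2 * Aq - 2 * Bq)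
  subst hyqa
  rcases ht with rfl | rfl | rfl
  · have E := n3_cast dTp
    push_cast at E
    exact n3_one_ne hp (by linear_combination -E + 6 * A + 3 * B)
  · have E := n3_cast dTp
    push_cast at E
    exact n3_two_ne hp (by linear_combination -E + 7 * A + 3 * B)
  · omega

theorem n3_B {p q a b yp yq w t T4p T4q Tpq T : ℕ} (hp : 3 ≤ p) (hq : 3 ≤ q)
    (hpa : p ∣ 1 + a) (hqb : q ∣ 1 + b) (h4 : 4 ∣ 1 + 1 + a)
    (hyp : yp = 0 ∨ yp = a ∨ yp = b) (hyq : yq = 0 ∨ yq = a ∨ yq = b)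
    (hw : w = 0 ∨ w = a ∨ w = b) (Z1 : yq = 0 → t = 0)
    (e4p : T4p = 1 + 1 + a + a + a + yp) (e4q : T4q = 1 + 1 + a + b + b + yq)
    (epq : Tpq = 1 + a + b + w)
    (eT : T = 1 + 1 + a + a + a + yp + b + b + yq + w + w + t)
    (d4p4 : 4 ∣ T4p) (d4pp : p ∣ T4p) (d4q4 : 4 ∣ T4q) (d4qq : q ∣ T4q)
    (dpqp : p ∣ Tpq) (dpqq : q ∣ Tpq) (dTq : q ∣ T) : False := by
  subst e4p e4q epq eT
  have A := n3_cast hpa
  push_cast at A
  have Bq := n3_cast hqb
  push_cast at Bq
  have hyb : yp = b ∧ (b : ZMod p) = 1 := by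
    rcases hyp with rfl | rfl | rfl
    · exfalso
      have E := n3_cast d4pp
      push_cast at E
      exact n3_one_ne hp (by linear_combination 3 * A - E)
    · exfalso
      have E := n3_cast d4pp
      push_cast at E
      exact n3_two_ne hp (by linear_combination 4 * A - E)
    · refine ⟨rfl, ?_⟩
      have E := n3_cast d4pp
      push_cast at E
      linear_combination E - 3 * A
  obtain ⟨hypb, Bp⟩ := hyb
  subst hypb
  have hwa : w = a := n3_mixed hp A Bp hw dpqp
  subst hwa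
  have E0 := n3_cast dpqq
  push_cast at E0
  have Dq : (2 : ZMod q) * w = 0 := by linear_combination E0 - Bq
  rcases hyq with rfl | rfl | rfl
  · have ht0 := Z1 rfl
    subst ht0
    have E := n3_cast dTq
    push_cast at E
    exact n3_two_ne hq (by linear_combination -2 * E + 6 * Bq + 5 * Dq)
  · omega
  · have E := n3_cast d4qq
    push_cast at E
    exact n3_two_ne hq (by linear_combination Dq - 2 * E + 6 * Bq)

theorem n3_III_a {p q a b sp sq yp yq w t : ℕ} (hp : 3 ≤ p) (hq : 3 ≤ q)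
    (hsp : sp = a ∨ sp = b) (hsq : sq = a ∨ sq = b)
    (hyp : yp = 0 ∨ yp = a ∨ yp = b) (hyq : yq = 0 ∨ yq = a ∨ yq = b)
    (hw : w = 0 ∨ w = a ∨ w = b) (ht : t = 0 ∨ t = a ∨ t = b)
    (Z1 : yq = 0 → t = 0) (Z2 : yp = 0 → t = 0)
    (hpp : p ∣ 1 + sp) (hqq : q ∣ 1 + sq) (f4 : 4 ∣ 1 + 1 + a)
    (f4p : 4 * p ∣ 1 + 1 + a + sp + sp + yp) (f4q : 4 * q ∣ 1 + 1 + a + sq + sq + yq)
    (fpq : p * q ∣ 1 + sp + sq + w)
    (fT : 4 * p * q ∣ 1 + 1 + a + sp + sp + yp + sq + sq + yq + w + w + t) : False := by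
  have d4p4 := (dvd_mul_right 4 p).trans f4p
  have d4pp := (dvd_mul_left p 4).trans f4p
  have d4q4 := (dvd_mul_right 4 q).trans f4q
  have d4qq := (dvd_mul_left q 4).trans f4q
  have dpqp := (dvd_mul_right p q).trans fpq
  have dpqq := (dvd_mul_left q p).trans fpq
  have dT4 := (dvd_mul_right 4 p).trans ((dvd_mul_right (4 * p) q).trans fT)
  have dTp := (dvd_mul_left p 4).trans ((dvd_mul_right (4 * p) q).trans fT)
  have dTq := (dvd_mul_left q (4 * p)).trans fT
  rcases hsp with rfl | rfl <;> rcases hsq with rfl | rfl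
  · exact n3_A1 hp hq hpp hqq f4 hyp hyq hw ht rfl rfl rfl rfl d4p4 d4pp d4qq dpqp dT4 dTp
  · exact n3_B hp hq hpp hqq f4 hyp hyq hw Z1 rfl rfl rfl rfl d4p4 d4pp d4q4 d4qq dpqp dpqq dTq
  · exact n3_B hq hp hqq hpp f4 hyq hyp hw Z2 rfl rfl (by omega) (by omega)
      d4q4 d4qq d4p4 d4pp dpqq dpqp dTp
  · exact n3_A2 hp hq hpp hqq f4 (hyp.imp_right Or.symm)
      (hyq.imp_right Or.symm) (hw.imp_right Or.symm) (ht.imp_right Or.symm) rfl rfl rfl rfl
      d4p4 d4pp d4qq dpqp dpqq dT4 dTp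

theorem n3_III {p q a b x4 sp sq yp yq w t : ℕ} (hp : 3 ≤ p) (hq : 3 ≤ q)
    (hx4 : x4 = a ∨ x4 = b) (hsp : sp = a ∨ sp = b) (hsq : sq = a ∨ sq = b)
    (hyp : yp = 0 ∨ yp = a ∨ yp = b) (hyq : yq = 0 ∨ yq = a ∨ yq = b)
    (hw : w = 0 ∨ w = a ∨ w = b) (ht : t = 0 ∨ t = a ∨ t = b)
    (Z1 : yq = 0 → t = 0) (Z2 : yp = 0 → t = 0)
    (hpp : p ∣ 1 + sp) (hqq : q ∣ 1 + sq) (f4 : 4 ∣ 1 + 1 + x4)
    (f4p : 4 * p ∣ 1 + 1 + x4 + sp + sp + yp) (f4q : 4 * q ∣ 1 + 1 + x4 + sq + sq + yq)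
    (fpq : p * q ∣ 1 + sp + sq + w)
    (fT : 4 * p * q ∣ 1 + 1 + x4 + sp + sp + yp + sq + sq + yq + w + w + t) : False := by
  rcases hx4 with rfl | rfl
  · exact n3_III_a hp hq hsp hsq hyp hyq hw ht Z1 Z2 hpp hqq f4 f4p f4q fpq fT
  · exact n3_III_a hp hq hsp.symm hsq.symm (hyp.imp_right Or.symm)
      (hyq.imp_right Or.symm) (hw.imp_right Or.symm) (ht.imp_right Or.symm) Z1 Z2 hpp hqq f4
      f4p f4q fpq fT

theorem n3_two_of_no_three (n : ℕ)
    (h : ∀ p q r : ℕ, p.Prime → q.Prime → r.Prime → p ∣ n → q ∣ n → r ∣ n →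
      p ≠ q → p ≠ r → q ≠ r → False) :
    ∃ p q : ℕ, p.Prime ∧ q.Prime ∧ ∀ l : ℕ, l.Prime → l ∣ n → l = p ∨ l = q := by
  by_cases h1 : ∃ p : ℕ, p.Prime ∧ p ∣ n
  · obtain ⟨p, hp, hpn⟩ := h1
    by_cases h2 : ∃ q : ℕ, q.Prime ∧ q ∣ n ∧ q ≠ p
    · obtain ⟨q, hq, hqn, hqp⟩ := h2
      refine ⟨p, q, hp, hq, fun l hl hln => ?_⟩
      by_contra hc
      push Not at hc
      exact h p q l hp hq hl hpn hqn hln (Ne.symm hqp) (Ne.symm hc.1) (Ne.symm hc.2)
    · refine ⟨p, p, hp, hp, fun l hl hln => ?_⟩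
      by_contra hc
      exact h2 ⟨l, hl, hln, fun e => hc (Or.inl e)⟩
  · exact ⟨2, 2, Nat.prime_two, Nat.prime_two, fun l hl hln => (h1 ⟨l, hl, hln⟩).elim⟩

theorem n3_one_odd (n : ℕ)
    (h : ∀ p q : ℕ, p.Prime → q.Prime → p ∣ n → q ∣ n → p ≠ 2 → q ≠ 2 → p ≠ q → False) :
    ∃ p : ℕ, p.Prime ∧ ∀ l : ℕ, l.Prime → l ∣ n → l = 2 ∨ l = p := by
  by_cases h1 : ∃ p : ℕ, p.Prime ∧ p ∣ n ∧ p ≠ 2
  · obtain ⟨p, hp, hpn, hp2⟩ := h1
    refine ⟨p, hp, fun l hl hln => ?_⟩
    by_contra hc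
    push Not at hc
    exact h p l hp hl hpn hln hp2 hc.1 (Ne.symm hc.2)
  · refine ⟨2, Nat.prime_two, fun l hl hln => ?_⟩
    by_contra hc
    exact h1 ⟨l, hl, hln, fun e => hc (Or.inl e)⟩

theorem n3_divisors_mul_prime {n q : ℕ} (hq : q.Prime) (hqn : ¬ q ∣ n) (s : ℕ → ℕ) :
    ∑ d ∈ (n * q).divisors, s d = ∑ d ∈ n.divisors, s d + ∑ d ∈ n.divisors, s (d * q) := by
  classical
  have hn0 : n ≠ 0 := fun h => hqn (by rw [h]; exact dvd_zero q)
  have hset : (n * q).divisors = n.divisors ∪ n.divisors.image (fun d => d * q) := by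
    ext x
    rw [Finset.mem_union, Finset.mem_image, Nat.mem_divisors, Nat.mem_divisors]
    constructor
    · rintro ⟨hx, _⟩
      obtain ⟨y, w, hy, hw, rfl⟩ := (Nat.dvd_mul).1 hx
      rcases (Nat.dvd_prime hq).1 hw with rfl | rfl
      · left
        exact ⟨by simpa using hy, hn0⟩
      · right
        exact ⟨y, Nat.mem_divisors.2 ⟨hy, hn0⟩, rfl⟩
    · rintro (⟨hx, _⟩ | ⟨y, hy, rfl⟩)
      · exact ⟨dvd_mul_of_dvd_left hx q, mul_ne_zero hn0 hq.ne_zero⟩
      · exact ⟨mul_dvd_mul_right (Nat.mem_divisors.1 hy).1 q, mul_ne_zero hn0 hq.ne_zero⟩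
  have hdisj : Disjoint n.divisors (n.divisors.image (fun d => d * q)) := by
    rw [Finset.disjoint_left]
    intro x hx hx'
    obtain ⟨y, _, rfl⟩ := Finset.mem_image.1 hx'
    exact hqn (dvd_trans (dvd_mul_left q y) (Nat.mem_divisors.1 hx).1)
  rw [hset, Finset.sum_union hdisj, Finset.sum_image]
  intro x _ y _ h
  exact Nat.eq_of_mul_eq_mul_right hq.pos h

theorem n3_sum_prime {p : ℕ} (hp : p.Prime) (s : ℕ → ℕ) :
    ∑ d ∈ p.divisors, s d = s 1 + s p := by
  rw [hp.divisors, Finset.sum_pair hp.one_lt.ne]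

theorem n3_sum_four (s : ℕ → ℕ) : ∑ d ∈ (4 : ℕ).divisors, s d = s 1 + s 2 + s 4 := by
  rw [show (4 : ℕ).divisors = {1, 2, 4} from by decide,
    Finset.sum_insert (by decide), Finset.sum_pair (by decide)]
  ring

theorem n3_not_dvd_of_ne {p q : ℕ} (hp : p.Prime) (hq : q.Prime) (hpq : p ≠ q) : ¬ q ∣ p :=
  fun h => hpq ((Nat.prime_dvd_prime_iff_eq hq hp).1 h).symm

section Nse3

variable {G : Type u} [Group G] [Finite G]

theorem n3_frob (n : ℕ) (hn : n ∣ Nat.card G) : n ∣ ∑ d ∈ n.divisors, ordCount G d := by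
  have hn0 : n ≠ 0 := by
    rintro rfl
    rw [zero_dvd_iff] at hn
    exact Nat.card_pos.ne' hn
  have h1 := frobenius_dvd (G := G) n hn
  have h2 := card_pow_eq_one_eq_sum (G := G) n n.divisors (by
    intro g
    rw [← orderOf_dvd_iff_pow_eq_one, Nat.mem_divisors]
    exact ⟨fun h => ⟨h, hn0⟩, fun h => h.1⟩)
  rwa [h2] at h1

theorem n3_total : ∑ d ∈ (Nat.card G).divisors, ordCount G d = Nat.card G := by
  have h1 := card_pow_eq_one_eq_sum (G := G) (Nat.card G) (Nat.card G).divisors (by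
    intro g
    rw [Nat.mem_divisors]
    exact ⟨fun _ => ⟨orderOf_dvd_natCard g, Nat.card_pos.ne'⟩, fun _ => pow_card_eq_one'⟩)
  rw [← h1]
  exact Nat.card_congr (Equiv.subtypeUnivEquiv (fun g => pow_card_eq_one'))

theorem n3_frob_pq {p q : ℕ} (hp : p.Prime) (hq : q.Prime) (hpq : p ≠ q)
    (h : p * q ∣ Nat.card G) :
    p * q ∣ 1 + ordCount G p + ordCount G q + ordCount G (p * q) := by
  have h1 := n3_frob (G := G) (p * q) h
  rw [n3_divisors_mul_prime hq (n3_not_dvd_of_ne hp hq hpq) (fun d => ordCount G d),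
    n3_sum_prime hp (fun d => ordCount G d), n3_sum_prime hp (fun d => ordCount G (d * q)),
    one_mul, ordCount_one] at h1
  convert h1 using 1
  ring

theorem n3_frob_pqr {p q r : ℕ} (hp : p.Prime) (hq : q.Prime) (hr : r.Prime) (hpq : p ≠ q)
    (hpr : p ≠ r) (hqr : q ≠ r) (h : p * q * r ∣ Nat.card G) :
    p * q * r ∣ 1 + ordCount G p + ordCount G q + ordCount G (p * q) + ordCount G r
      + ordCount G (p * r) + ordCount G (q * r) + ordCount G (p * q * r) := by
  have h1 := n3_frob (G := G) (p * q * r) h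
  have hr' : ¬ r ∣ p * q := by
    intro hd
    rcases (Nat.Prime.dvd_mul hr).1 hd with h' | h'
    · exact n3_not_dvd_of_ne hp hr hpr h'
    · exact n3_not_dvd_of_ne hq hr hqr h'
  rw [n3_divisors_mul_prime hr hr' (fun d => ordCount G d),
    n3_divisors_mul_prime hq (n3_not_dvd_of_ne hp hq hpq) (fun d => ordCount G d),
    n3_divisors_mul_prime hq (n3_not_dvd_of_ne hp hq hpq) (fun d => ordCount G (d * r)),
    n3_sum_prime hp (fun d => ordCount G d), n3_sum_prime hp (fun d => ordCount G (d * q)),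
    n3_sum_prime hp (fun d => ordCount G (d * r)),
    n3_sum_prime hp (fun d => ordCount G (d * q * r))] at h1
  simp only [one_mul, ordCount_one] at h1
  convert h1 using 1
  ring

theorem n3_frob_4pq {p q : ℕ} (hp : p.Prime) (hq : q.Prime) (hp2 : p ≠ 2) (hq2 : q ≠ 2)
    (hpq : p ≠ q) (h : 4 * p * q ∣ Nat.card G) :
    4 * p * q ∣ 1 + ordCount G 2 + ordCount G 4 + ordCount G p + ordCount G (2 * p)
      + ordCount G (4 * p) + ordCount G q + ordCount G (2 * q) + ordCount G (4 * q)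
      + ordCount G (p * q) + ordCount G (2 * p * q) + ordCount G (4 * p * q) := by
  have h1 := n3_frob (G := G) (4 * p * q) h
  have hp4 : ¬ p ∣ 4 := by
    intro hd
    have h2 : p ∣ 2 ^ 2 := by norm_num; exact hd
    exact hp2 ((Nat.prime_dvd_prime_iff_eq hp Nat.prime_two).1 (hp.dvd_of_dvd_pow h2))
  have hq4p : ¬ q ∣ 4 * p := by
    intro hd
    rcases (Nat.Prime.dvd_mul hq).1 hd with h' | h'
    · have h2 : q ∣ 2 ^ 2 := by norm_num; exact h'
      exact hq2 ((Nat.prime_dvd_prime_iff_eq hq Nat.prime_two).1 (hq.dvd_of_dvd_pow h2))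
    · exact n3_not_dvd_of_ne hp hq hpq h'
  rw [n3_divisors_mul_prime hq hq4p (fun d => ordCount G d),
    n3_divisors_mul_prime hp hp4 (fun d => ordCount G d),
    n3_divisors_mul_prime hp hp4 (fun d => ordCount G (d * q)),
    n3_sum_four (fun d => ordCount G d), n3_sum_four (fun d => ordCount G (d * p)),
    n3_sum_four (fun d => ordCount G (d * q)), n3_sum_four (fun d => ordCount G (d * p * q))] at h1
  simp only [one_mul, ordCount_one] at h1
  convert h1 using 1
  ring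

theorem n3_even {m : ℕ} (hm : 3 ≤ m) : Even (ordCount G m) := by
  classical
  unfold ordCount
  haveI : Fintype {x : G // orderOf x = m} := Fintype.ofFinite _
  let σ : Equiv.Perm {x : G // orderOf x = m} :=
    { toFun := fun g => ⟨g.1⁻¹, by rw [orderOf_inv]; exact g.2⟩
      invFun := fun g => ⟨g.1⁻¹, by rw [orderOf_inv]; exact g.2⟩
      left_inv := fun g => Subtype.ext (inv_inv _)
      right_inv := fun g => Subtype.ext (inv_inv _) }
  have hσ : σ ^ 2 = 1 := by
    ext g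
    rw [pow_two]
    exact inv_inv _
  have h1 := Equiv.Perm.two_dvd_card_support hσ
  have h2 : σ.support = Finset.univ := by
    ext g
    simp only [Equiv.Perm.mem_support, Finset.mem_univ, iff_true]
    intro h
    have h3 : (g.1)⁻¹ = g.1 := congrArg Subtype.val h
    have h4 : g.1 ^ 2 = 1 := by
      rw [pow_two]
      nth_rewrite 1 [← h3]
      exact inv_mul_cancel _
    have h5 := Nat.le_of_dvd (by norm_num) (orderOf_dvd_of_pow_eq_one h4)
    rw [g.2] at h5
    omega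
  rw [h2, Finset.card_univ] at h1
  rw [Nat.card_eq_fintype_card]
  exact even_iff_two_dvd.2 h1

theorem n3_T3 {a b : ℕ}
    (H : ∀ g : G, ordCount G (orderOf g) = 1 ∨ ordCount G (orderOf g) = a ∨
      ordCount G (orderOf g) = b)
    {m : ℕ} (hm : 3 ≤ m) : ordCount G m = 0 ∨ ordCount G m = a ∨ ordCount G m = b := by
  by_cases hex : ∃ g : G, orderOf g = m
  · obtain ⟨g, rfl⟩ := hex
    rcases H g with h | h | h
    · exfalso
      have h1 := eq_of_ordCount_eq_one h g g⁻¹ rfl (orderOf_inv g)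
      have h2 : g ^ 2 = 1 := by
        have : g * g = g * g⁻¹ := by rw [← h1]
        rw [pow_two, this, mul_inv_cancel]
      have h4 := Nat.le_of_dvd (by norm_num) (orderOf_dvd_of_pow_eq_one h2)
      omega
    · exact Or.inr (Or.inl h)
    · exact Or.inr (Or.inr h)
  · left
    exact ordCount_eq_zero m (fun g hg => hex ⟨g, hg⟩)

theorem n3_prime_val {a b : ℕ}
    (H : ∀ g : G, ordCount G (orderOf g) = 1 ∨ ordCount G (orderOf g) = a ∨
      ordCount G (orderOf g) = b)
    {l : ℕ} (hl : l.Prime) (hl3 : 3 ≤ l) (hd : l ∣ Nat.card G) :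
    ordCount G l = a ∨ ordCount G l = b := by
  haveI : Fact l.Prime := ⟨hl⟩
  obtain ⟨g, hg⟩ := exists_prime_orderOf_dvd_card' (G := G) l hd
  rcases n3_T3 H hl3 with h | h | h
  · have := ordCount_pos g
    rw [hg] at this
    omega
  · exact Or.inl h
  · exact Or.inr h

theorem n3_double (h2 : ordCount G 2 = 1) {m : ℕ} (hm : Odd m) :
    ordCount G (2 * m) = ordCount G m := by
  have hz : ∃ z : G, orderOf z = 2 := by
    have h2' := h2
    unfold ordCount at h2'
    rw [Nat.card_eq_one_iff_unique] at h2'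
    obtain ⟨_, ⟨z⟩⟩ := h2'
    exact ⟨z.1, z.2⟩
  obtain ⟨z, hz⟩ := hz
  have hzc : ∀ x : G, x * z = z * x := central_of_ordCount_two h2 z hz
  have hzz : z * z = 1 := by
    rw [← pow_two, ← hz]
    exact pow_orderOf_eq_one z
  have huniq : ∀ w : G, orderOf w = 2 → w = z := fun w hw => eq_of_ordCount_eq_one h2 w z hw hz
  have hm0 : 0 < m := hm.pos
  have hzpow : ∀ k : ℕ, Odd k → z ^ k = z := by
    intro k hk
    obtain ⟨j, rfl⟩ := hk
    rw [pow_succ, pow_mul, pow_two, hzz, one_pow, one_mul]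
  have hfw : ∀ g : G, orderOf g = m → orderOf (z * g) = 2 * m := by
    intro g hg
    have hc : Commute z g := (hzc g).symm
    have hcop : Nat.Coprime (orderOf z) (orderOf g) := by
      rw [hz, hg]
      exact Nat.coprime_two_left.2 hm
    rw [hc.orderOf_mul_eq_mul_orderOf_of_coprime hcop, hz, hg]
  have hbw : ∀ g : G, orderOf g = 2 * m → orderOf (z * g) = m := by
    intro g hg
    have hgm : g ^ m = z := by
      apply huniq
      rw [orderOf_pow' g hm0.ne', hg, Nat.gcd_eq_right (dvd_mul_left m 2)]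
      exact Nat.mul_div_cancel 2 hm0
    have hc : Commute z g := (hzc g).symm
    have h1 : (z * g) ^ m = 1 := by rw [hc.mul_pow, hzpow m hm, hgm, hzz]
    have hdvd : orderOf (z * g) ∣ m := orderOf_dvd_of_pow_eq_one h1
    apply Nat.dvd_antisymm hdvd
    have hkodd : Odd (orderOf (z * g)) := Odd.of_dvd_nat hm hdvd
    have h2' : (z * g) ^ orderOf (z * g) = 1 := pow_orderOf_eq_one _
    rw [hc.mul_pow, hzpow _ hkodd] at h2'
    have h3 : g ^ orderOf (z * g) = z := by
      have h3' : g ^ orderOf (z * g) = z⁻¹ := eq_inv_of_mul_eq_one_right h2'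
      rw [h3']
      exact inv_eq_of_mul_eq_one_left hzz
    have h4 : g ^ (2 * orderOf (z * g)) = 1 := by rw [mul_comm, pow_mul, h3, pow_two, hzz]
    have h5 : 2 * m ∣ 2 * orderOf (z * g) := by
      rw [← hg]
      exact orderOf_dvd_of_pow_eq_one h4
    exact (Nat.mul_dvd_mul_iff_left (by norm_num)).1 h5
  unfold ordCount
  exact Nat.card_congr
    { toFun := fun g => ⟨z * g.1, hbw g.1 g.2⟩
      invFun := fun g => ⟨z * g.1, hfw g.1 g.2⟩
      left_inv := fun g => Subtype.ext (by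
        show z * (z * g.1) = g.1
        rw [← mul_assoc, hzz, one_mul])
      right_inv := fun g => Subtype.ext (by
        show z * (z * g.1) = g.1
        rw [← mul_assoc, hzz, one_mul]) }

theorem n3_zero_mul {n p : ℕ} (hp : p ≠ 0) (h : ordCount G n = 0) : ordCount G (n * p) = 0 := by
  apply ordCount_eq_zero
  intro g hg
  have h1 : orderOf (g ^ p) = n := by
    rw [orderOf_pow_of_dvd hp (by rw [hg]; exact dvd_mul_left p n), hg]
    exact Nat.mul_div_cancel n (Nat.pos_of_ne_zero hp)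
  have := ordCount_pos (g ^ p)
  rw [h1] at this
  omega

end Nse3

end Cfsg.Agent.Helper21
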