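import Mathlib
import Cfsg.Agent.Helper21.Nse3A

/-!
Finite groups in which the numbers of elements of each occurring order take at most three
values are solvable.
-/

set_option autoImplicit false

universe u

namespace Cfsg.Agent.Helper21

section Nse3

variable {G : Type u} [Group G] [Finite G]

theorem n3_odd_core {a b : ℕ}
    (H : ∀ g : G, ordCount G (orderOf g) = 1 ∨ ordCount G (orderOf g) = a ∨
      ordCount G (orderOf g) = b)
    {M : ℕ} (hMG : M ∣ Nat.card G) (hMo : Odd M)
    (hsum : ∑ d ∈ M.divisors, ordCount G d ≤ M)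
    {p q : ℕ} (hp : p.Prime) (hq : q.Prime) (hpM : p ∣ M) (hqM : q ∣ M)
    (hpq : p ≠ q) (hsp : ordCount G p = a) (hsq : ordCount G q = a) :
    (∀ l : ℕ, l.Prime → l ∣ M → l ≠ p → l ≠ q → ordCount G l = b → False) ∧
    ((∀ l : ℕ, l.Prime → l ∣ M → ordCount G l = a) → False) := by
  have odd3 : ∀ l : ℕ, l.Prime → l ∣ M → 3 ≤ l := by
    intro l hl dl
    have h2 := hl.two_le
    have : l ≠ 2 := by
      rintro rfl
      exact hMo.not_two_dvd_nat dl
    omega
  have hM0 : M ≠ 0 := by
    rintro rfl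
    exact (Nat.not_odd_iff_even.2 (by decide : Even 0)) hMo
  have dvdG : ∀ {n : ℕ}, n ∣ M → n ∣ Nat.card G := fun h => h.trans hMG
  have mulM : ∀ l1 l2 : ℕ, l1.Prime → l2.Prime → l1 ∣ M → l2 ∣ M → l1 ≠ l2 → l1 * l2 ∣ M :=
    fun l1 l2 h1 h2 d1 d2 hne =>
      Nat.Coprime.mul_dvd_of_dvd_of_dvd ((Nat.coprime_primes h1 h2).2 hne) d1 d2
  have mul3 : ∀ l1 l2 : ℕ, 3 ≤ l1 → 3 ≤ l2 → 3 ≤ l1 * l2 := by
    intro l1 l2 h1 h2
    nlinarith
  have pair : ∀ l1 l2 : ℕ, l1.Prime → l2.Prime → l1 ∣ M → l2 ∣ M → l1 ≠ l2 →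
      ordCount G l1 = a → ordCount G l2 = a →
      ordCount G (l1 * l2) = b ∧ ((b : ℕ) : ZMod l1) = 1 := by
    intro l1 l2 h1 h2 d1 d2 hne s1 s2
    have hf := n3_frob_pq h1 h2 hne (dvdG (mulM l1 l2 h1 h2 d1 d2 hne))
    rw [s1, s2] at hf
    have hpa := prime_dvd_one_add_ordCount h1 (dvdG d1)
    rw [s1] at hpa
    exact n3_same (odd3 l1 h1 d1) hpa (n3_T3 H (mul3 l1 l2 (odd3 l1 h1 d1) (odd3 l2 h2 d2)))
      ((dvd_mul_right l1 l2).trans hf)
  have Aof : ∀ l : ℕ, l.Prime → l ∣ M → ordCount G l = a → (1 : ZMod l) + a = 0 := by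
    intro l hl dl sl
    have h := n3_cast (prime_dvd_one_add_ordCount hl (dvdG dl))
    rw [sl] at h
    push_cast at h
    exact h
  obtain ⟨hpqb, Bp⟩ := pair p q hp hq hpM hqM hpq hsp hsq
  obtain ⟨-, Bq⟩ := pair q p hq hp hqM hpM (Ne.symm hpq) hsq hsp
  have Ap := Aof p hp hpM hsp
  have Aq := Aof q hq hqM hsq
  have p3 := odd3 p hp hpM
  have q3 := odd3 q hq hqM
  refine ⟨?_, ?_⟩
  · intro l hl dl hlp hlq sl
    have l3 := odd3 l hl dl
    have hlb := prime_dvd_one_add_ordCount hl (dvdG dl)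
    rw [sl] at hlb
    have f1 := n3_frob_pq hp hl (Ne.symm hlp) (dvdG (mulM p l hp hl hpM dl (Ne.symm hlp)))
    rw [hsp, sl] at f1
    have f2 := n3_frob_pq hq hl (Ne.symm hlq) (dvdG (mulM q l hq hl hqM dl (Ne.symm hlq)))
    rw [hsq, sl] at f2
    have e1 : ordCount G (p * l) = a :=
      n3_mixed p3 Ap Bp (n3_T3 H (mul3 p l p3 l3)) ((dvd_mul_right p l).trans f1)
    have e2 : ordCount G (q * l) = a :=
      n3_mixed q3 Aq Bq (n3_T3 H (mul3 q l q3 l3)) ((dvd_mul_right q l).trans f2)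
    have hcop : Nat.Coprime (p * q) l :=
      Nat.Coprime.mul_left ((Nat.coprime_primes hp hl).2 (Ne.symm hlp))
        ((Nat.coprime_primes hq hl).2 (Ne.symm hlq))
    have hpql : p * q * l ∣ M :=
      Nat.Coprime.mul_dvd_of_dvd_of_dvd hcop (mulM p q hp hq hpM hqM hpq) dl
    have f3 := n3_frob_pqr hp hq hl hpq (Ne.symm hlp) (Ne.symm hlq) (dvdG hpql)
    rw [hsp, hsq, hpqb, sl, e1, e2] at f3
    rw [e1] at f1
    exact n3_third l3 hlb ((dvd_mul_left l p).trans f1)
      (n3_T3 H (mul3 (p * q) l (by nlinarith) l3)) ((dvd_mul_left l (p * q)).trans f3)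
  · intro alla
    have hMa : M ∣ 1 + a := by
      rw [Nat.dvd_iff_prime_pow_dvd_dvd]
      intro l k hl hlk
      rcases Nat.eq_zero_or_pos k with rfl | hk
      · simp
      have dl : l ∣ M := (dvd_pow_self l hk.ne').trans hlk
      have l3 := odd3 l hl dl
      have sl := alla l hl dl
      obtain ⟨l', hl', dl', hne, sl'⟩ :
          ∃ l' : ℕ, l'.Prime ∧ l' ∣ M ∧ l ≠ l' ∧ ordCount G l' = a := by
        by_cases hlp : l = p
        · exact ⟨q, hq, hqM, by rw [hlp]; exact hpq, hsq⟩
        · exact ⟨p, hp, hpM, hlp, hsp⟩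
      obtain ⟨-, Bl⟩ := pair l l' hl hl' dl dl' hne sl sl'
      have Al := Aof l hl dl sl
      have hsq' : ∀ g : G, orderOf g ≠ l ^ 2 := by
        intro g hg
        have h2 : l ^ 2 ∣ Nat.card G := by
          rw [← hg]
          exact orderOf_dvd_natCard g
        have f := sq_dvd_count (G := G) hl rfl h2
        rw [sl] at f
        have hx : ordCount G (l ^ 2) = a ∨ ordCount G (l ^ 2) = b := by
          rcases n3_T3 H (m := l ^ 2) (by nlinarith) with h | h | h
          · have := ordCount_pos g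
            rw [hg] at this
            omega
          · exact Or.inl h
          · exact Or.inr h
        exact n3_nosq l3 Al Bl hx ((dvd_pow_self l (by norm_num)).trans f)
      have := prime_pow_dvd_one_add_ordCount hl hsq' k (dvdG hlk)
      rwa [sl] at this
    have hb0 : b ≠ 0 := by
      rintro rfl
      rw [Nat.cast_zero] at Bp
      exact n3_one_ne p3 Bp.symm
    have hsub : ({1, p, p * q} : Finset ℕ) ⊆ M.divisors := by
      intro x hx
      simp only [Finset.mem_insert, Finset.mem_singleton] at hx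
      rw [Nat.mem_divisors]
      rcases hx with rfl | rfl | rfl
      · exact ⟨one_dvd _, hM0⟩
      · exact ⟨hpM, hM0⟩
      · exact ⟨mulM p q hp hq hpM hqM hpq, hM0⟩
    have h1 := Finset.sum_le_sum_of_subset (f := fun d => ordCount G d) hsub
    have e1 : (1 : ℕ) ∉ ({p, p * q} : Finset ℕ) := by
      simp only [Finset.mem_insert, Finset.mem_singleton]
      rintro (h | h)
      · omega
      · nlinarith
    have e2 : p ≠ p * q := by
      intro h
      nlinarith
    rw [Finset.sum_insert e1, Finset.sum_pair e2, ordCount_one, hsp, hpqb] at h1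
    have h2 := Nat.le_of_dvd (by omega) hMa
    omega

theorem n3_odd {a b : ℕ}
    (H : ∀ g : G, ordCount G (orderOf g) = 1 ∨ ordCount G (orderOf g) = a ∨
      ordCount G (orderOf g) = b)
    {M : ℕ} (hMG : M ∣ Nat.card G) (hMo : Odd M)
    (hsum : ∑ d ∈ M.divisors, ordCount G d ≤ M)
    {p q r : ℕ} (hp : p.Prime) (hq : q.Prime) (hr : r.Prime) (hpM : p ∣ M) (hqM : q ∣ M)
    (hrM : r ∣ M) (hpq : p ≠ q) (hpr : p ≠ r) (hqr : q ≠ r) : False := by
  have odd3 : ∀ l : ℕ, l.Prime → l ∣ M → 3 ≤ l := by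
    intro l hl dl
    have h2 := hl.two_le
    have : l ≠ 2 := by
      rintro rfl
      exact hMo.not_two_dvd_nat dl
    omega
  have val : ∀ l : ℕ, l.Prime → l ∣ M → ordCount G l = a ∨ ordCount G l = b :=
    fun l hl dl => n3_prime_val H hl (odd3 l hl dl) (dl.trans hMG)
  have H' : ∀ g : G, ordCount G (orderOf g) = 1 ∨ ordCount G (orderOf g) = b ∨
      ordCount G (orderOf g) = a := fun g => (H g).imp_right Or.symm
  -- a general step: two primes with the same value
  have step : ∀ (a b : ℕ), (∀ g : G, ordCount G (orderOf g) = 1 ∨ ordCount G (orderOf g) = a ∨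
      ordCount G (orderOf g) = b) → ∀ p q r : ℕ, p.Prime → q.Prime → r.Prime → p ∣ M → q ∣ M →
      r ∣ M → p ≠ q → p ≠ r → q ≠ r → ordCount G p = a → ordCount G q = a → False := by
    intro a b H p q r hp hq hr hpM hqM hrM hpq hpr hqr sp sq
    obtain ⟨h1, h2⟩ := n3_odd_core H hMG hMo hsum hp hq hpM hqM hpq sp sq
    apply h2
    intro l hl dl
    by_cases hlp : l = p
    · rw [hlp]; exact sp
    by_cases hlq : l = q
    · rw [hlq]; exact sq
    rcases n3_prime_val H hl (odd3 l hl dl) (dl.trans hMG) with h | h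
    · exact h
    · exact (h1 l hl dl hlp hlq h).elim
  rcases val p hp hpM with vp | vp <;> rcases val q hq hqM with vq | vq <;>
    rcases val r hr hrM with vr | vr
  · exact step a b H p q r hp hq hr hpM hqM hrM hpq hpr hqr vp vq
  · exact step a b H p q r hp hq hr hpM hqM hrM hpq hpr hqr vp vq
  · exact step a b H p r q hp hr hq hpM hrM hqM hpr hpq (Ne.symm hqr) vp vr
  · exact step b a H' q r p hq hr hp hqM hrM hpM hqr (Ne.symm hpq) (Ne.symm hpr) vq vr
  · exact step a b H q r p hq hr hp hqM hrM hpM hqr (Ne.symm hpq) (Ne.symm hpr) vq vr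
  · exact step b a H' p r q hp hr hq hpM hrM hqM hpr hpq (Ne.symm hqr) vp vr
  · exact step b a H' p q r hp hq hr hpM hqM hrM hpq hpr hqr vp vq
  · exact step b a H' p q r hp hq hr hpM hqM hrM hpq hpr hqr vp vq

theorem n3_caseII {a b : ℕ}
    (H : ∀ g : G, ordCount G (orderOf g) = 1 ∨ ordCount G (orderOf g) = a ∨
      ordCount G (orderOf g) = b)
    (h2 : 2 ∣ Nat.card G) (hs2 : ordCount G 2 ≠ 1)
    {p q : ℕ} (hp : p.Prime) (hq : q.Prime) (hp2 : p ≠ 2) (hq2 : q ≠ 2) (hpq : p ≠ q)
    (hpG : p ∣ Nat.card G) (hqG : q ∣ Nat.card G) : False := by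
  have p3 : 3 ≤ p := by have := hp.two_le; omega
  have q3 : 3 ≤ q := by have := hq.two_le; omega
  haveI : Fact (Nat.Prime 2) := ⟨Nat.prime_two⟩
  haveI : Fact p.Prime := ⟨hp⟩
  haveI : Fact q.Prime := ⟨hq⟩
  obtain ⟨g, hg⟩ := exists_prime_orderOf_dvd_card' (G := G) 2 h2
  obtain ⟨gp, hgp⟩ := exists_prime_orderOf_dvd_card' (G := G) p hpG
  obtain ⟨gq, hgq⟩ := exists_prime_orderOf_dvd_card' (G := G) q hqG
  have posp : 0 < ordCount G p := by have := ordCount_pos gp; rwa [hgp] at this
  have posq : 0 < ordCount G q := by have := ordCount_pos gq; rwa [hgq] at this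
  have hodd := prime_dvd_one_add_ordCount (G := G) Nat.prime_two h2
  have hv := H g
  rw [hg] at hv
  have core : ∀ a b : ℕ, (∀ g : G, ordCount G (orderOf g) = 1 ∨ ordCount G (orderOf g) = a ∨
      ordCount G (orderOf g) = b) → ordCount G 2 = a → False := by
    intro a b H s2
    have T : ∀ m : ℕ, 3 ≤ m → ordCount G m = 0 ∨ ordCount G m = b := by
      intro m hm
      rcases n3_T3 H hm with h | h | h
      · exact Or.inl h
      · exfalso
        have he := n3_even (G := G) hm
        rw [h, ← s2] at he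
        obtain ⟨k, hk⟩ := he
        obtain ⟨j, hj⟩ := hodd
        omega
      · exact Or.inr h
    have vp : ordCount G p = b := by
      rcases T p p3 with h | h
      · omega
      · exact h
    have vq : ordCount G q = b := by
      rcases T q q3 with h | h
      · omega
      · exact h
    have hpb := prime_dvd_one_add_ordCount hp hpG
    rw [vp] at hpb
    have hf := n3_frob_pq hp hq hpq
      (Nat.Coprime.mul_dvd_of_dvd_of_dvd ((Nat.coprime_primes hp hq).2 hpq) hpG hqG)
    rw [vp, vq] at hf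
    have hx : ordCount G (p * q) = 0 ∨ ordCount G (p * q) = b ∨ ordCount G (p * q) = b :=
      (T (p * q) (by nlinarith)).imp_right Or.inl
    obtain ⟨-, B⟩ := n3_same p3 hpb hx ((dvd_mul_right p q).trans hf)
    have A := n3_cast hpb
    push_cast at A
    exact n3_two_ne p3 (by linear_combination A - B)
  rcases hv with h | h | h
  · exact hs2 h
  · exact core a b H h
  · exact core b a (fun g => (H g).imp_right Or.symm) h

theorem n3_caseIII {a b : ℕ}
    (H : ∀ g : G, ordCount G (orderOf g) = 1 ∨ ordCount G (orderOf g) = a ∨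
      ordCount G (orderOf g) = b)
    (h4 : 4 ∣ Nat.card G) (hs2 : ordCount G 2 = 1)
    {p q : ℕ} (hp : p.Prime) (hq : q.Prime) (hp2 : p ≠ 2) (hq2 : q ≠ 2) (hpq : p ≠ q)
    (hpG : p ∣ Nat.card G) (hqG : q ∣ Nat.card G) : False := by
  have p3 : 3 ≤ p := by have := hp.two_le; omega
  have q3 : 3 ≤ q := by have := hq.two_le; omega
  have c4p : Nat.Coprime 4 p := coprime_four_of_odd_prime hp hp2
  have c4q : Nat.Coprime 4 q := coprime_four_of_odd_prime hq hq2
  have cpq : Nat.Coprime p q := (Nat.coprime_primes hp hq).2 hpq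
  have d4p : 4 * p ∣ Nat.card G := Nat.Coprime.mul_dvd_of_dvd_of_dvd c4p h4 hpG
  have d4q : 4 * q ∣ Nat.card G := Nat.Coprime.mul_dvd_of_dvd_of_dvd c4q h4 hqG
  have dpq : p * q ∣ Nat.card G := Nat.Coprime.mul_dvd_of_dvd_of_dvd cpq hpG hqG
  have d4pq : 4 * p * q ∣ Nat.card G :=
    Nat.Coprime.mul_dvd_of_dvd_of_dvd (Nat.Coprime.mul_left c4q cpq) d4p hqG
  have f4 := sq_dvd_count (G := G) Nat.prime_two (show 4 = 2 ^ 2 by norm_num) h4
  have f4p := four_mul_prime_dvd_count (G := G) hp hp2 d4p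
  have f4q := four_mul_prime_dvd_count (G := G) hq hq2 d4q
  have fpq := n3_frob_pq (G := G) hp hq hpq dpq
  have fT := n3_frob_4pq (G := G) hp hq hp2 hq2 hpq d4pq
  have podd : Odd p := hp.odd_of_ne_two hp2
  have qodd : Odd q := hq.odd_of_ne_two hq2
  have e2pq : ordCount G (2 * p * q) = ordCount G (p * q) := by
    rw [mul_assoc]
    exact n3_double hs2 (podd.mul qodd)
  rw [hs2] at f4 f4p f4q fT
  rw [n3_double hs2 podd] at f4p fT
  rw [n3_double hs2 qodd] at f4q fT
  rw [e2pq] at fT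
  have hx4 : ordCount G 4 = a ∨ ordCount G 4 = b := by
    rcases n3_T3 H (m := 4) (by norm_num) with h | h | h
    · rw [h] at f4
      omega
    · exact Or.inl h
    · exact Or.inr h
  have Z1 : ordCount G (4 * q) = 0 → ordCount G (4 * p * q) = 0 := by
    intro h
    have := n3_zero_mul (G := G) (n := 4 * q) (p := p) hp.ne_zero h
    rwa [show 4 * q * p = 4 * p * q by ring] at this
  have Z2 : ordCount G (4 * p) = 0 → ordCount G (4 * p * q) = 0 :=
    fun h => n3_zero_mul hq.ne_zero h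
  exact n3_III p3 q3 hx4 (n3_prime_val H hp p3 hpG) (n3_prime_val H hq q3 hqG)
    (n3_T3 H (by omega : 3 ≤ 4 * p)) (n3_T3 H (by omega : 3 ≤ 4 * q))
    (n3_T3 H (by nlinarith : 3 ≤ p * q)) (n3_T3 H (by nlinarith : 3 ≤ 4 * p * q))
    Z1 Z2 (prime_dvd_one_add_ordCount hp hpG) (prime_dvd_one_add_ordCount hq hqG)
    f4 f4p f4q fpq fT

theorem n3_caseIV {a b : ℕ}
    (H : ∀ g : G, ordCount G (orderOf g) = 1 ∨ ordCount G (orderOf g) = a ∨
      ordCount G (orderOf g) = b)
    (hs2 : ordCount G 2 = 1) {M : ℕ} (hM : Nat.card G = 2 * M) (hMo : Odd M)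
    {p q r : ℕ} (hp : p.Prime) (hq : q.Prime) (hr : r.Prime) (hpM : p ∣ M) (hqM : q ∣ M)
    (hrM : r ∣ M) (hpq : p ≠ q) (hpr : p ≠ r) (hqr : q ≠ r) : False := by
  refine n3_odd H (M := M) ⟨2, by rw [hM]; ring⟩ hMo ?_ hp hq hr hpM hqM hrM hpq hpr hqr
  have h1 := n3_total (G := G)
  rw [hM, mul_comm 2 M,
    n3_divisors_mul_prime Nat.prime_two hMo.not_two_dvd_nat (fun d => ordCount G d)] at h1
  have h3 : ∑ d ∈ M.divisors, ordCount G (d * 2) = ∑ d ∈ M.divisors, ordCount G d := by
    apply Finset.sum_congr rfl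
    intro d hd
    rw [mul_comm]
    exact n3_double hs2 (Odd.of_dvd_nat hMo (Nat.mem_divisors.1 hd).1)
  rw [h3] at h1
  omega

theorem n3_solv_two_primes {p q : ℕ} (hp : p.Prime) (hq : q.Prime)
    (h : ∀ l : ℕ, l.Prime → l ∣ Nat.card G → l = p ∨ l = q) : Group.IsSolvable G := by
  obtain ⟨e, n', hn', hn⟩ :=
    Nat.exists_eq_pow_mul_and_not_dvd (Nat.card_pos (α := G)).ne' p hp.ne_one
  have hn'0 : n' ≠ 0 := fun h0 => hn' (by rw [h0]; exact dvd_zero p)
  have h' : ∀ {d : ℕ}, d.Prime → d ∣ n' → d = q := by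
    intro d hd hdn
    rcases h d hd (by rw [hn]; exact dvd_mul_of_dvd_right hdn _) with rfl | rfl
    · exact absurd hdn hn'
    · rfl
  have hn2 := Nat.eq_prime_pow_of_unique_prime_dvd hn'0 h'
  exact Cfsg.Agent.S0144.result p q e _ hp hq (by rw [hn]; congr 1)

theorem n3_solvable {a b : ℕ}
    (H : ∀ g : G, ordCount G (orderOf g) = 1 ∨ ordCount G (orderOf g) = a ∨
      ordCount G (orderOf g) = b) : Group.IsSolvable G := by
  by_cases h2 : 2 ∣ Nat.card G
  · by_cases hs2 : ordCount G 2 = 1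
    · by_cases h4 : 4 ∣ Nat.card G
      · obtain ⟨p, hp, hall⟩ := n3_one_odd (Nat.card G)
          (fun p q hp hq hpG hqG hp2 hq2 hpq => n3_caseIII H h4 hs2 hp hq hp2 hq2 hpq hpG hqG)
        exact n3_solv_two_primes Nat.prime_two hp hall
      · obtain ⟨M, hM⟩ := h2
        have hMo : Odd M := by
          rw [← Nat.not_even_iff_odd]
          rintro ⟨k, rfl⟩
          exact h4 ⟨k, by rw [hM]; ring⟩
        obtain ⟨p, q, hp, hq, hall⟩ := n3_two_of_no_three M
          (fun p q r hp hq hr hpM hqM hrM hpq hpr hqr =>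
            n3_caseIV H hs2 hM hMo hp hq hr hpM hqM hrM hpq hpr hqr)
        -- the unique involution is central
        have hz : ∃ z : G, orderOf z = 2 := by
          have h2' := hs2
          unfold ordCount at h2'
          rw [Nat.card_eq_one_iff_unique] at h2'
          obtain ⟨_, ⟨z⟩⟩ := h2'
          exact ⟨z.1, z.2⟩
        obtain ⟨z, hz⟩ := hz
        have hzc : z ∈ Subgroup.center G :=
          Subgroup.mem_center_iff.2 (central_of_ordCount_two hs2 z hz)
        have h2Z : 2 ∣ Nat.card (Subgroup.center G) := by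
          have h1 : Nat.card (Subgroup.zpowers z) ∣ Nat.card (Subgroup.center G) :=
            Subgroup.card_dvd_of_le ((Subgroup.zpowers_le).2 hzc)
          rwa [Nat.card_zpowers, hz] at h1
        have hcard := Subgroup.card_eq_card_quotient_mul_card_subgroup (Subgroup.center G)
        haveI : Group.IsSolvable (G ⧸ Subgroup.center G) := by
          apply n3_solv_two_primes hp hq
          intro l hl hld
          have hlG : l ∣ 2 * M := by
            rw [← hM, hcard]
            exact dvd_mul_of_dvd_left hld _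
          have hlM : l ∣ M := by
            rcases (Nat.Prime.dvd_mul hl).1 hlG with h' | h'
            · exfalso
              have hl2 : l = 2 := (Nat.prime_dvd_prime_iff_eq hl Nat.prime_two).1 h'
              subst hl2
              apply h4
              rw [hcard]
              obtain ⟨u, hu⟩ := hld
              obtain ⟨v, hv⟩ := h2Z
              exact ⟨u * v, by rw [hu, hv]; ring⟩
            · exact h'
          exact hall l hl hlM
        haveI : Group.IsSolvable (Subgroup.center G) :=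
          Group.isSolvable_of_comm (fun x y => Subtype.ext (Subgroup.mem_center_iff.1 y.2 x.1))
        exact Group.isSolvable_of_ker_le_range (Subgroup.center G).subtype
          (QuotientGroup.mk' (Subgroup.center G))
          (by rw [QuotientGroup.ker_mk', Subgroup.range_subtype])
    · obtain ⟨p, hp, hall⟩ := n3_one_odd (Nat.card G)
        (fun p q hp hq hpG hqG hp2 hq2 hpq => n3_caseII H h2 hs2 hp hq hp2 hq2 hpq hpG hqG)
      exact n3_solv_two_primes Nat.prime_two hp hall
  · have hodd : Odd (Nat.card G) :=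
      Nat.not_even_iff_odd.1 (fun h => h2 (even_iff_two_dvd.1 h))
    obtain ⟨p, q, hp, hq, hall⟩ := n3_two_of_no_three (Nat.card G)
      (fun p q r hp hq hr hpM hqM hrM hpq hpr hqr =>
        n3_odd H (dvd_refl _) hodd (le_of_eq n3_total) hp hq hr hpM hqM hrM hpq hpr hqr)
    exact n3_solv_two_primes hp hq hall

theorem n3_extract
    (h : (((fun m : ℕ => Nat.card {g : G // orderOf g = m}) ''
      Set.range (orderOf : G → ℕ))).ncard = 3) :
    ∃ a b : ℕ, a ≠ b ∧ a ≠ 1 ∧ b ≠ 1 ∧ ∀ g : G, ordCount G (orderOf g) = 1 ∨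
      ordCount G (orderOf g) = a ∨ ordCount G (orderOf g) = b := by
  obtain ⟨x, y, z, hxy, hxz, hyz, hS⟩ := Set.ncard_eq_three.1 h
  have hmem : ∀ g : G, ordCount G (orderOf g) ∈ ({x, y, z} : Set ℕ) := by
    intro g
    rw [← hS]
    exact ⟨orderOf g, ⟨g, rfl⟩, rfl⟩
  have h1 : (1 : ℕ) ∈ ({x, y, z} : Set ℕ) := by
    have := hmem 1
    rwa [orderOf_one, ordCount_one] at this
  simp only [Set.mem_insert_iff, Set.mem_singleton_iff] at hmem h1
  rcases h1 with h1 | h1 | h1
  · subst h1
    exact ⟨y, z, hyz, Ne.symm hxy, Ne.symm hxz, hmem⟩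
  · subst h1
    refine ⟨x, z, hxz, hxy, Ne.symm hyz, fun g => ?_⟩
    rcases hmem g with h | h | h
    · exact Or.inr (Or.inl h)
    · exact Or.inl h
    · exact Or.inr (Or.inr h)
  · subst h1
    refine ⟨x, y, hxy, hxz, hyz, fun g => ?_⟩
    rcases hmem g with h | h | h
    · exact Or.inr (Or.inl h)
    · exact Or.inr (Or.inr h)
    · exact Or.inl h

end Nse3

end Cfsg.Agent.Helper21
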