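import Mathlib
import Cfsg.Agent.Helper21.Nse3B
import Cfsg.Agent.Helper21.CoprimeAbelian
import Cfsg.Agent.Helper1.FpfCyclic
import Cfsg.Agent.Helper9.Fitting

/-!
Groups of order `p^a q^b` with all elements of order `1`, `p` or `q`: a Frobenius complement
of prime order.
-/

set_option autoImplicit false

universe u

namespace Cfsg.Agent.Helper21

theorem n3_mul_pow_conj {G W : Type*} [Group G] [CommGroup W] (ι : W →* G) (φ : G →* MulAut W)
    (hφ : ∀ (g : G) (w : W), ι (φ g w) = g * ι w * g⁻¹) (v : W) (h : G) (n : ℕ) :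
    (ι v * h) ^ n = ι (∏ i ∈ Finset.range n, φ (h ^ i) v) * h ^ n := by
  induction n with
  | zero => simp
  | succ n ih =>
    rw [pow_succ, ih, Finset.prod_range_succ, map_mul, hφ, pow_succ]
    group

theorem n3_two_frob {A V : Type*} [Group A] [Finite A] [CommGroup V] (φ : A →* MulAut V)
    (y c : A) (p : ℕ) (hp0 : 0 < p)
    (N : ∀ u ∈ Subgroup.zpowers y, c⁻¹ * u * c ∈ Subgroup.zpowers y)
    (F : ∀ v : V, φ y v = v → v = 1)
    (I : ∀ i : ℕ, 0 < i → i < p → ∀ u ∈ Subgroup.zpowers y, c ^ i * u = u * c ^ i → u = 1)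
    (T : ∀ (t : ℕ) (v : V), ∏ i ∈ Finset.range p, φ ((y ^ t * c * (y ^ t)⁻¹) ^ i) v = 1)
    (v : V) : v ^ orderOf y = 1 := by
  classical
  have hNy : ∀ w : V, ∏ j ∈ Finset.range (orderOf y), φ (y ^ j) w = 1 := fun w =>
    F _ (Cfsg.Agent.Helper1.norm_fixed φ y (orderOf y) (pow_orderOf_eq_one y) w)
  have hNn : ∀ n : ℕ, ∀ u ∈ Subgroup.zpowers y, (c ^ n)⁻¹ * u * c ^ n ∈ Subgroup.zpowers y := by
    intro n
    induction n with
    | zero =>
      intro u hu
      simpa using hu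
    | succ n ih =>
      intro u hu
      have h1 := N _ (ih u hu)
      have e : (c ^ (n + 1))⁻¹ * u * c ^ (n + 1) = c⁻¹ * ((c ^ n)⁻¹ * u * c ^ n) * c := by
        rw [pow_succ]
        group
      rw [e]
      exact h1
  have hre : ∀ n : ℕ, 0 < n → n < p → ∏ j ∈ Finset.range (orderOf y), φ (c ^ n * y ^ j) v =
      ∏ t ∈ Finset.range (orderOf y), φ (y ^ t * c ^ n * (y ^ t)⁻¹) v := by
    intro n hn0 hnp
    have inj1 : Set.InjOn (fun j : ℕ => c ^ n * y ^ j) (Finset.range (orderOf y) : Set ℕ) := by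
      intro j hj j' hj' h
      have h' : y ^ j = y ^ j' := mul_left_cancel h
      exact pow_injOn_Iio_orderOf (by simpa using hj) (by simpa using hj') h'
    have inj2 : Set.InjOn (fun t : ℕ => y ^ t * c ^ n * (y ^ t)⁻¹)
        (Finset.range (orderOf y) : Set ℕ) := by
      intro t ht s hs h
      have h' : y ^ t * c ^ n * (y ^ t)⁻¹ = y ^ s * c ^ n * (y ^ s)⁻¹ := h
      have hu : (y ^ s)⁻¹ * y ^ t ∈ Subgroup.zpowers y :=
        Subgroup.mul_mem _ (Subgroup.inv_mem _ (Subgroup.pow_mem _ (Subgroup.mem_zpowers y) s))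
          (Subgroup.pow_mem _ (Subgroup.mem_zpowers y) t)
      have hcomm : c ^ n * ((y ^ s)⁻¹ * y ^ t) = (y ^ s)⁻¹ * y ^ t * c ^ n := by
        calc c ^ n * ((y ^ s)⁻¹ * y ^ t)
            = (y ^ s)⁻¹ * (y ^ s * c ^ n * (y ^ s)⁻¹) * y ^ t := by group
          _ = (y ^ s)⁻¹ * (y ^ t * c ^ n * (y ^ t)⁻¹) * y ^ t := by rw [h']
          _ = (y ^ s)⁻¹ * y ^ t * c ^ n := by group
      have h1 := I n hn0 hnp _ hu hcomm
      have h2 : y ^ t = y ^ s := by
        calc y ^ t = y ^ s * ((y ^ s)⁻¹ * y ^ t) := by group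
          _ = y ^ s := by rw [h1, mul_one]
      exact pow_injOn_Iio_orderOf (by simpa using ht) (by simpa using hs) h2
    have hsub : (Finset.range (orderOf y)).image (fun t : ℕ => y ^ t * c ^ n * (y ^ t)⁻¹) ⊆
        (Finset.range (orderOf y)).image (fun j : ℕ => c ^ n * y ^ j) := by
      intro x hx
      obtain ⟨t, ht, rfl⟩ := Finset.mem_image.1 hx
      have hu : (c ^ n)⁻¹ * y ^ t * c ^ n * (y ^ t)⁻¹ ∈ Subgroup.zpowers y :=
        Subgroup.mul_mem _ (hNn n _ (Subgroup.pow_mem _ (Subgroup.mem_zpowers y) t))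
          (Subgroup.inv_mem _ (Subgroup.pow_mem _ (Subgroup.mem_zpowers y) t))
      rw [mem_zpowers_iff_mem_range_orderOf] at hu
      obtain ⟨j, hj, hj'⟩ := Finset.mem_image.1 hu
      refine Finset.mem_image.2 ⟨j, hj, ?_⟩
      have hj'' : y ^ j = (c ^ n)⁻¹ * y ^ t * c ^ n * (y ^ t)⁻¹ := hj'
      show c ^ n * y ^ j = y ^ t * c ^ n * (y ^ t)⁻¹
      rw [hj'']
      group
    have heq : (Finset.range (orderOf y)).image (fun t : ℕ => y ^ t * c ^ n * (y ^ t)⁻¹) =
        (Finset.range (orderOf y)).image (fun j : ℕ => c ^ n * y ^ j) := by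
      apply Finset.eq_of_subset_of_card_le hsub
      rw [Finset.card_image_of_injOn inj1, Finset.card_image_of_injOn inj2]
    calc ∏ j ∈ Finset.range (orderOf y), φ (c ^ n * y ^ j) v
        = ∏ x ∈ (Finset.range (orderOf y)).image (fun j : ℕ => c ^ n * y ^ j), φ x v :=
          (Finset.prod_image (f := fun x => φ x v) inj1).symm
      _ = ∏ x ∈ (Finset.range (orderOf y)).image (fun t : ℕ => y ^ t * c ^ n * (y ^ t)⁻¹),
            φ x v := by rw [heq]
      _ = ∏ t ∈ Finset.range (orderOf y), φ (y ^ t * c ^ n * (y ^ t)⁻¹) v :=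
          Finset.prod_image (f := fun x => φ x v) inj2
  have hW : ∏ i ∈ Finset.range p, ∏ j ∈ Finset.range (orderOf y), φ (c ^ i * y ^ j) v = 1 := by
    apply Finset.prod_eq_one
    intro i _
    have e : ∀ j ∈ Finset.range (orderOf y), φ (c ^ i * y ^ j) v = φ (c ^ i) (φ (y ^ j) v) := by
      intro j _
      rw [map_mul]
      rfl
    rw [Finset.prod_congr rfl e, ← map_prod, hNy, map_one]
  obtain ⟨p', rfl⟩ : ∃ p', p = p' + 1 := ⟨p - 1, by omega⟩
  rw [Finset.prod_range_succ'] at hW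
  have h0 : ∏ j ∈ Finset.range (orderOf y), φ (c ^ 0 * y ^ j) v = 1 := by
    simpa using hNy v
  rw [h0, mul_one] at hW
  have h1 : ∏ i ∈ Finset.range p', ∏ j ∈ Finset.range (orderOf y), φ (c ^ (i + 1) * y ^ j) v =
      ∏ t ∈ Finset.range (orderOf y), ∏ i ∈ Finset.range p',
        φ ((y ^ t * c * (y ^ t)⁻¹) ^ (i + 1)) v := by
    calc ∏ i ∈ Finset.range p', ∏ j ∈ Finset.range (orderOf y), φ (c ^ (i + 1) * y ^ j) v
        = ∏ i ∈ Finset.range p', ∏ t ∈ Finset.range (orderOf y),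
            φ (y ^ t * c ^ (i + 1) * (y ^ t)⁻¹) v :=
          Finset.prod_congr rfl (fun i hi =>
            hre (i + 1) (Nat.succ_pos i) (Nat.succ_lt_succ (Finset.mem_range.1 hi)))
      _ = ∏ t ∈ Finset.range (orderOf y), ∏ i ∈ Finset.range p',
            φ (y ^ t * c ^ (i + 1) * (y ^ t)⁻¹) v := Finset.prod_comm
      _ = ∏ t ∈ Finset.range (orderOf y), ∏ i ∈ Finset.range p',
            φ ((y ^ t * c * (y ^ t)⁻¹) ^ (i + 1)) v :=
          Finset.prod_congr rfl (fun t _ => Finset.prod_congr rfl (fun i _ => by rw [conj_pow]))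
  have h2 : ∀ t ∈ Finset.range (orderOf y),
      ∏ i ∈ Finset.range p', φ ((y ^ t * c * (y ^ t)⁻¹) ^ (i + 1)) v = v⁻¹ := by
    intro t _
    have h3 := T t v
    rw [Finset.prod_range_succ'] at h3
    have e0 : φ ((y ^ t * c * (y ^ t)⁻¹) ^ 0) v = v := by simp
    rw [e0] at h3
    exact eq_inv_of_mul_eq_one_left h3
  rw [h1, Finset.prod_congr rfl h2, Finset.prod_const, Finset.card_range, inv_pow] at hW
  exact inv_eq_one.1 hW

end Cfsg.Agent.Helper21
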