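import Mathlib
import Cfsg.Agent.Helper21.Nse3C

/-!
Mazurov's lemma, part A: the norm/trace trick for a "Frobenius-like" group `K ⋊ ⟨c⟩` acting on an
abelian group `V` such that all norms of the conjugates of `c` vanish.
-/

set_option autoImplicit false

namespace Cfsg.Agent.Helper21

theorem mz_T {A V : Type*} [Group A] [Finite A] [CommGroup V] [Finite V] (φ : A →* MulAut V)
    (K : Subgroup A) (c : A) (n : ℕ) (hn0 : 0 < n)
    (hc : c ∈ Subgroup.normalizer (K : Set A))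
    (I : ∀ i : ℕ, 0 < i → i < n → ∀ k ∈ K, c ^ i * k = k * c ^ i → k = 1)
    (T : ∀ k ∈ K, ∀ v : V, ∏ i ∈ Finset.range n, φ ((k * c * k⁻¹) ^ i) v = 1)
    (hcop : (Nat.card K).Coprime (Nat.card V)) :
    ∀ k ∈ K, ∀ v : V, φ k v = v := by
  classical
  haveI : Fintype K := Fintype.ofFinite K
  have hci : ∀ i : ℕ, ∀ k ∈ K, c ^ i * k * (c ^ i)⁻¹ ∈ K := by
    intro i k hk
    exact (Subgroup.mem_normalizer_iff.mp (Subgroup.pow_mem _ hc i) k).mp hk
  have hTm : ∀ (s : Finset ℕ) (f : ℕ → V),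
      ∏ k : K, φ (k : A) (∏ i ∈ s, f i) = ∏ i ∈ s, ∏ k : K, φ (k : A) (f i) := by
    intro s f
    rw [Finset.prod_comm]
    exact Finset.prod_congr rfl (fun k _ => map_prod (φ (k : A)) f s)
  have hre : ∀ i : ℕ, 0 < i → i < n → ∀ v : V,
      ∏ k : K, φ ((k : A) * c ^ i * (k : A)⁻¹) v = ∏ k : K, φ (k : A) (φ (c ^ i) v) := by
    intro i hi0 hin v
    let σ : K → K := fun k => ⟨(k : A) * (c ^ i * (k : A)⁻¹ * (c ^ i)⁻¹),
      K.mul_mem k.2 (hci i _ (K.inv_mem k.2))⟩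
    have hσ : Function.Injective σ := by
      intro k k' hkk
      have h1 : (k : A) * (c ^ i * (k : A)⁻¹ * (c ^ i)⁻¹) =
          (k' : A) * (c ^ i * (k' : A)⁻¹ * (c ^ i)⁻¹) := congrArg Subtype.val hkk
      have h3 : (k : A) * c ^ i * (k : A)⁻¹ = (k' : A) * c ^ i * (k' : A)⁻¹ := by
        calc (k : A) * c ^ i * (k : A)⁻¹
            = ((k : A) * (c ^ i * (k : A)⁻¹ * (c ^ i)⁻¹)) * c ^ i := by group
          _ = ((k' : A) * (c ^ i * (k' : A)⁻¹ * (c ^ i)⁻¹)) * c ^ i := by rw [h1]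
          _ = (k' : A) * c ^ i * (k' : A)⁻¹ := by group
      have h2 : c ^ i * ((k' : A)⁻¹ * (k : A)) = (k' : A)⁻¹ * (k : A) * c ^ i := by
        calc c ^ i * ((k' : A)⁻¹ * (k : A))
            = (k' : A)⁻¹ * ((k' : A) * c ^ i * (k' : A)⁻¹) * (k : A) := by group
          _ = (k' : A)⁻¹ * ((k : A) * c ^ i * (k : A)⁻¹) * (k : A) := by rw [h3]
          _ = (k' : A)⁻¹ * (k : A) * c ^ i := by group
      have h4 := I i hi0 hin _ (K.mul_mem (K.inv_mem k'.2) k.2) h2
      apply Subtype.ext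
      calc (k : A) = (k' : A) * ((k' : A)⁻¹ * (k : A)) := by group
        _ = (k' : A) := by rw [h4, mul_one]
    have hσb : Function.Bijective σ := hσ.bijective_of_finite
    calc ∏ k : K, φ ((k : A) * c ^ i * (k : A)⁻¹) v
        = ∏ k : K, φ ((σ k : A)) (φ (c ^ i) v) := by
          apply Finset.prod_congr rfl
          intro k _
          have e : (k : A) * c ^ i * (k : A)⁻¹ = (σ k : A) * c ^ i := by
            show _ = (k : A) * (c ^ i * (k : A)⁻¹ * (c ^ i)⁻¹) * c ^ i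
            group
          rw [e, map_mul]
          rfl
      _ = ∏ k : K, φ (k : A) (φ (c ^ i) v) :=
          hσb.prod_comp (fun k : K => φ (k : A) (φ (c ^ i) v))
  have hmain : ∀ v : V, ∏ k : K, φ (k : A) v = v ^ Fintype.card K := by
    intro v
    obtain ⟨n', rfl⟩ : ∃ n', n = n' + 1 := ⟨n - 1, by omega⟩
    have h1 : ∏ k : K, ∏ i ∈ Finset.range (n' + 1), φ (((k : A) * c * (k : A)⁻¹) ^ i) v = 1 :=
      Finset.prod_eq_one (fun k _ => T k k.2 v)
    rw [Finset.prod_comm, Finset.prod_range_succ'] at h1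
    have h0 : ∏ k : K, φ (((k : A) * c * (k : A)⁻¹) ^ 0) v = v ^ Fintype.card K := by
      simp [Finset.prod_const, Finset.card_univ]
    have h2 : ∏ i ∈ Finset.range n', ∏ k : K, φ (((k : A) * c * (k : A)⁻¹) ^ (i + 1)) v
        = ∏ k : K, φ (k : A) (∏ i ∈ Finset.range n', φ (c ^ (i + 1)) v) := by
      rw [hTm (Finset.range n') (fun i => φ (c ^ (i + 1)) v)]
      apply Finset.prod_congr rfl
      intro i hi
      show ∏ k : K, φ (((k : A) * c * (k : A)⁻¹) ^ (i + 1)) v =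
        ∏ k : K, φ (k : A) (φ (c ^ (i + 1)) v)
      rw [← hre (i + 1) (Nat.succ_pos i) (Nat.succ_lt_succ (Finset.mem_range.1 hi)) v]
      apply Finset.prod_congr rfl
      intro k _
      rw [conj_pow]
    have h3 : ∏ i ∈ Finset.range n', φ (c ^ (i + 1)) v = v⁻¹ := by
      have h4 := T 1 K.one_mem v
      rw [Finset.prod_range_succ'] at h4
      simp only [one_mul, inv_one, mul_one, pow_zero, map_one, MulAut.one_apply] at h4
      exact eq_inv_of_mul_eq_one_left h4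
    rw [h0, h2, h3] at h1
    have h5 : ∏ k : K, φ (k : A) v⁻¹ = (∏ k : K, φ (k : A) v)⁻¹ := by
      rw [← Finset.prod_inv_distrib]
      exact Finset.prod_congr rfl (fun k _ => map_inv (φ (k : A)) v)
    rw [h5] at h1
    exact inv_mul_eq_one.1 h1
  intro k₀ hk₀ v
  have h6 : φ k₀ (∏ k : K, φ (k : A) v) = ∏ k : K, φ (k : A) v := by
    rw [map_prod]
    have h := (Equiv.mulLeft (⟨k₀, hk₀⟩ : K)).bijective.prod_comp (fun k : K => φ (k : A) v)
    rw [← h]
    apply Finset.prod_congr rfl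
    intro k _
    show φ k₀ (φ (k : A) v) = φ (((⟨k₀, hk₀⟩ : K) * k : K) : A) v
    rw [Subgroup.coe_mul, map_mul]
    rfl
  rw [hmain, map_pow] at h6
  have h7 : (φ k₀ v * v⁻¹) ^ Fintype.card K = 1 := by
    rw [mul_pow, inv_pow, h6, mul_inv_cancel]
  have h8 : orderOf (φ k₀ v * v⁻¹) ∣ Nat.card K := by
    rw [Nat.card_eq_fintype_card]
    exact orderOf_dvd_of_pow_eq_one h7
  have h9 : orderOf (φ k₀ v * v⁻¹) ∣ Nat.card V := orderOf_dvd_natCard _
  have h10 : orderOf (φ k₀ v * v⁻¹) = 1 := Nat.eq_one_of_dvd_coprimes hcop h8 h9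
  exact mul_inv_eq_one.1 (orderOf_eq_one_iff.1 h10)

end Cfsg.Agent.Helper21
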