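import Mathlib
import Cfsg.Agent.Helper21.MazA

/-!
Mazurov's lemma, part B: transfer of the norm trick to a quotient `P / Φ` inside a group.
-/

set_option autoImplicit false

namespace Cfsg.Agent.Helper21

theorem mz_quot {G : Type*} [Group G] [Finite G] (P K Φ : Subgroup G) (h : G) (n : ℕ)
    (hn0 : 0 < n) (hΦP : Φ ≤ P)
    (hΦn : ∀ g ∈ Subgroup.normalizer (P : Set G), ∀ x ∈ Φ, g * x * g⁻¹ ∈ Φ)
    (hab : ∀ a ∈ P, ∀ b ∈ P, a * b * a⁻¹ * b⁻¹ ∈ Φ)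
    (hKP : K ≤ Subgroup.normalizer (P : Set G))
    (hhP : h ∈ Subgroup.normalizer (P : Set G))
    (hhK : h ∈ Subgroup.normalizer (K : Set G))
    (hdisj : ∀ k ∈ K, k ∈ P → k = 1)
    (I : ∀ i : ℕ, 0 < i → i < n → ∀ k ∈ K, h ^ i * k = k * h ^ i → k = 1)
    (T : ∀ k ∈ K, ∀ x ∈ P, (x * (k * h * k⁻¹)) ^ n = 1)
    (hcop : (Nat.card K).Coprime (Nat.card P)) :
    ∀ k ∈ K, ∀ x ∈ P, k * x * k⁻¹ * x⁻¹ ∈ Φ := by
  classical
  set L : Subgroup G := Subgroup.normalizer (P : Set G) with hL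
  have hPL : P ≤ L := Subgroup.le_normalizer
  set Φ' : Subgroup L := Φ.subgroupOf L with hΦ'
  haveI hΦ'n : Φ'.Normal := ⟨fun x hx g => by
    rw [hΦ', Subgroup.mem_subgroupOf] at hx ⊢
    have := hΦn (g : G) g.2 (x : G) hx
    simpa using this⟩
  let π : L →* L ⧸ Φ' := QuotientGroup.mk' Φ'
  have hπs : Function.Surjective π := QuotientGroup.mk'_surjective Φ'
  haveI hPLn : (P.subgroupOf L).Normal := Subgroup.normal_in_normalizer
  let V : Subgroup (L ⧸ Φ') := (P.subgroupOf L).map π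
  haveI hVn : V.Normal := Subgroup.Normal.map hPLn π hπs
  have hπeq : ∀ a b : L, ((a : G)⁻¹ * (b : G) ∈ Φ) → π a = π b := by
    intro a b hab'
    exact QuotientGroup.eq.2 (Subgroup.mem_subgroupOf.2 (by simpa using hab'))
  have hπ1 : ∀ a : L, π a = 1 → (a : G) ∈ Φ := by
    intro a ha
    exact Subgroup.mem_subgroupOf.1 ((QuotientGroup.eq_one_iff a).1 ha)
  have hVc : ∀ a b : V, a * b = b * a := by
    rintro ⟨_, ⟨a, ha, rfl⟩⟩ ⟨_, ⟨b, hb, rfl⟩⟩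
    apply Subtype.ext
    show π a * π b = π b * π a
    rw [← map_mul, ← map_mul]
    apply hπeq
    have h1 := hab _ (P.inv_mem (Subgroup.mem_subgroupOf.1 hb)) _
      (P.inv_mem (Subgroup.mem_subgroupOf.1 ha))
    have e : ((a * b : L) : G)⁻¹ * ((b * a : L) : G) =
        (b : G)⁻¹ * (a : G)⁻¹ * ((b : G)⁻¹)⁻¹ * ((a : G)⁻¹)⁻¹ := by
      simp only [Subgroup.coe_mul]
      group
    rw [e]
    exact h1
  letI : CommGroup V := { (inferInstance : Group V) with mul_comm := hVc }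
  let φ : (L ⧸ Φ') →* MulAut V := MulAut.conjNormal
  let K' : Subgroup (L ⧸ Φ') := (K.subgroupOf L).map π
  let c : L ⧸ Φ' := π ⟨h, hhP⟩
  have hh' : (⟨h, hhP⟩ : L) ∈ Subgroup.normalizer ((K.subgroupOf L : Subgroup L) : Set L) := by
    rw [Subgroup.mem_normalizer_iff]
    intro z
    rw [Subgroup.mem_subgroupOf, Subgroup.mem_subgroupOf]
    exact Subgroup.mem_normalizer_iff.mp hhK (z : G)
  have hcK : c ∈ Subgroup.normalizer (K' : Set (L ⧸ Φ')) :=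
    Subgroup.le_normalizer_map π (Subgroup.mem_map_of_mem π hh')
  have hI' : ∀ i : ℕ, 0 < i → i < n → ∀ k ∈ K', c ^ i * k = k * c ^ i → k = 1 := by
    rintro i hi0 hin _ ⟨k, hk, rfl⟩ hcomm
    replace hk : (k : G) ∈ K := Subgroup.mem_subgroupOf.1 hk
    have h1 : π ((⟨h, hhP⟩ : L) ^ i * k) = π (k * (⟨h, hhP⟩ : L) ^ i) := by
      rw [map_mul, map_mul, map_pow]
      exact hcomm
    have h2 : ((⟨h, hhP⟩ : L) ^ i * k)⁻¹ * (k * (⟨h, hhP⟩ : L) ^ i) ∈ Φ' := QuotientGroup.eq.1 h1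
    rw [hΦ', Subgroup.mem_subgroupOf] at h2
    have h3 : ((h ^ i * (k : G))⁻¹ * ((k : G) * h ^ i)) ∈ Φ := by simpa using h2
    have h4 : (h ^ i * (k : G))⁻¹ * ((k : G) * h ^ i) ∈ K := by
      have h5 : (h ^ i)⁻¹ * (k : G) * ((h ^ i)⁻¹)⁻¹ ∈ K :=
        (Subgroup.mem_normalizer_iff.mp (Subgroup.inv_mem _ (Subgroup.pow_mem _ hhK i)) _).mp hk
      have e : (h ^ i * (k : G))⁻¹ * ((k : G) * h ^ i) =
          (k : G)⁻¹ * ((h ^ i)⁻¹ * (k : G) * ((h ^ i)⁻¹)⁻¹) := by group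
      rw [e]
      exact K.mul_mem (K.inv_mem hk) h5
    have h6 := hdisj _ h4 (hΦP h3)
    have h7 : h ^ i * (k : G) = (k : G) * h ^ i := inv_mul_eq_one.1 h6
    have h8 := I i hi0 hin _ hk h7
    have h9 : k = 1 := Subtype.ext h8
    rw [h9, map_one]
  have hφ : ∀ (g : L ⧸ Φ') (w : V), V.subtype (φ g w) = g * V.subtype w * g⁻¹ := by
    intro g w
    exact MulAut.conjNormal_apply g w
  have hT' : ∀ k ∈ K', ∀ v : V, ∏ i ∈ Finset.range n, φ ((k * c * k⁻¹) ^ i) v = 1 := by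
    intro k' hk' v
    obtain ⟨k, hk, rfl⟩ := hk'
    obtain ⟨x, hx, hxv⟩ := v.2
    replace hk : (k : G) ∈ K := Subgroup.mem_subgroupOf.1 hk
    replace hx : (x : G) ∈ P := Subgroup.mem_subgroupOf.1 hx
    have h1 := n3_mul_pow_conj V.subtype φ hφ v (π k * c * (π k)⁻¹) n
    have e1 : ((v : L ⧸ Φ') * (π k * c * (π k)⁻¹)) ^ n = 1 := by
      have h2 : (x * (k * (⟨h, hhP⟩ : L) * k⁻¹)) ^ n = 1 := by
        apply Subtype.ext
        simpa using T (k : G) hk (x : G) hx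
      have h3 : (v : L ⧸ Φ') * (π k * c * (π k)⁻¹) = π (x * (k * (⟨h, hhP⟩ : L) * k⁻¹)) := by
        rw [map_mul, map_mul, map_mul, map_inv, hxv]
      rw [h3, ← map_pow, h2, map_one]
    have e2 : (π k * c * (π k)⁻¹) ^ n = 1 := by
      have h2 : (k * (⟨h, hhP⟩ : L) * k⁻¹) ^ n = 1 := by
        apply Subtype.ext
        have h4 := T (k : G) hk 1 P.one_mem
        simpa using h4
      have h3 : π k * c * (π k)⁻¹ = π (k * (⟨h, hhP⟩ : L) * k⁻¹) := by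
        rw [map_mul, map_mul, map_inv]
      rw [h3, ← map_pow, h2, map_one]
    rw [e2, mul_one] at h1
    exact Subtype.ext (h1.symm.trans e1)
  have hcop' : (Nat.card K').Coprime (Nat.card V) := by
    have h1 : Nat.card K' ∣ Nat.card K := by
      have h := Subgroup.card_map_dvd (K.subgroupOf L) π
      rwa [Nat.card_congr (Subgroup.subgroupOfEquivOfLe hKP).toEquiv] at h
    have h2 : Nat.card V ∣ Nat.card P := by
      have h := Subgroup.card_map_dvd (P.subgroupOf L) π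
      rwa [Nat.card_congr (Subgroup.subgroupOfEquivOfLe hPL).toEquiv] at h
    exact Nat.Coprime.coprime_dvd_right h2 (Nat.Coprime.coprime_dvd_left h1 hcop)
  have key := mz_T φ K' c n hn0 hcK hI' hT' hcop'
  intro k hk x hx
  have h1 := key (π ⟨k, hKP hk⟩) (Subgroup.mem_map_of_mem π (Subgroup.mem_subgroupOf.2 hk))
    ⟨π ⟨x, hPL hx⟩, Subgroup.mem_map_of_mem π (Subgroup.mem_subgroupOf.2 hx)⟩
  have h2 := congrArg Subtype.val h1
  have h3 : π ⟨k, hKP hk⟩ * π ⟨x, hPL hx⟩ * (π ⟨k, hKP hk⟩)⁻¹ = π ⟨x, hPL hx⟩ :=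
    (MulAut.conjNormal_apply (π ⟨k, hKP hk⟩)
      (⟨π ⟨x, hPL hx⟩, Subgroup.mem_map_of_mem π (Subgroup.mem_subgroupOf.2 hx)⟩ : V)).symm.trans h2
  have h4 : π ((⟨k, hKP hk⟩ : L) * ⟨x, hPL hx⟩ * (⟨k, hKP hk⟩ : L)⁻¹ * (⟨x, hPL hx⟩ : L)⁻¹) = 1 := by
    rw [map_mul, map_mul, map_mul, map_inv, map_inv, h3, mul_inv_cancel]
  exact hπ1 _ h4

end Cfsg.Agent.Helper21
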