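import Mathlib
import Cfsg.Agent.Helper21.MazB
import Cfsg.Agent.Helper1.Coprime2
import Cfsg.Agent.Helper16.FrattiniResidual
import Cfsg.Agent.Helper16.FrattiniComm2
import Cfsg.Agent.S0023
import Cfsg.Agent.S0024
import Cfsg.Agent.S0029
import Cfsg.Agent.S0042

/-!
Mazurov's lemma: if `G/N` is a Frobenius group with kernel `F/N` and cyclic complement of order `n`,
`(|F/N|, |N|) = 1` and `F/N` does not act trivially on `N`, then `G` has an element of order `p n`
for some prime divisor `p` of `|N|`.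
-/

set_option autoImplicit false

open scoped Pointwise

namespace Cfsg.Agent.Helper21

open Cfsg.Agent

theorem mz_core {G : Type*} [Group G] [Finite G] (N K : Subgroup G) [N.Normal] (h0 : G) (n : ℕ)
    (hn0 : 0 < n)
    (hKN : ∀ k ∈ K, k ∈ N → k = 1)
    (hcop : (Nat.card K).Coprime (Nat.card N))
    (hsolv : Group.IsSolvable K)
    (hconj : MulAut.conj h0 • K ≤ N ⊔ K)
    (I : ∀ g : G, g * h0⁻¹ ∈ N → ∀ i : ℕ, 0 < i → i < n → ∀ k ∈ K, g ^ i * k = k * g ^ i → k = 1)
    (star : ∀ g : G, g * h0⁻¹ ∈ N → g ^ n = 1) :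
    K ≤ Subgroup.centralizer (N : Set G) := by
  classical
  have hKnN : K ≤ Subgroup.normalizer (N : Set G) := by
    rw [Subgroup.normalizer_eq_top]
    exact le_top
  obtain ⟨d, hd, hdK⟩ := Helper1.sz2 N K (MulAut.conj h0 • K) hKnN hconj
    (Helper1.card_conj_smul K h0) hcop (Or.inl hsolv)
  set h1 := d⁻¹ * h0 with hh1
  have hh1K : MulAut.conj h1 • K = K := by
    rw [hh1, ← Helper1.conj_smul_smul, ← hdK, Helper1.conj_smul_smul, inv_mul_cancel, map_one,
      one_smul]
  have hh1N : h1 * h0⁻¹ ∈ N := by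
    have e : h1 * h0⁻¹ = d⁻¹ := by
      rw [hh1]
      group
    rw [e]
    exact N.inv_mem hd
  by_contra hKC
  have hex : ∃ (p : ℕ) (_ : Fact p.Prime) (P : Sylow p N),
      K ≤ Subgroup.normalizer (((P : Subgroup N).map N.subtype : Subgroup G) : Set G) ∧
      ¬ K ≤ Subgroup.centralizer (((P : Subgroup N).map N.subtype : Subgroup G) : Set G) := by
    by_contra hno
    apply hKC
    have hC : ((Subgroup.centralizer (K : Set G)).subgroupOf N) = ⊤ := by
      apply Subgroup.eq_top_of_le_card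
      apply Nat.le_of_dvd Nat.card_pos
      apply (Nat.factorization_prime_le_iff_dvd Nat.card_pos.ne' Nat.card_pos.ne').1
      intro p hp
      haveI : Fact p.Prime := ⟨hp⟩
      obtain ⟨P, hP⟩ := Cfsg.Agent.S0023.result K N hKnN hcop (Or.inl hsolv) p
      have hPc : K ≤ Subgroup.centralizer
          (((P : Subgroup N).map N.subtype : Subgroup G) : Set G) := by
        by_contra hc
        exact hno ⟨p, ⟨hp⟩, P, hP, hc⟩
      have hle : (P : Subgroup N) ≤ (Subgroup.centralizer (K : Set G)).subgroupOf N := by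
        intro x hx
        rw [Subgroup.mem_subgroupOf, Subgroup.mem_centralizer_iff]
        intro k hk
        have h3 := Subgroup.mem_centralizer_iff.mp (hPc hk) (x : G)
          (Subgroup.mem_map_of_mem N.subtype hx)
        exact h3.symm
      have hdvd := Subgroup.card_dvd_of_le hle
      rw [Sylow.card_eq_multiplicity] at hdvd
      exact (hp.pow_dvd_iff_le_factorization Nat.card_pos.ne').1 hdvd
    intro k hk
    rw [Subgroup.mem_centralizer_iff]
    intro x hx
    have h3 : (⟨x, hx⟩ : N) ∈ (Subgroup.centralizer (K : Set G)).subgroupOf N := by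
      rw [hC]
      exact Subgroup.mem_top _
    rw [Subgroup.mem_subgroupOf, Subgroup.mem_centralizer_iff] at h3
    exact (h3 k hk).symm
  obtain ⟨p, hpF, P, hPK, hPC⟩ := hex
  haveI := hpF
  set P₁ : Subgroup G := (P : Subgroup N).map N.subtype with hP₁
  have hP₁N : P₁ ≤ N := Subgroup.map_subtype_le _
  have hP₁card : Nat.card P₁ = p ^ (Nat.card N).factorization p := by
    rw [hP₁, Subgroup.card_map_of_injective N.subtype_injective, Sylow.card_eq_multiplicity]
  have hQN : MulAut.conj h1 • P₁ ≤ N := by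
    intro x hx
    rw [Helper1.mem_conj_smul] at hx
    have h2 := hP₁N hx
    have h3 := (inferInstance : N.Normal).conj_mem _ h2 h1
    have e : h1 * (h1⁻¹ * x * h1) * h1⁻¹ = x := by group
    rwa [e] at h3
  have hQcard : Nat.card ((MulAut.conj h1 • P₁).subgroupOf N) =
      p ^ (Nat.card N).factorization p := by
    rw [Nat.card_congr (Subgroup.subgroupOfEquivOfLe hQN).toEquiv, Helper1.card_conj_smul, hP₁card]
  set Q : Sylow p N := Sylow.ofCard _ hQcard with hQ
  have hQ₁ : ((Q : Subgroup N).map N.subtype) = MulAut.conj h1 • P₁ := by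
    rw [hQ, Sylow.coe_ofCard, Subgroup.map_subgroupOf_eq_of_le hQN]
  have hQK : K ≤ Subgroup.normalizer
      ((((Q : Subgroup N).map N.subtype : Subgroup G)) : Set G) := by
    rw [hQ₁]
    intro a ha
    rw [Helper1.mem_normalizer_iff_conj_smul]
    have ha0 : a ∈ MulAut.conj h1 • K := by
      rw [hh1K]
      exact ha
    have ha' : h1⁻¹ * a * h1 ∈ K := Helper1.mem_conj_smul.1 ha0
    have e : a * h1 = h1 * (h1⁻¹ * a * h1) := by group
    rw [Helper1.conj_smul_smul, e, ← Helper1.conj_smul_smul,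
      Helper1.mem_normalizer_iff_conj_smul.1 (hPK ha')]
  obtain ⟨c, hcK, hcPQ⟩ := Cfsg.Agent.S0024.result K N hKnN hcop (Or.inl hsolv) p P Q hPK hQK
  have hc0 : MulAut.conj c • (P : Subgroup N) = (Q : Subgroup N) :=
    congrArg (fun S : Sylow p N => (S : Subgroup N)) hcPQ
  have hc1 : MulAut.conj (c : G) • P₁ = MulAut.conj h1 • P₁ := by
    rw [← hQ₁, ← hc0, Helper1.map_subtype_conj_smul]
  set h2 := (c : G)⁻¹ * h1 with hh2
  have hh2P : h2 ∈ Subgroup.normalizer (P₁ : Set G) := by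
    rw [Helper1.mem_normalizer_iff_conj_smul, hh2, ← Helper1.conj_smul_smul, ← hc1,
      Helper1.conj_smul_smul, inv_mul_cancel, map_one, one_smul]
  have hcKn : MulAut.conj (c : G)⁻¹ • K = K :=
    Helper1.mem_normalizer_iff_conj_smul.1
      (Subgroup.centralizer_le_normalizer (K : Set G) (Subgroup.inv_mem _ hcK))
  have hh2K : h2 ∈ Subgroup.normalizer (K : Set G) := by
    rw [Helper1.mem_normalizer_iff_conj_smul, hh2, ← Helper1.conj_smul_smul, hh1K, hcKn]
  have hh2N : h2 * h0⁻¹ ∈ N := by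
    have e : h2 * h0⁻¹ = (c : G)⁻¹ * (h1 * h0⁻¹) := by
      rw [hh2]
      group
    rw [e]
    exact N.mul_mem (N.inv_mem c.2) hh1N
  have hP₁p : IsPGroup p P₁ := P.isPGroup'.map N.subtype
  haveI hnil : Group.IsNilpotent P₁ := IsPGroup.isNilpotent hP₁p
  have hKΦ : ∀ k ∈ K, ∀ x ∈ P₁, k * x * k⁻¹ * x⁻¹ ∈ (frattini P₁).map P₁.subtype := by
    apply mz_quot P₁ K ((frattini P₁).map P₁.subtype) h2 n hn0 (Subgroup.map_subtype_le _)
    · intro g hg x hx
      have h3 := Helper16.normalizer_le_normalizer_map_of_characteristic P₁ (frattini P₁) hg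
      exact (Subgroup.mem_normalizer_iff.mp h3 x).mp hx
    · intro a ha b hb
      have h3 : (⟨a, ha⟩ : P₁) * ⟨b, hb⟩ * (⟨a, ha⟩ : P₁)⁻¹ * (⟨b, hb⟩ : P₁)⁻¹ ∈ frattini P₁ := by
        apply Helper16.commutator_le_frattini_of_nilpotent
        rw [commutator_def]
        have h5 := Subgroup.commutator_mem_commutator (Subgroup.mem_top (⟨a, ha⟩ : P₁))
          (Subgroup.mem_top (⟨b, hb⟩ : P₁))
        rwa [commutatorElement_def] at h5
      have h4 := Subgroup.mem_map_of_mem P₁.subtype h3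
      simpa using h4
    · exact hPK
    · exact hh2P
    · exact hh2K
    · intro k hk hkP
      exact hKN k hk (hP₁N hkP)
    · exact I h2 hh2N
    · intro k hk x hx
      have h3 : (k⁻¹ * x * k * h2) * h0⁻¹ ∈ N := by
        have e : (k⁻¹ * x * k * h2) * h0⁻¹ = (k⁻¹ * x * k⁻¹⁻¹) * (h2 * h0⁻¹) := by group
        rw [e]
        exact N.mul_mem ((inferInstance : N.Normal).conj_mem _ (hP₁N hx) k⁻¹) hh2N
      have h4 := star _ h3
      have e : x * (k * h2 * k⁻¹) = k * (k⁻¹ * x * k * h2) * k⁻¹ := by group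
      rw [e, conj_pow, h4]
      group
    · exact Nat.Coprime.coprime_dvd_right (Subgroup.card_dvd_of_le hP₁N) hcop
  have hfr : (Nat.card K).Coprime (Nat.card (frattini P₁)) :=
    Nat.Coprime.coprime_dvd_right
      ((Subgroup.card_subgroup_dvd_card _).trans (Subgroup.card_dvd_of_le hP₁N)) hcop
  exact hPC (Cfsg.Agent.S0029.result K P₁ hPK hfr (fun a ha k hk => hKΦ a ha k hk))

theorem mz_main {G : Type*} [Group G] [Finite G] (N : Subgroup G) [N.Normal]
    (Fb Hb : Subgroup (G ⧸ N)) [Fb.Normal] (hHb : Cfsg.IsFrobeniusComplement Hb)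
    (hker : Cfsg.frobeniusKernel Hb = (Fb : Set (G ⧸ N)))
    (hcyc : IsCyclic Hb) (hcop : (Nat.card Fb).Coprime (Nat.card N))
    (hnot : ¬ Fb ≤ (Subgroup.centralizer (N : Set G)).map (QuotientGroup.mk' N)) :
    ∃ p : ℕ, p.Prime ∧ p ∣ Nat.card N ∧ ∃ g : G, orderOf g = p * Nat.card Hb := by
  classical
  by_contra hcon
  obtain ⟨hb, hgen⟩ := hcyc.exists_generator
  have hn : orderOf (hb : G ⧸ N) = Nat.card Hb := by
    rw [Subgroup.orderOf_coe]
    exact orderOf_eq_card_of_forall_mem_zpowers hgen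
  set n := Nat.card Hb with hn'
  have hn0 : 0 < n := Nat.card_pos
  obtain ⟨h0, hh0⟩ := QuotientGroup.mk_surjective (hb : G ⧸ N)
  have hlift : ∀ g : G, g * h0⁻¹ ∈ N → (g : G ⧸ N) = hb := by
    intro g hg
    rw [← hh0]
    exact (QuotientGroup.eq.2 ((inferInstance : N.Normal).mem_comm hg)).symm
  have star : ∀ g : G, g * h0⁻¹ ∈ N → g ^ n = 1 := by
    intro g hg
    by_contra hgn
    apply hcon
    have hgb := hlift g hg
    have h1 : n ∣ orderOf g := by
      rw [← hn, ← hgb]
      exact orderOf_map_dvd (QuotientGroup.mk' N) g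
    obtain ⟨m, hm⟩ := h1
    have hm1 : m ≠ 1 := by
      rintro rfl
      apply hgn
      rw [mul_one] at hm
      rw [← hm]
      exact pow_orderOf_eq_one g
    have hm0 : m ≠ 0 := by
      rintro rfl
      have h2 := orderOf_pos g
      rw [hm, mul_zero] at h2
      exact lt_irrefl _ h2
    obtain ⟨p, hp, hpm⟩ := Nat.exists_prime_and_dvd hm1
    obtain ⟨m', rfl⟩ := hpm
    have hm'0 : m' ≠ 0 := by
      rintro rfl
      exact hm0 (mul_zero p)
    have hgN : g ^ n ∈ N := by
      apply (QuotientGroup.eq_one_iff (g ^ n)).1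
      rw [QuotientGroup.mk_pow, hgb, ← hn]
      exact pow_orderOf_eq_one _
    have hord : orderOf (g ^ n) = p * m' := by
      rw [orderOf_pow_of_dvd hn0.ne' ⟨_, hm⟩, hm, Nat.mul_div_cancel_left _ hn0]
    refine ⟨p, hp, ?_, g ^ m', ?_⟩
    · have h2 := Subgroup.orderOf_dvd_natCard N hgN
      rw [hord] at h2
      exact (Dvd.intro _ rfl).trans h2
    · rw [orderOf_pow_of_dvd hm'0 ⟨n * p, by rw [hm]; ring⟩, hm]
      rw [show n * (p * m') = (p * n) * m' by ring, Nat.mul_div_cancel _ (Nat.pos_of_ne_zero hm'0)]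
  obtain ⟨hHbot, hHtop, hTI⟩ := hHb
  have hFH : ∀ f ∈ Fb, f ∈ Hb → f = 1 := by
    intro f hf hfH
    have h1 : f ∈ Cfsg.frobeniusKernel Hb := by
      rw [hker]
      exact hf
    rcases h1 with h1 | h1
    · exact h1
    · exact absurd (by simpa using hfH) (h1 1)
  have hfix : ∀ f ∈ Fb, ∀ c ∈ Hb, c ≠ 1 → c * f = f * c → f = 1 := by
    intro f hf c hc hc1 hcf
    by_cases hfH : f ∈ Hb
    · exact hFH f hf hfH
    · exfalso
      have h1 := hTI f hfH
      have h2 : c ∈ MulAut.conj f • Hb := by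
        rw [Helper1.mem_conj_smul]
        have e : f⁻¹ * c * f = c := by
          rw [mul_assoc, hcf, ← mul_assoc, inv_mul_cancel, one_mul]
        rw [e]
        exact hc
      have h3 : c ∈ Hb ⊓ MulAut.conj f • Hb := ⟨hc, h2⟩
      rw [h1] at h3
      exact hc1 (Subgroup.mem_bot.1 h3)
  set F : Subgroup G := Fb.comap (QuotientGroup.mk' N) with hF
  have hNF : N ≤ F := by
    intro x hx
    rw [hF, Subgroup.mem_comap, QuotientGroup.mk'_apply, (QuotientGroup.eq_one_iff x).2 hx]
    exact Fb.one_mem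
  haveI hFn : F.Normal := by
    rw [hF]
    infer_instance
  have hidx : N.relIndex F = Nat.card Fb := by
    have h1 : ((⊥ : Subgroup (G ⧸ N)).comap (QuotientGroup.mk' N)).relIndex F = Nat.card Fb := by
      rw [Subgroup.relIndex_comap, hF,
        Subgroup.map_comap_eq_self_of_surjective (QuotientGroup.mk'_surjective N),
        Subgroup.relIndex_bot_left]
    rwa [MonoidHom.comap_bot, QuotientGroup.ker_mk'] at h1
  have hcopF : (Nat.card (N.subgroupOf F)).Coprime (N.subgroupOf F).index := by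
    rw [Nat.card_congr (Subgroup.subgroupOfEquivOfLe hNF).toEquiv]
    show (Nat.card N).Coprime (N.relIndex F)
    rw [hidx]
    exact hcop.symm
  obtain ⟨K', hK'⟩ := Subgroup.exists_right_complement'_of_coprime hcopF
  obtain ⟨hK'1, hK'2⟩ := Helper1.isComplement'_iff_elem.1 hK'
  set K : Subgroup G := K'.map F.subtype with hK
  have hKF : K ≤ F := Subgroup.map_subtype_le _
  have hKN : ∀ k ∈ K, k ∈ N → k = 1 := by
    rintro _ ⟨k, hk, rfl⟩ hkN
    have h1 := hK'1 k (Subgroup.mem_subgroupOf.2 hkN) hk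
    rw [h1]
    rfl
  have hFNK : ∀ f ∈ F, ∃ x ∈ N, ∃ k ∈ K, f = x * k := by
    intro f hf
    obtain ⟨x, hx, k, hk, hfe⟩ := hK'2 ⟨f, hf⟩
    exact ⟨x, Subgroup.mem_subgroupOf.1 hx, k, Subgroup.mem_map_of_mem F.subtype hk,
      congrArg Subtype.val hfe⟩
  have hcardK : Nat.card K = Nat.card Fb := by
    have h1 := hK'.card_mul_card
    have h2 := Subgroup.card_mul_index (N.subgroupOf F)
    have h3 : Nat.card K' = (N.subgroupOf F).index :=
      Nat.eq_of_mul_eq_mul_left Nat.card_pos (h1.trans h2.symm)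
    rw [hK, Subgroup.card_map_of_injective F.subtype_injective, h3]
    exact hidx
  have hcopK : (Nat.card K).Coprime (Nat.card N) := by
    rw [hcardK]
    exact hcop
  have hKsolv : Group.IsSolvable K := by
    obtain ⟨N₀, hN₀, -, hnil⟩ := Cfsg.Agent.S0042.result Hb ⟨hHbot, hHtop, hTI⟩
    have hN₀F : N₀ = Fb := SetLike.coe_injective (hN₀.trans hker)
    have hFbs : Group.IsSolvable Fb := by
      rw [← hN₀F]
      exact @IsNilpotent.to_isSolvable _ _ hnil
    let f : K →* Fb := ((QuotientGroup.mk' N).comp K.subtype).codRestrict Fb (fun k => hKF k.2)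
    have hf : Function.Injective f := by
      intro a b hab
      have h1 : ((a : G) : G ⧸ N) = ((b : G) : G ⧸ N) := congrArg Subtype.val hab
      have h2 : (a : G)⁻¹ * (b : G) ∈ N := QuotientGroup.eq.1 h1
      have h3 := hKN _ (K.mul_mem (K.inv_mem a.2) b.2) h2
      exact Subtype.ext (inv_mul_eq_one.1 h3)
    exact Group.isSolvable_of_isSolvable_injective hf
  have hKC : ¬ K ≤ Subgroup.centralizer (N : Set G) := by
    intro hle
    apply hnot
    intro f hf
    obtain ⟨g, rfl⟩ := QuotientGroup.mk_surjective f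
    obtain ⟨x, hx, k, hk, hg⟩ := hFNK g hf
    refine ⟨k, hle hk, ?_⟩
    rw [hg]
    show ((k : G) : G ⧸ N) = ((x * k : G) : G ⧸ N)
    rw [QuotientGroup.mk_mul, (QuotientGroup.eq_one_iff x).2 hx, one_mul]
  have hconj : MulAut.conj h0 • K ≤ N ⊔ K := by
    intro y hy
    rw [Helper1.mem_conj_smul] at hy
    have h1 : h0⁻¹ * y * h0 ∈ F := hKF hy
    have h2 : y ∈ F := by
      have h3 := hFn.conj_mem _ h1 h0
      have e : h0 * (h0⁻¹ * y * h0) * h0⁻¹ = y := by group
      rwa [e] at h3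
    obtain ⟨x, hx, k, hk, hyk⟩ := hFNK y h2
    rw [hyk]
    exact Subgroup.mul_mem_sup hx hk
  have hI : ∀ g : G, g * h0⁻¹ ∈ N → ∀ i : ℕ, 0 < i → i < n → ∀ k ∈ K,
      g ^ i * k = k * g ^ i → k = 1 := by
    intro g hg i hi0 hin k hk hcomm
    have hgb := hlift g hg
    have h1 : ((k : G) : G ⧸ N) = 1 := by
      apply hfix ((k : G) : G ⧸ N) (hKF hk) ((hb : G ⧸ N) ^ i) (Subgroup.pow_mem _ hb.2 i)
      · apply pow_ne_one_of_lt_orderOf hi0.ne'
        rw [hn]
        exact hin
      · rw [← hgb, ← QuotientGroup.mk_pow, ← QuotientGroup.mk_mul, ← QuotientGroup.mk_mul, hcomm]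
    exact hKN k hk ((QuotientGroup.eq_one_iff k).1 h1)
  exact hKC (mz_core N K h0 n hn0 hKN hcopK hKsolv hconj hI star)

end Cfsg.Agent.Helper21
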