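import Mathlib

set_option autoImplicit false

namespace Cfsg.Agent.Helper21

open scoped Pointwise

theorem nt21_card_centralizer (n : ℕ) (z : Equiv.Perm (Fin n)) (hz : z.cycleType = {3}) :
    Nat.card (Subgroup.centralizer ({z} : Set (Equiv.Perm (Fin n)))) =
      (n - 3).factorial * 3 := by
  rw [Equiv.Perm.nat_card_centralizer z, hz]
  simp

theorem nt21_fact_card (n : ℕ) (z : Equiv.Perm (Fin n)) (hz : z.cycleType = {3}) :
    (Nat.card (Subgroup.centralizer ({z} : Set (Equiv.Perm (Fin n))))).factorization 2 =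
      (n - 3).factorial.factorization 2 := by
  rw [nt21_card_centralizer n z hz,
    Nat.factorization_mul (Nat.factorial_ne_zero _) (by norm_num)]
  have h3 : (3 : ℕ).factorization 2 = 0 :=
    Nat.factorization_eq_zero_of_not_dvd (by norm_num)
  simp [h3]

theorem nil_three_conj (n : ℕ) (z₁ z₂ : Equiv.Perm (Fin n))
    (T₁ T₂ : Subgroup (Equiv.Perm (Fin n)))
    (hz₁ : z₁.cycleType = {3}) (hz₂ : z₂.cycleType = {3})
    (hT₁ : Nat.card T₁ = 2 ^ ((n - 3).factorial.factorization 2))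
    (hT₂ : Nat.card T₂ = 2 ^ ((n - 3).factorial.factorization 2))
    (h₁ : ∀ t ∈ T₁, t * z₁ = z₁ * t) (h₂ : ∀ t ∈ T₂, t * z₂ = z₂ * t) :
    ∃ g : Equiv.Perm (Fin n),
      (T₂ ⊔ Subgroup.zpowers z₂) =
        (T₁ ⊔ Subgroup.zpowers z₁).map (MulAut.conj g).toMonoidHom := by
  haveI : Fact (Nat.Prime 2) := ⟨Nat.prime_two⟩
  -- conjugate z₁ to z₂
  have hconj : IsConj z₁ z₂ := Equiv.Perm.isConj_iff_cycleType_eq.2 (hz₁.trans hz₂.symm)
  obtain ⟨s, hs⟩ := isConj_iff.1 hconj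
  -- hs : s * z₁ * s⁻¹ = z₂
  set C : Subgroup (Equiv.Perm (Fin n)) :=
    Subgroup.centralizer ({z₂} : Set (Equiv.Perm (Fin n))) with hC
  have hmemC : ∀ x : Equiv.Perm (Fin n), x ∈ C ↔ x * z₂ = z₂ * x := by
    intro x
    rw [hC, Subgroup.mem_centralizer_iff]
    constructor
    · intro h
      exact (h z₂ (Set.mem_singleton z₂)).symm
    · intro h y hy
      rw [Set.mem_singleton_iff] at hy
      rw [hy]
      exact h.symm
  set T₁' : Subgroup (Equiv.Perm (Fin n)) := T₁.map (MulAut.conj s).toMonoidHom with hT₁'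
  have hT₁'mem : ∀ x, x ∈ T₁' ↔ ∃ t ∈ T₁, s * t * s⁻¹ = x := by
    intro x
    rw [hT₁', Subgroup.mem_map]
    simp only [MulEquiv.coe_toMonoidHom, MulAut.conj_apply]
  have hT₂C : T₂ ≤ C := fun t ht => (hmemC t).2 (h₂ t ht)
  have hT₁'C : T₁' ≤ C := by
    intro x hx
    obtain ⟨t, ht, rfl⟩ := (hT₁'mem x).1 hx
    rw [hmemC, ← hs]
    have := h₁ t ht
    calc s * t * s⁻¹ * (s * z₁ * s⁻¹) = s * (t * z₁) * s⁻¹ := by group
      _ = s * (z₁ * t) * s⁻¹ := by rw [this]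
      _ = s * z₁ * s⁻¹ * (s * t * s⁻¹) := by group
  have hcardT₁' : Nat.card T₁' = 2 ^ ((n - 3).factorial.factorization 2) := by
    rw [hT₁', Subgroup.card_map_of_injective (MulEquiv.injective _), hT₁]
  have hfact : (Nat.card C).factorization 2 = (n - 3).factorial.factorization 2 :=
    nt21_fact_card n z₂ hz₂
  have hcardA : Nat.card (T₂.subgroupOf C) = 2 ^ (Nat.card C).factorization 2 := by
    rw [hfact, ← hT₂]
    exact Nat.card_congr (Subgroup.subgroupOfEquivOfLe hT₂C).toEquiv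
  have hcardB : Nat.card (T₁'.subgroupOf C) = 2 ^ (Nat.card C).factorization 2 := by
    rw [hfact, ← hcardT₁']
    exact Nat.card_congr (Subgroup.subgroupOfEquivOfLe hT₁'C).toEquiv
  obtain ⟨h, hh⟩ := MulAction.exists_smul_eq C (Sylow.ofCard (T₁'.subgroupOf C) hcardB)
    (Sylow.ofCard (T₂.subgroupOf C) hcardA)
  have hAB : MulAut.conj h • (T₁'.subgroupOf C) = T₂.subgroupOf C :=
    congrArg Sylow.toSubgroup hh
  have hmemAB : ∀ x : C, x ∈ T₂.subgroupOf C ↔ h⁻¹ * x * h ∈ T₁'.subgroupOf C := by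
    intro x
    rw [← hAB, Subgroup.mem_pointwise_smul_iff_inv_smul_mem, MulAut.smul_def,
      MulAut.conj_inv_apply]
  have hhz : (h : Equiv.Perm (Fin n)) * z₂ = z₂ * h := (hmemC h).1 h.2
  refine ⟨(h : Equiv.Perm (Fin n)) * s, ?_⟩
  rw [Subgroup.map_sup, MonoidHom.map_zpowers]
  have hz : (MulAut.conj ((h : Equiv.Perm (Fin n)) * s)).toMonoidHom z₁ = z₂ := by
    simp only [MulEquiv.coe_toMonoidHom, MulAut.conj_apply]
    calc (h : Equiv.Perm (Fin n)) * s * z₁ * ((h : Equiv.Perm (Fin n)) * s)⁻¹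
        = h * (s * z₁ * s⁻¹) * (h : Equiv.Perm (Fin n))⁻¹ := by group
      _ = h * z₂ * (h : Equiv.Perm (Fin n))⁻¹ := by rw [hs]
      _ = z₂ * h * (h : Equiv.Perm (Fin n))⁻¹ := by rw [hhz]
      _ = z₂ := by group
  rw [hz]
  have hT : T₁.map (MulAut.conj ((h : Equiv.Perm (Fin n)) * s)).toMonoidHom = T₂ := by
    apply Subgroup.eq_of_le_of_card_ge
    · intro x hx
      rw [Subgroup.mem_map] at hx
      obtain ⟨t, ht, rfl⟩ := hx
      simp only [MulEquiv.coe_toMonoidHom, MulAut.conj_apply]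
      have hy : s * t * s⁻¹ ∈ T₁' := (hT₁'mem _).2 ⟨t, ht, rfl⟩
      have hyC : s * t * s⁻¹ ∈ C := hT₁'C hy
      have hx' : h * ⟨s * t * s⁻¹, hyC⟩ * h⁻¹ ∈ T₂.subgroupOf C := by
        rw [hmemAB]
        have : h⁻¹ * (h * ⟨s * t * s⁻¹, hyC⟩ * h⁻¹) * h = ⟨s * t * s⁻¹, hyC⟩ := by group
        rw [this]
        exact hy
      have hx'' : ((h * ⟨s * t * s⁻¹, hyC⟩ * h⁻¹ : C) : Equiv.Perm (Fin n)) ∈ T₂ := hx'
      have heq : ((h * ⟨s * t * s⁻¹, hyC⟩ * h⁻¹ : C) : Equiv.Perm (Fin n)) =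
          (h : Equiv.Perm (Fin n)) * s * t * ((h : Equiv.Perm (Fin n)) * s)⁻¹ := by
        simp only [Subgroup.coe_mul, Subgroup.coe_inv]
        group
      rw [← heq]
      exact hx''
    · rw [Subgroup.card_map_of_injective (MulEquiv.injective _), hT₁, hT₂]
  rw [hT]

end Cfsg.Agent.Helper21
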