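import Mathlib
import Cfsg.Agent.Helper21.NilThree

set_option autoImplicit false

namespace Cfsg.Agent.Helper21

open scoped Pointwise

theorem na21_exists_odd (n : ℕ) (h7 : 7 ≤ n) (z : Equiv.Perm (Fin n)) (hz : z.cycleType = {3}) :
    ∃ w : Equiv.Perm (Fin n), w * z = z * w ∧ Equiv.Perm.sign w = -1 := by
  by_contra hcon
  push_neg at hcon
  have hle : Subgroup.centralizer ({z} : Set (Equiv.Perm (Fin n))) ≤ alternatingGroup (Fin n) := by
    intro w hw
    rw [Equiv.Perm.mem_alternatingGroup]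
    have hwz : w * z = z * w := by
      rw [Subgroup.mem_centralizer_iff] at hw
      exact (hw z (Set.mem_singleton z)).symm
    have h1 := hcon w hwz
    rcases Int.units_eq_one_or (Equiv.Perm.sign w) with h | h
    · exact h
    · exact absurd h h1
  have h2 := Equiv.Perm.card_le_of_centralizer_le_alternating hle
  rw [hz] at h2
  simp at h2
  omega

theorem alt3_conj (n : ℕ) (h7 : 7 ≤ n) (z₁ z₂ : Equiv.Perm (Fin n))
    (T₁ T₂ : Subgroup (Equiv.Perm (Fin n)))
    (hz₁ : z₁.cycleType = {3}) (hz₂ : z₂.cycleType = {3})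
    (hT₁ : 2 * Nat.card T₁ = 2 ^ ((n - 3).factorial.factorization 2))
    (hT₂ : 2 * Nat.card T₂ = 2 ^ ((n - 3).factorial.factorization 2))
    (hA₁ : T₁ ≤ alternatingGroup (Fin n)) (hA₂ : T₂ ≤ alternatingGroup (Fin n))
    (h₁ : ∀ t ∈ T₁, t * z₁ = z₁ * t) (h₂ : ∀ t ∈ T₂, t * z₂ = z₂ * t) :
    ∃ g : Equiv.Perm (Fin n), Equiv.Perm.sign g = 1 ∧
      (T₂ ⊔ Subgroup.zpowers z₂) =
        (T₁ ⊔ Subgroup.zpowers z₁).map (MulAut.conj g).toMonoidHom := by
  haveI : Fact (Nat.Prime 2) := ⟨Nat.prime_two⟩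
  obtain ⟨w, hwz, hwsign⟩ := na21_exists_odd n h7 z₂ hz₂
  have hconj : IsConj z₁ z₂ := Equiv.Perm.isConj_iff_cycleType_eq.2 (hz₁.trans hz₂.symm)
  obtain ⟨s₀, hs₀⟩ := isConj_iff.1 hconj
  -- an even conjugating element
  obtain ⟨s, hs, hssign⟩ : ∃ s : Equiv.Perm (Fin n), s * z₁ * s⁻¹ = z₂ ∧
      Equiv.Perm.sign s = 1 := by
    rcases Int.units_eq_one_or (Equiv.Perm.sign s₀) with h | h
    · exact ⟨s₀, hs₀, h⟩
    · refine ⟨w * s₀, ?_, ?_⟩
      · calc w * s₀ * z₁ * (w * s₀)⁻¹ = w * (s₀ * z₁ * s₀⁻¹) * w⁻¹ := by group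
          _ = w * z₂ * w⁻¹ := by rw [hs₀]
          _ = z₂ * w * w⁻¹ := by rw [hwz]
          _ = z₂ := by group
      · rw [Equiv.Perm.sign_mul, hwsign, h]
        norm_num
  set C : Subgroup (Equiv.Perm (Fin n)) :=
    Subgroup.centralizer ({z₂} : Set (Equiv.Perm (Fin n))) with hC
  have hmemC : ∀ x : Equiv.Perm (Fin n), x ∈ C ↔ x * z₂ = z₂ * x := by
    intro x
    rw [hC, Subgroup.mem_centralizer_iff]
    constructor
    · intro h
      exact (h z₂ (Set.mem_singleton z₂)).symm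
    · intro h y hy
      rw [Set.mem_singleton_iff] at hy
      rw [hy]
      exact h.symm
  set D : Subgroup (Equiv.Perm (Fin n)) := C ⊓ alternatingGroup (Fin n) with hD
  have hmemD : ∀ x : Equiv.Perm (Fin n), x ∈ D ↔ x * z₂ = z₂ * x ∧ Equiv.Perm.sign x = 1 := by
    intro x
    rw [hD, Subgroup.mem_inf, hmemC, Equiv.Perm.mem_alternatingGroup]
  -- 2 * |D| = |C|
  have hcardD : Nat.card D * 2 = Nat.card C := by
    let f : C →* ℤˣ := Equiv.Perm.sign.comp C.subtype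
    have hker : f.ker = D.subgroupOf C := by
      ext x
      rw [MonoidHom.mem_ker, Subgroup.mem_subgroupOf, hmemD]
      constructor
      · intro h
        exact ⟨(hmemC x).1 x.2, h⟩
      · intro h
        exact h.2
    have hsurj : Function.Surjective f := by
      intro u
      rcases Int.units_eq_one_or u with h | h
      · exact ⟨1, by rw [h]; exact map_one f⟩
      · exact ⟨⟨w, (hmemC w).2 hwz⟩, by rw [h]; exact hwsign⟩
    have h1 := Subgroup.card_mul_index f.ker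
    rw [Subgroup.index_ker, MonoidHom.range_eq_top.2 hsurj, Subgroup.card_top,
      Nat.card_eq_fintype_card (α := ℤˣ), Fintype.card_units_int, hker] at h1
    rw [← h1]
    congr 1
    exact (Nat.card_congr (Subgroup.subgroupOfEquivOfLe (inf_le_left : D ≤ C)).toEquiv).symm
  have hCcard : Nat.card C = (n - 3).factorial * 3 := nt21_card_centralizer n z₂ hz₂
  have hDpos : Nat.card D ≠ 0 := Nat.card_pos.ne'
  -- v ≥ 1 and the 2-part of |D|
  obtain ⟨v, hv⟩ : ∃ v, (n - 3).factorial.factorization 2 = v + 1 := by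
    rcases Nat.exists_eq_succ_of_ne_zero (n := (n - 3).factorial.factorization 2) (by
      intro h0
      rw [h0] at hT₂
      omega) with ⟨v, hv⟩
    exact ⟨v, hv⟩
  have hfactD : (Nat.card D).factorization 2 = v := by
    have h1 : (Nat.card D * 2).factorization 2 = (n - 3).factorial.factorization 2 := by
      rw [hcardD]
      exact nt21_fact_card n z₂ hz₂
    rw [Nat.factorization_mul hDpos (by norm_num), hv] at h1
    have h2 : (2 : ℕ).factorization 2 = 1 := Nat.prime_two.factorization_self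
    simp only [Finsupp.coe_add, Pi.add_apply, h2] at h1
    omega
  have hcT₂ : Nat.card T₂ = 2 ^ v := by
    rw [hv, pow_succ] at hT₂
    omega
  have hcT₁ : Nat.card T₁ = 2 ^ v := by
    rw [hv, pow_succ] at hT₁
    omega
  set T₁' : Subgroup (Equiv.Perm (Fin n)) := T₁.map (MulAut.conj s).toMonoidHom with hT₁'
  have hT₁'mem : ∀ x, x ∈ T₁' ↔ ∃ t ∈ T₁, s * t * s⁻¹ = x := by
    intro x
    rw [hT₁', Subgroup.mem_map]
    simp only [MulEquiv.coe_toMonoidHom, MulAut.conj_apply]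
  have hT₂D : T₂ ≤ D := fun t ht =>
    (hmemD t).2 ⟨h₂ t ht, Equiv.Perm.mem_alternatingGroup.1 (hA₂ ht)⟩
  have hT₁'D : T₁' ≤ D := by
    intro x hx
    obtain ⟨t, ht, rfl⟩ := (hT₁'mem x).1 hx
    rw [hmemD]
    constructor
    · rw [← hs]
      have := h₁ t ht
      calc s * t * s⁻¹ * (s * z₁ * s⁻¹) = s * (t * z₁) * s⁻¹ := by group
        _ = s * (z₁ * t) * s⁻¹ := by rw [this]
        _ = s * z₁ * s⁻¹ * (s * t * s⁻¹) := by group
    · have ht1 : Equiv.Perm.sign t = 1 := Equiv.Perm.mem_alternatingGroup.1 (hA₁ ht)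
      rw [Equiv.Perm.sign_mul, Equiv.Perm.sign_mul, Equiv.Perm.sign_inv, ht1, hssign]
      norm_num
  have hcardT₁' : Nat.card T₁' = 2 ^ v := by
    rw [hT₁', Subgroup.card_map_of_injective (MulEquiv.injective _), hcT₁]
  have hcardA : Nat.card (T₂.subgroupOf D) = 2 ^ (Nat.card D).factorization 2 := by
    rw [hfactD, ← hcT₂]
    exact Nat.card_congr (Subgroup.subgroupOfEquivOfLe hT₂D).toEquiv
  have hcardB : Nat.card (T₁'.subgroupOf D) = 2 ^ (Nat.card D).factorization 2 := by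
    rw [hfactD, ← hcardT₁']
    exact Nat.card_congr (Subgroup.subgroupOfEquivOfLe hT₁'D).toEquiv
  obtain ⟨h, hh⟩ := MulAction.exists_smul_eq D (Sylow.ofCard (T₁'.subgroupOf D) hcardB)
    (Sylow.ofCard (T₂.subgroupOf D) hcardA)
  have hAB : MulAut.conj h • (T₁'.subgroupOf D) = T₂.subgroupOf D :=
    congrArg Sylow.toSubgroup hh
  have hmemAB : ∀ x : D, x ∈ T₂.subgroupOf D ↔ h⁻¹ * x * h ∈ T₁'.subgroupOf D := by
    intro x
    rw [← hAB, Subgroup.mem_pointwise_smul_iff_inv_smul_mem, MulAut.smul_def,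
      MulAut.conj_inv_apply]
  have hhD := (hmemD h).1 h.2
  have hhz : (h : Equiv.Perm (Fin n)) * z₂ = z₂ * h := hhD.1
  refine ⟨(h : Equiv.Perm (Fin n)) * s, ?_, ?_⟩
  · rw [Equiv.Perm.sign_mul, hhD.2, hssign]
    norm_num
  rw [Subgroup.map_sup, MonoidHom.map_zpowers]
  have hz : (MulAut.conj ((h : Equiv.Perm (Fin n)) * s)).toMonoidHom z₁ = z₂ := by
    simp only [MulEquiv.coe_toMonoidHom, MulAut.conj_apply]
    calc (h : Equiv.Perm (Fin n)) * s * z₁ * ((h : Equiv.Perm (Fin n)) * s)⁻¹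
        = h * (s * z₁ * s⁻¹) * (h : Equiv.Perm (Fin n))⁻¹ := by group
      _ = h * z₂ * (h : Equiv.Perm (Fin n))⁻¹ := by rw [hs]
      _ = z₂ * h * (h : Equiv.Perm (Fin n))⁻¹ := by rw [hhz]
      _ = z₂ := by group
  rw [hz]
  have hT : T₁.map (MulAut.conj ((h : Equiv.Perm (Fin n)) * s)).toMonoidHom = T₂ := by
    apply Subgroup.eq_of_le_of_card_ge
    · intro x hx
      rw [Subgroup.mem_map] at hx
      obtain ⟨t, ht, rfl⟩ := hx
      simp only [MulEquiv.coe_toMonoidHom, MulAut.conj_apply]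
      have hy : s * t * s⁻¹ ∈ T₁' := (hT₁'mem _).2 ⟨t, ht, rfl⟩
      have hyD : s * t * s⁻¹ ∈ D := hT₁'D hy
      have hx' : h * ⟨s * t * s⁻¹, hyD⟩ * h⁻¹ ∈ T₂.subgroupOf D := by
        rw [hmemAB]
        have : h⁻¹ * (h * ⟨s * t * s⁻¹, hyD⟩ * h⁻¹) * h = ⟨s * t * s⁻¹, hyD⟩ := by group
        rw [this]
        exact hy
      have hx'' : ((h * ⟨s * t * s⁻¹, hyD⟩ * h⁻¹ : D) : Equiv.Perm (Fin n)) ∈ T₂ := hx'
      have heq : ((h * ⟨s * t * s⁻¹, hyD⟩ * h⁻¹ : D) : Equiv.Perm (Fin n)) =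
          (h : Equiv.Perm (Fin n)) * s * t * ((h : Equiv.Perm (Fin n)) * s)⁻¹ := by
        simp only [Subgroup.coe_mul, Subgroup.coe_inv]
        group
      rw [← heq]
      exact hx''
    · rw [Subgroup.card_map_of_injective (MulEquiv.injective _), hcT₁, hcT₂]
  rw [hT]

end Cfsg.Agent.Helper21
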