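import Mathlib
import Cfsg.Prelude.Def_OddOrderLocal

set_option autoImplicit false

namespace Cfsg.Agent.Helper21

open Cfsg

/-- A group in which commuting is transitive on non-identity elements has TI centralizers. -/
theorem isTISubset_centralizer_of_ct {G : Type*} [Group G]
    (hct : ∀ a b c : G, b ≠ 1 → a * b = b * a → b * c = c * b → a * c = c * a) (x : G) :
    IsTISubset (Subgroup.centralizer ({x} : Set G) : Set G) := by
  intro g hg y hy hgy
  by_contra hy1
  apply hg
  have hmem : ∀ z : G, z ∈ (Subgroup.centralizer ({x} : Set G) : Set G) ↔ x * z = z * x := by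
    intro z
    rw [SetLike.mem_coe, Subgroup.mem_centralizer_iff]
    constructor
    · intro h
      exact h x rfl
    · intro h w hw
      rw [Set.mem_singleton_iff.1 hw]
      exact h
  have hxy : x * y = y * x := (hmem y).1 hy
  have hxgy : x * (g * y * g⁻¹) = g * y * g⁻¹ * x := (hmem _).1 hgy
  have hgy1 : g * y * g⁻¹ ≠ 1 := by
    intro h
    apply hy1
    have : y = g⁻¹ * (g * y * g⁻¹) * g := by group
    rw [this, h]
    group
  by_cases hx1 : x = 1
  · rw [Subgroup.mem_set_normalizer_iff]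
    intro n
    rw [hmem, hmem, hx1]
    simp
  rw [Subgroup.mem_set_normalizer_iff]
  intro n
  rw [hmem, hmem]
  constructor
  · intro hn
    -- n ~ x ~ y  ⟹ n ~ y
    have hny : n * y = y * n := hct n x y hx1 hn.symm hxy
    have h1 : g * n * g⁻¹ * (g * y * g⁻¹) = g * y * g⁻¹ * (g * n * g⁻¹) := by
      have e1 : g * n * g⁻¹ * (g * y * g⁻¹) = g * (n * y) * g⁻¹ := by group
      have e2 : g * y * g⁻¹ * (g * n * g⁻¹) = g * (y * n) * g⁻¹ := by group
      rw [e1, e2, hny]
    exact (hct (g * n * g⁻¹) (g * y * g⁻¹) x hgy1 h1 hxgy.symm).symm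
  · intro hn
    have h1 : g * n * g⁻¹ * (g * y * g⁻¹) = g * y * g⁻¹ * (g * n * g⁻¹) :=
      hct (g * n * g⁻¹) x (g * y * g⁻¹) hx1 hn.symm hxgy
    have hny : n * y = y * n := by
      have e1 : n * y = g⁻¹ * (g * n * g⁻¹ * (g * y * g⁻¹)) * g := by group
      have e2 : y * n = g⁻¹ * (g * y * g⁻¹ * (g * n * g⁻¹)) * g := by group
      rw [e1, e2, h1]
    exact (hct n y x hy1 hny hxy.symm).symm

/-- Entrywise form: a `2 × 2` matrix commuting with a non-scalar matrix `y` is `a + b y`. -/
theorem comm_two_aux {F : Type*} [Field F] (x00 x01 x10 x11 y00 y01 y10 y11 : F)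
    (hns : y01 ≠ 0 ∨ y10 ≠ 0 ∨ y00 ≠ y11)
    (e1 : x01 * y10 = y01 * x10)
    (e2 : x00 * y01 + x01 * y11 = y00 * x01 + y01 * x11)
    (e3 : x10 * y00 + x11 * y10 = y10 * x00 + y11 * x10) :
    ∃ a b : F, x00 = a + b * y00 ∧ x01 = b * y01 ∧ x10 = b * y10 ∧ x11 = a + b * y11 := by
  by_cases h1 : y01 = 0
  · by_cases h2 : y10 = 0
    · have h3 : y00 ≠ y11 := by
        rcases hns with h | h | h
        · exact absurd h1 h
        · exact absurd h2 h
        · exact h
      have h4 : y00 - y11 ≠ 0 := sub_ne_zero.2 h3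
      have hx01 : x01 = 0 := by
        rw [h1] at e2
        have h5 : x01 * (y00 - y11) = 0 := by linear_combination -e2
        rcases mul_eq_zero.1 h5 with h | h
        · exact h
        · exact absurd h h4
      have hx10 : x10 = 0 := by
        rw [h2] at e3
        have h5 : x10 * (y00 - y11) = 0 := by linear_combination e3
        rcases mul_eq_zero.1 h5 with h | h
        · exact h
        · exact absurd h h4
      refine ⟨x00 - (x00 - x11) / (y00 - y11) * y00, (x00 - x11) / (y00 - y11), by ring,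
        by rw [hx01, h1]; ring, by rw [hx10, h2]; ring, ?_⟩
      have h6 : (x00 - x11) / (y00 - y11) * (y00 - y11) = x00 - x11 := div_mul_cancel₀ _ h4
      linear_combination h6
    · have h6 : x10 / y10 * y10 = x10 := div_mul_cancel₀ _ h2
      refine ⟨x00 - x10 / y10 * y00, x10 / y10, by ring, ?_, h6.symm, ?_⟩
      · have h7 : x01 * y10 = x10 / y10 * y01 * y10 := by linear_combination e1 - y01 * h6
        exact mul_right_cancel₀ h2 h7
      · have h7 : x11 * y10 = (x00 - x10 / y10 * y00 + x10 / y10 * y11) * y10 := by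
          linear_combination e3 + (y00 - y11) * h6
        exact mul_right_cancel₀ h2 h7
  · have h6 : x01 / y01 * y01 = x01 := div_mul_cancel₀ _ h1
    refine ⟨x00 - x01 / y01 * y00, x01 / y01, by ring, h6.symm, ?_, ?_⟩
    · have h7 : x10 * y01 = x01 / y01 * y10 * y01 := by linear_combination -e1 - y10 * h6
      exact mul_right_cancel₀ h1 h7
    · have h7 : x11 * y01 = (x00 - x01 / y01 * y00 + x01 / y01 * y11) * y01 := by
        linear_combination -e2 + (y00 - y11) * h6
      exact mul_right_cancel₀ h1 h7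

/-- Commuting with a fixed non-scalar `2 × 2` matrix is a commutative relation. -/
theorem mat_two_ct {F : Type*} [Field F] (X Y Z : Matrix (Fin 2) (Fin 2) F)
    (hns : Y 0 1 ≠ 0 ∨ Y 1 0 ≠ 0 ∨ Y 0 0 ≠ Y 1 1) (hXY : X * Y = Y * X) (hZY : Z * Y = Y * Z) :
    X * Z = Z * X := by
  have e := fun i j => congrFun (congrFun hXY i) j
  have f := fun i j => congrFun (congrFun hZY i) j
  simp only [Matrix.mul_apply, Fin.sum_univ_two] at e f
  obtain ⟨a, b, h00, h01, h10, h11⟩ := comm_two_aux (X 0 0) (X 0 1) (X 1 0) (X 1 1)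
    (Y 0 0) (Y 0 1) (Y 1 0) (Y 1 1) hns (by linear_combination e 0 0) (e 0 1) (e 1 0)
  obtain ⟨c, d, k00, k01, k10, k11⟩ := comm_two_aux (Z 0 0) (Z 0 1) (Z 1 0) (Z 1 1)
    (Y 0 0) (Y 0 1) (Y 1 0) (Y 1 1) hns (by linear_combination f 0 0) (f 0 1) (f 1 0)
  ext i j
  fin_cases i <;> fin_cases j <;>
    simp only [Matrix.mul_apply, Fin.sum_univ_two, Fin.zero_eta, Fin.mk_one, h00, h01, h10, h11,
      k00, k01, k10, k11] <;> ring

/-- In characteristic `2`, a non-identity element of `SL(2, F)` is not a scalar matrix. -/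
theorem sl_two_nonscalar {F : Type*} [Field F] [CharP F 2]
    (B : Matrix.SpecialLinearGroup (Fin 2) F) (hB : B ≠ 1) :
    B.1 0 1 ≠ 0 ∨ B.1 1 0 ≠ 0 ∨ B.1 0 0 ≠ B.1 1 1 := by
  by_contra hcon
  push_neg at hcon
  obtain ⟨h01, h10, h00⟩ := hcon
  have hdet := B.2
  rw [Matrix.det_fin_two, h01, h10, ← h00] at hdet
  have hr : (B.1 0 0 - 1) ^ 2 = 0 := by
    linear_combination hdet + (1 - B.1 0 0) * (CharTwo.two_eq_zero (R := F))
  have hr1 : B.1 0 0 = 1 := by
    have := pow_eq_zero_iff (two_ne_zero) |>.1 hr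
    exact sub_eq_zero.1 this
  apply hB
  apply Subtype.ext
  ext i j
  fin_cases i <;> fin_cases j
  · simpa using hr1
  · simpa using h01
  · simpa using h10
  · simpa using (h00.symm.trans hr1)

/-- In characteristic `2`, the centre of `SL(2, F)` is trivial. -/
theorem sl_two_center_eq_bot {F : Type*} [Field F] [CharP F 2] :
    Subgroup.center (Matrix.SpecialLinearGroup (Fin 2) F) = ⊥ := by
  rw [eq_bot_iff]
  intro A hA
  rw [Subgroup.mem_bot]
  by_contra hA1
  obtain ⟨r, -, hr⟩ := Matrix.SpecialLinearGroup.mem_center_iff.1 hA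
  rcases sl_two_nonscalar A hA1 with h | h | h
  · apply h
    rw [← hr]
    simp
  · apply h
    rw [← hr]
    simp
  · apply h
    rw [← hr]
    simp

/-- Commuting is transitive on the non-identity elements of `PSL(2, F)` in characteristic `2`. -/
theorem psl_two_ct {F : Type*} [Field F] [CharP F 2]
    (a b c : Matrix.ProjectiveSpecialLinearGroup (Fin 2) F) (hb : b ≠ 1) (hab : a * b = b * a)
    (hbc : b * c = c * b) : a * c = c * a := by
  obtain ⟨A, rfl⟩ := QuotientGroup.mk_surjective a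
  obtain ⟨B, rfl⟩ := QuotientGroup.mk_surjective b
  obtain ⟨C, rfl⟩ := QuotientGroup.mk_surjective c
  have hB1 : B ≠ 1 := by
    rintro rfl
    exact hb rfl
  have hlift : ∀ U V : Matrix.SpecialLinearGroup (Fin 2) F,
      (QuotientGroup.mk U : Matrix.ProjectiveSpecialLinearGroup (Fin 2) F) = QuotientGroup.mk V →
        U = V := by
    intro U V h
    have h1 := QuotientGroup.eq.1 h
    rw [sl_two_center_eq_bot, Subgroup.mem_bot] at h1
    exact inv_mul_eq_one.1 h1
  have hAB : A * B = B * A := hlift _ _ hab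
  have hBC : B * C = C * B := hlift _ _ hbc
  have hAB' : A.1 * B.1 = B.1 * A.1 := congrArg Subtype.val hAB
  have hCB' : C.1 * B.1 = B.1 * C.1 := (congrArg Subtype.val hBC).symm
  have hAC : A * C = C * A :=
    Subtype.ext (mat_two_ct A.1 B.1 C.1 (sl_two_nonscalar B hB1) hAB' hCB')
  show (QuotientGroup.mk (A * C) : Matrix.ProjectiveSpecialLinearGroup (Fin 2) F) =
    QuotientGroup.mk (C * A)
  rw [hAC]

end Cfsg.Agent.Helper21
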