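import Mathlib
import Cfsg.Agent.Helper21.NPC
import Cfsg.Agent.Helper21.CyclicOmega

/-!
Solvable groups with (almost all) cyclic Sylow subgroups in which `r`-subgroups of equal order
are conjugate: all subgroups of equal order are conjugate.
-/

set_option autoImplicit false

universe u

namespace Cfsg.Agent.Helper21

open Pointwise

section SameOrd

variable {G : Type u} [Group G]

/-- Conjugacy of subgroups. -/
def SubConj (H K : Subgroup G) : Prop := ∃ g : G, K = H.map (MulAut.conj g).toMonoidHom

theorem mem_map_conj21 {H : Subgroup G} {g x : G} :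
    x ∈ H.map (MulAut.conj g).toMonoidHom ↔ g⁻¹ * x * g ∈ H := by
  rw [Subgroup.mem_map]
  constructor
  · rintro ⟨h, hh, rfl⟩
    have : g⁻¹ * ((MulAut.conj g).toMonoidHom h) * g = h := by
      show g⁻¹ * (g * h * g⁻¹) * g = h
      group
    rw [this]; exact hh
  · intro hx
    refine ⟨g⁻¹ * x * g, hx, ?_⟩
    show g * (g⁻¹ * x * g) * g⁻¹ = x
    group

theorem SubConj.refl (H : Subgroup G) : SubConj H H := by
  refine ⟨1, ?_⟩
  ext x
  rw [mem_map_conj21]
  simp

theorem SubConj.trans {H K L : Subgroup G} (h1 : SubConj H K) (h2 : SubConj K L) :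
    SubConj H L := by
  obtain ⟨g₁, rfl⟩ := h1
  obtain ⟨g₂, rfl⟩ := h2
  refine ⟨g₂ * g₁, ?_⟩
  ext x
  rw [mem_map_conj21, mem_map_conj21, mem_map_conj21]
  have : g₁⁻¹ * (g₂⁻¹ * x * g₂) * g₁ = (g₂ * g₁)⁻¹ * x * (g₂ * g₁) := by group
  rw [this]

theorem card_map_conj21 (H : Subgroup G) (g : G) :
    Nat.card (H.map (MulAut.conj g).toMonoidHom) = Nat.card H :=
  Subgroup.card_map_of_injective (MulAut.conj g).injective

theorem map_conj_of_normal (N : Subgroup G) [hN : N.Normal] (g : G) :
    N.map (MulAut.conj g).toMonoidHom = N := by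
  ext x
  rw [mem_map_conj21]
  constructor
  · intro h
    have := hN.conj_mem _ h g
    have e : g * (g⁻¹ * x * g) * g⁻¹ = x := by group
    rwa [e] at this
  · intro h
    have := hN.conj_mem _ h g⁻¹
    rwa [inv_inv] at this

theorem map_conj_mk (N : Subgroup G) [N.Normal] (H : Subgroup G) (g : G) :
    (H.map (MulAut.conj g).toMonoidHom).map (QuotientGroup.mk' N) =
      (H.map (QuotientGroup.mk' N)).map (MulAut.conj (QuotientGroup.mk' N g)).toMonoidHom := by
  rw [Subgroup.map_map, Subgroup.map_map]
  congr 1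

/-- Conjugacy in the quotient lifts to conjugacy of the products with the kernel. -/
theorem exists_sup_eq_of_subConj_map (N : Subgroup G) [N.Normal] (H K : Subgroup G)
    (h : SubConj (H.map (QuotientGroup.mk' N)) (K.map (QuotientGroup.mk' N))) :
    ∃ g : G, N ⊔ K = N ⊔ H.map (MulAut.conj g).toMonoidHom := by
  obtain ⟨gbar, hg⟩ := h
  obtain ⟨g, rfl⟩ := QuotientGroup.mk'_surjective N gbar
  refine ⟨g, ?_⟩
  rw [← map_conj_mk] at hg
  have h1 := congrArg (Subgroup.comap (QuotientGroup.mk' N)) hg
  rw [Subgroup.comap_map_eq, Subgroup.comap_map_eq, QuotientGroup.ker_mk'] at h1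
  rw [sup_comm N K, sup_comm N]
  exact h1

theorem subConj_of_map_of_le (N : Subgroup G) [N.Normal] (H K : Subgroup G) (hH : N ≤ H)
    (hK : N ≤ K)
    (h : SubConj (H.map (QuotientGroup.mk' N)) (K.map (QuotientGroup.mk' N))) : SubConj H K := by
  obtain ⟨g, hg⟩ := exists_sup_eq_of_subConj_map N H K h
  refine ⟨g, ?_⟩
  have h1 : N ≤ H.map (MulAut.conj g).toMonoidHom := by
    rw [← map_conj_of_normal N g]
    exact Subgroup.map_mono hH
  rw [sup_eq_right.2 hK, sup_eq_right.2 h1] at hg
  exact hg

theorem card_map_mk_mul [Finite G] (N : Subgroup G) [N.Normal] (H : Subgroup G) (hN : N ≤ H) :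
    Nat.card (H.map (QuotientGroup.mk' N)) * Nat.card N = Nat.card H := by
  have h1 : (H.map (QuotientGroup.mk' N)).index = H.index :=
    Subgroup.index_map_eq H (QuotientGroup.mk'_surjective N)
      (by rw [QuotientGroup.ker_mk']; exact hN)
  have h2 := Subgroup.card_mul_index (H.map (QuotientGroup.mk' N))
  have h3 := Subgroup.card_mul_index H
  have h4 := Subgroup.card_eq_card_quotient_mul_card_subgroup N
  rw [h1] at h2
  have hidx : 0 < H.index := Nat.pos_of_ne_zero Subgroup.index_ne_zero_of_finite
  have : Nat.card (H.map (QuotientGroup.mk' N)) * Nat.card N * H.index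
      = Nat.card H * H.index := by
    rw [h3, h4, ← h2]; ring
  exact Nat.eq_of_mul_eq_mul_right hidx this

theorem card_map_mk_of_disjoint [Finite G] (N : Subgroup G) [N.Normal] (H : Subgroup G)
    (hd : ∀ x, x ∈ N → x ∈ H → x = 1) :
    Nat.card (H.map (QuotientGroup.mk' N)) = Nat.card H := by
  have hinj : Function.Injective ((QuotientGroup.mk' N).subgroupMap H) := by
    rw [injective_iff_map_eq_one]
    intro x hx
    have h1 : (QuotientGroup.mk' N) (x : G) = 1 := congrArg Subtype.val hx
    rw [QuotientGroup.mk'_apply, QuotientGroup.eq_one_iff] at h1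
    exact Subtype.ext (hd _ h1 x.2)
  exact (Nat.card_congr (Equiv.ofBijective _
    ⟨hinj, (QuotientGroup.mk' N).subgroupMap_surjective H⟩)).symm

theorem isCyclic_sylow_quotient [Finite G] (N : Subgroup G) [N.Normal] {p : ℕ} [Fact p.Prime]
    (h : ∀ P : Sylow p G, IsCyclic P) (Q : Sylow p (G ⧸ N)) : IsCyclic Q := by
  obtain ⟨P, rfl⟩ := Sylow.mapSurjective_surjective (QuotientGroup.mk'_surjective N) p Q
  haveI := h P
  have : IsCyclic ↥((P : Subgroup G).map (QuotientGroup.mk' N)) :=
    isCyclic_of_surjective _ ((QuotientGroup.mk' N).subgroupMap_surjective (P : Subgroup G))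
  exact this

theorem isCyclic_sylow_subgroup [Finite G] (T : Subgroup G) {p : ℕ} [Fact p.Prime]
    (h : ∀ P : Sylow p G, IsCyclic P) (Q : Sylow p T) : IsCyclic Q := by
  have hQ : IsPGroup p ((Q : Subgroup T).map T.subtype) := Q.isPGroup'.map T.subtype
  obtain ⟨P, hP⟩ := hQ.exists_le_sylow
  haveI := h P
  have e := (Q : Subgroup T).equivMapOfInjective T.subtype T.subtype_injective
  have h1 : IsCyclic ↥((Q : Subgroup T).map T.subtype) := by
    have h2 : IsCyclic ↥(((Q : Subgroup T).map T.subtype).subgroupOf (P : Subgroup G)) :=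
      inferInstance
    exact isCyclic_of_surjective _ (Subgroup.subgroupOfEquivOfLe hP).surjective
  exact isCyclic_of_surjective _ e.symm.surjective

/-- Conjugacy of equal-order `r`-subgroups passes to quotients. -/
theorem subConj_pgroup_quotient [Finite G] (N : Subgroup G) [N.Normal] {r : ℕ} [Fact r.Prime]
    (hD : ∀ H K : Subgroup G, IsPGroup r H → IsPGroup r K → Nat.card H = Nat.card K →
      SubConj H K)
    (X Y : Subgroup (G ⧸ N)) (hX : IsPGroup r X) (hY : IsPGroup r Y)
    (hXY : Nat.card X = Nat.card Y) : SubConj X Y := by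
  have key : ∀ X : Subgroup (G ⧸ N), IsPGroup r X →
      ∃ X₀ : Subgroup G, IsPGroup r X₀ ∧ X₀.map (QuotientGroup.mk' N) = X ∧
        Nat.card X₀ = r ^ (Nat.card (X.comap (QuotientGroup.mk' N))).factorization r := by
    intro X hX
    obtain ⟨P⟩ : Nonempty (Sylow r (X.comap (QuotientGroup.mk' N))) := inferInstance
    refine ⟨(P : Subgroup (X.comap (QuotientGroup.mk' N))).map
      (X.comap (QuotientGroup.mk' N)).subtype, P.isPGroup'.map _, ?_, ?_⟩
    · apply le_antisymm
      · rintro _ ⟨x, ⟨y, hy, rfl⟩, rfl⟩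
        exact y.2
      · intro xbar hxbar
        have hf : Function.Surjective ((QuotientGroup.mk' N).subgroupComap X) :=
          (QuotientGroup.mk' N).subgroupComap_surjective_of_surjective X
            (QuotientGroup.mk'_surjective N)
        have htop : ((P.mapSurjective hf : Sylow r X) : Subgroup X) = ⊤ :=
          ((P.mapSurjective hf).is_maximal' (hX.to_subgroup ⊤) le_top).symm
        rw [Sylow.coe_mapSurjective] at htop
        have hmem : (⟨xbar, hxbar⟩ : X) ∈
            (P : Subgroup _).map ((QuotientGroup.mk' N).subgroupComap X) := by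
          rw [htop]; exact Subgroup.mem_top _
        obtain ⟨y, hy, hfy⟩ := hmem
        refine ⟨(y : G), ⟨y, hy, rfl⟩, ?_⟩
        exact congrArg Subtype.val hfy
    · rw [Subgroup.card_subtype]; exact P.card_eq_multiplicity
  obtain ⟨X₀, hX₀, hX₀m, hX₀c⟩ := key X hX
  obtain ⟨Y₀, hY₀, hY₀m, hY₀c⟩ := key Y hY
  have hcard : Nat.card (X.comap (QuotientGroup.mk' N))
      = Nat.card (Y.comap (QuotientGroup.mk' N)) := by
    have h1 := Subgroup.index_comap_of_surjective X (QuotientGroup.mk'_surjective N)
    have h2 := Subgroup.index_comap_of_surjective Y (QuotientGroup.mk'_surjective N)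
    have h3 : X.index = Y.index := by
      have hx := Subgroup.card_mul_index X
      have hy := Subgroup.card_mul_index Y
      rw [hXY, ← hy] at hx
      exact Nat.eq_of_mul_eq_mul_left Nat.card_pos hx
    have hx := Subgroup.card_mul_index (X.comap (QuotientGroup.mk' N))
    have hy := Subgroup.card_mul_index (Y.comap (QuotientGroup.mk' N))
    rw [h1, h3] at hx
    rw [h2, ← hx] at hy
    exact (Nat.eq_of_mul_eq_mul_right
      (Nat.pos_of_ne_zero Subgroup.index_ne_zero_of_finite) hy).symm
  obtain ⟨g, hg⟩ := hD X₀ Y₀ hX₀ hY₀ (by rw [hX₀c, hY₀c, hcard])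
  refine ⟨QuotientGroup.mk' N g, ?_⟩
  rw [← hX₀m, ← hY₀m, hg, map_conj_mk]

theorem isPGroup_of_exp {q : ℕ} (A : Subgroup G) (hAexp : ∀ x ∈ A, x ^ q = 1) :
    IsPGroup q A := fun a =>
  ⟨1, by rw [pow_one]; exact Subtype.ext (by rw [Subgroup.coe_pow]; exact hAexp a a.2)⟩

theorem le_of_dvd_card_of_cyclic_sylow [Finite G] {q : ℕ} [Fact q.Prime]
    (hcyc : ∀ P : Sylow q G, IsCyclic P) (A : Subgroup G) [A.Normal]
    (hAexp : ∀ x ∈ A, x ^ q = 1) (H : Subgroup G) (hq : q ∣ Nat.card H) : A ≤ H := by
  obtain ⟨h, hh⟩ := exists_prime_orderOf_dvd_card' (G := H) q hq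
  have hh' : orderOf (h : G) = q := by rw [Subgroup.orderOf_coe]; exact hh
  have hA : IsPGroup q A := isPGroup_of_exp A hAexp
  have hZ : IsPGroup q (Subgroup.zpowers (h : G)) :=
    IsPGroup.of_card (n := 1) (by rw [Nat.card_zpowers, hh', pow_one])
  obtain ⟨P, hP⟩ := (hZ.to_sup_of_normal_right hA).exists_le_sylow
  haveI := hcyc P
  intro a ha
  have h1 : (h : G) ≠ 1 := by
    intro h1
    rw [h1, orderOf_one] at hh'
    exact (Fact.out : q.Prime).one_lt.ne hh'
  have := mem_zpowers_of_pow_eq_one_of_cyclic (P : Subgroup G) P.isPGroup' inferInstance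
    (hP (Subgroup.mem_sup_left (Subgroup.mem_zpowers _))) h1
    (hP (Subgroup.mem_sup_right ha)) (hAexp a ha)
  exact (Subgroup.zpowers_le.2 h.2) this

/-- Coprime case: conjugacy of the images modulo a normal `q`-subgroup gives conjugacy. -/
theorem subConj_of_coprime_of_quotient [Finite G] {q : ℕ} [Fact q.Prime] (A : Subgroup G)
    [A.Normal] (hA : IsPGroup q A) (H K : Subgroup G) (hHK : Nat.card H = Nat.card K)
    (hcopH : (Nat.card H).Coprime q)
    (hc : SubConj (H.map (QuotientGroup.mk' A)) (K.map (QuotientGroup.mk' A))) :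
    SubConj H K := by
  have hcopK : (Nat.card K).Coprime q := by rw [← hHK]; exact hcopH
  obtain ⟨g, hg⟩ := exists_sup_eq_of_subConj_map A H K hc
  have hcop' : (Nat.card (H.map (MulAut.conj g).toMonoidHom)).Coprime q := by
    rw [card_map_conj21]; exact hcopH
  obtain ⟨a, -, ha⟩ := exists_conj_of_sup_eq A hA (H.map (MulAut.conj g).toMonoidHom) K
    hcop' hcopK hg
  exact SubConj.trans ⟨g, rfl⟩ ⟨a, ha.symm⟩

theorem card_map_mk_of_coprime [Finite G] {q : ℕ} [Fact q.Prime] (A : Subgroup G)
    [A.Normal] (hA : IsPGroup q A) (H : Subgroup G) (hcopH : (Nat.card H).Coprime q) :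
    Nat.card (H.map (QuotientGroup.mk' A)) = Nat.card H :=
  card_map_mk_of_disjoint A H
    (fun _ hxA hxH => eq_one_of_mem_pgroup_of_mem_coprime hA hcopH hxA hxH)

/-- `r'`-subgroups of equal order are conjugate in a solvable group whose Sylow `p`-subgroups
are cyclic for `p ≠ r`. -/
theorem rprime_conj_aux (r : ℕ) : ∀ (n : ℕ) (T : Type u) [Group T] [Finite T]
    [Group.IsSolvable T], Nat.card T = n →
    (∀ p : ℕ, p.Prime → p ≠ r → ∀ P : Sylow p T, IsCyclic P) →
    ∀ H K : Subgroup T, Nat.card H = Nat.card K → ¬ r ∣ Nat.card H → SubConj H K := by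
  intro n
  induction n using Nat.strong_induction_on with
  | _ n ih =>
    intro T _ _ _ hn hcyc H K hHK hrH
    rcases subsingleton_or_nontrivial T with hT | hT
    · have : H = K := by
        ext x
        rw [Subsingleton.elim x 1]
        exact ⟨fun _ => K.one_mem, fun _ => H.one_mem⟩
      rw [this]; exact SubConj.refl K
    obtain ⟨q, hq, A, hAchar, hAne, -, hAexp⟩ := Cfsg.Agent.Helper1.exists_char_elemAbelian T
    haveI := hAchar
    haveI hAn : A.Normal := Subgroup.normal_of_characteristic A
    haveI : Fact q.Prime := ⟨hq⟩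
    have hA : IsPGroup q A := isPGroup_of_exp A hAexp
    have hlt : Nat.card (T ⧸ A) < n := by
      rw [← hn]; exact Cfsg.Agent.Helper1.card_quotient_lt_of_ne_bot A hAne
    have hcycQ : ∀ p : ℕ, p.Prime → p ≠ r → ∀ P : Sylow p (T ⧸ A), IsCyclic P := by
      intro p hp hpr P
      haveI : Fact p.Prime := ⟨hp⟩
      exact isCyclic_sylow_quotient A (hcyc p hp hpr) P
    have hIH := ih _ hlt (T ⧸ A) rfl hcycQ
    by_cases hqH : q ∣ Nat.card H
    · have hqr : q ≠ r := by
        rintro rfl
        exact hrH hqH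
      have hAH : A ≤ H := le_of_dvd_card_of_cyclic_sylow (hcyc q hq hqr) A hAexp H hqH
      have hAK : A ≤ K :=
        le_of_dvd_card_of_cyclic_sylow (hcyc q hq hqr) A hAexp K (by rw [← hHK]; exact hqH)
      apply subConj_of_map_of_le A H K hAH hAK
      apply hIH
      · have h1 := card_map_mk_mul A H hAH
        have h2 := card_map_mk_mul A K hAK
        rw [hHK, ← h2] at h1
        exact Nat.eq_of_mul_eq_mul_right Nat.card_pos h1
      · exact fun h => hrH (dvd_trans h (Subgroup.card_map_dvd H _))
    · have hcopH : (Nat.card H).Coprime q :=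
        Nat.Coprime.symm ((Nat.Prime.coprime_iff_not_dvd hq).2 hqH)
      have hcopK : (Nat.card K).Coprime q := by rw [← hHK]; exact hcopH
      apply subConj_of_coprime_of_quotient A hA H K hHK hcopH
      apply hIH
      · rw [card_map_mk_of_coprime A hA H hcopH, card_map_mk_of_coprime A hA K hcopK, hHK]
      · rw [card_map_mk_of_coprime A hA H hcopH]; exact hrH

/-- Subgroups `H`, `K` of equal order inside `T`, both containing a normal subgroup `R₀` of
`T` that has the order of a Sylow `r`-subgroup of `H`, are conjugate. -/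
theorem subConj_of_le_normal_sub [Finite G] [Group.IsSolvable G] {r : ℕ} [Fact r.Prime]
    (hcyc : ∀ p : ℕ, p.Prime → p ≠ r → ∀ P : Sylow p G, IsCyclic P)
    (T R₀ H K : Subgroup G) (hR₀ : (R₀.subgroupOf T).Normal) (hHT : H ≤ T) (hKT : K ≤ T)
    (hR₀H : R₀ ≤ H) (hR₀K : R₀ ≤ K) (hR₀T : R₀ ≤ T) (hHK : Nat.card H = Nat.card K)
    (hc : Nat.card R₀ = r ^ (Nat.card H).factorization r) : SubConj H K := by
  haveI := hR₀
  have hcycT : ∀ p : ℕ, p.Prime → p ≠ r →
      ∀ P : Sylow p (↥T ⧸ R₀.subgroupOf T), IsCyclic P := by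
    intro p hp hpr P
    haveI : Fact p.Prime := ⟨hp⟩
    exact isCyclic_sylow_quotient _
      (fun Q => isCyclic_sylow_subgroup T (hcyc p hp hpr) Q) P
  have hMH : R₀.subgroupOf T ≤ H.subgroupOf T := fun x hx =>
    Subgroup.mem_subgroupOf.2 (hR₀H (Subgroup.mem_subgroupOf.1 hx))
  have hMK : R₀.subgroupOf T ≤ K.subgroupOf T := fun x hx =>
    Subgroup.mem_subgroupOf.2 (hR₀K (Subgroup.mem_subgroupOf.1 hx))
  have hcH : Nat.card (H.subgroupOf T) = Nat.card H :=
    Nat.card_congr (Subgroup.subgroupOfEquivOfLe hHT).toEquiv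
  have hcK : Nat.card (K.subgroupOf T) = Nat.card K :=
    Nat.card_congr (Subgroup.subgroupOfEquivOfLe hKT).toEquiv
  have hcM : Nat.card (R₀.subgroupOf T) = Nat.card R₀ :=
    Nat.card_congr (Subgroup.subgroupOfEquivOfLe hR₀T).toEquiv
  have h1 := card_map_mk_mul (R₀.subgroupOf T) (H.subgroupOf T) hMH
  have h2 := card_map_mk_mul (R₀.subgroupOf T) (K.subgroupOf T) hMK
  have hcard : Nat.card ((H.subgroupOf T).map (QuotientGroup.mk' (R₀.subgroupOf T)))
      = Nat.card ((K.subgroupOf T).map (QuotientGroup.mk' (R₀.subgroupOf T))) := by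
    have e : Nat.card (H.subgroupOf T) = Nat.card (K.subgroupOf T) := by rw [hcH, hcK, hHK]
    have : Nat.card ((H.subgroupOf T).map (QuotientGroup.mk' (R₀.subgroupOf T)))
        * Nat.card (R₀.subgroupOf T)
        = Nat.card ((K.subgroupOf T).map (QuotientGroup.mk' (R₀.subgroupOf T)))
        * Nat.card (R₀.subgroupOf T) := by rw [h1, h2, e]
    exact Nat.eq_of_mul_eq_mul_right Nat.card_pos this
  have hr : ¬ r ∣ Nat.card ((H.subgroupOf T).map (QuotientGroup.mk' (R₀.subgroupOf T))) := by
    intro hdvd
    obtain ⟨c, hc'⟩ := hdvd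
    obtain ⟨v, hv⟩ : ∃ v, v = (Nat.card H).factorization r := ⟨_, rfl⟩
    rw [← hv] at hc
    rw [hc', hcM, hc, hcH] at h1
    have h3 : r ^ (v + 1) ∣ Nat.card H := ⟨c, by rw [← h1]; ring⟩
    rw [hv] at h3
    exact Nat.pow_succ_factorization_not_dvd Nat.card_pos.ne' Fact.out h3
  have hconj := rprime_conj_aux r _ (↥T ⧸ R₀.subgroupOf T) rfl hcycT _ _ hcard hr
  obtain ⟨t, ht⟩ := subConj_of_map_of_le (R₀.subgroupOf T) _ _ hMH hMK hconj
  refine ⟨(t : G), ?_⟩
  ext x
  rw [mem_map_conj21]
  constructor
  · intro hx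
    have hxT : x ∈ T := hKT hx
    have h4 : (⟨x, hxT⟩ : T) ∈ K.subgroupOf T := Subgroup.mem_subgroupOf.2 hx
    rw [ht, mem_map_conj21, Subgroup.mem_subgroupOf] at h4
    exact h4
  · intro hx
    have hxT : x ∈ T := by
      have e : x = (t : G) * ((t : G)⁻¹ * x * t) * (t : G)⁻¹ := by group
      rw [e]
      exact T.mul_mem (T.mul_mem t.2 (hHT hx)) (T.inv_mem t.2)
    have h4 : (⟨x, hxT⟩ : T) ∈ K.subgroupOf T := by
      rw [ht, mem_map_conj21, Subgroup.mem_subgroupOf]
      exact hx
    exact Subgroup.mem_subgroupOf.1 h4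

/-- Main induction. -/
theorem same_order_conj_aux (r : ℕ) : ∀ (n : ℕ) (G : Type u) [Group G] [Finite G]
    [Group.IsSolvable G], Nat.card G = n →
    (∀ p : ℕ, p.Prime → p ≠ r → ∀ P : Sylow p G, IsCyclic P) →
    (r.Prime → ∀ H K : Subgroup G, IsPGroup r H → IsPGroup r K → Nat.card H = Nat.card K →
      SubConj H K) →
    ∀ H K : Subgroup G, Nat.card H = Nat.card K → SubConj H K := by
  intro n
  induction n using Nat.strong_induction_on with
  | _ n ih =>
    intro G _ _ _ hn hcyc hD H K hHK
    rcases subsingleton_or_nontrivial G with hT | hT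
    · have : H = K := by
        ext x
        rw [Subsingleton.elim x 1]
        exact ⟨fun _ => K.one_mem, fun _ => H.one_mem⟩
      rw [this]; exact SubConj.refl K
    obtain ⟨q, hq, A, hAchar, hAne, -, hAexp⟩ := Cfsg.Agent.Helper1.exists_char_elemAbelian G
    haveI := hAchar
    haveI hAn : A.Normal := Subgroup.normal_of_characteristic A
    haveI : Fact q.Prime := ⟨hq⟩
    have hA : IsPGroup q A := isPGroup_of_exp A hAexp
    have hlt : Nat.card (G ⧸ A) < n := by
      rw [← hn]; exact Cfsg.Agent.Helper1.card_quotient_lt_of_ne_bot A hAne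
    have hcycQ : ∀ p : ℕ, p.Prime → p ≠ r → ∀ P : Sylow p (G ⧸ A), IsCyclic P := by
      intro p hp hpr P
      haveI : Fact p.Prime := ⟨hp⟩
      exact isCyclic_sylow_quotient A (hcyc p hp hpr) P
    have hDQ : r.Prime → ∀ X Y : Subgroup (G ⧸ A), IsPGroup r X → IsPGroup r Y →
        Nat.card X = Nat.card Y → SubConj X Y := by
      intro hr X Y hX hY hXY
      haveI : Fact r.Prime := ⟨hr⟩
      exact subConj_pgroup_quotient A (hD hr) X Y hX hY hXY
    have hIH := ih _ hlt (G ⧸ A) rfl hcycQ hDQ
    have step1 : A ≤ H → A ≤ K → SubConj H K := by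
      intro hAH hAK
      apply subConj_of_map_of_le A H K hAH hAK
      apply hIH
      have h1 := card_map_mk_mul A H hAH
      have h2 := card_map_mk_mul A K hAK
      rw [hHK, ← h2] at h1
      exact Nat.eq_of_mul_eq_mul_right Nat.card_pos h1
    by_cases hqr : q = r
    · subst hqr
      have hDr := hD hq
      have huniq : ∀ B : Subgroup G, IsPGroup q B → Nat.card B = Nat.card A → B = A := by
        intro B hB hBA
        obtain ⟨g, hg⟩ := hDr A B hA hB hBA.symm
        rw [hg, map_conj_of_normal]
      obtain ⟨a, ha⟩ := IsPGroup.iff_card.1 hA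
      have hdich : ∀ X : Subgroup G, (A ≤ X) ∨
          (Nat.card (X ⊓ A : Subgroup G) = q ^ (Nat.card X).factorization q ∧
            (Nat.card X).factorization q < a) := by
        intro X
        obtain ⟨P⟩ : Nonempty (Sylow q X) := inferInstance
        have hPc : Nat.card ((P : Subgroup X).map X.subtype)
            = q ^ (Nat.card X).factorization q := by
          rw [Subgroup.card_subtype]; exact P.card_eq_multiplicity
        have hPX : (P : Subgroup X).map X.subtype ≤ X := by
          rintro _ ⟨y, -, rfl⟩; exact y.2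
        rcases le_or_gt a ((Nat.card X).factorization q) with hle | hlt'
        · left
          have hdvd : q ^ a ∣ Nat.card ((P : Subgroup X).map X.subtype) := by
            rw [hPc]; exact pow_dvd_pow q hle
          obtain ⟨B', hB'⟩ := Sylow.exists_subgroup_card_pow_prime q hdvd
          have hB : (B'.map (Subgroup.subtype _)) = A := by
            apply huniq
            · exact (IsPGroup.of_card hB').map _
            · rw [Subgroup.card_subtype, hB', ha]
          rw [← hB]
          rintro _ ⟨y, -, rfl⟩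
          exact hPX y.2
        · right
          have hPA : (P : Subgroup X).map X.subtype ≤ A := by
            have hdvd : q ^ a ∣ Nat.card G := by
              rw [← ha]; exact Subgroup.card_subgroup_dvd_card A
            obtain ⟨B, hB, hle⟩ := Sylow.exists_subgroup_card_pow_prime_le q hdvd _ hPc hlt'.le
            have := huniq B (IsPGroup.of_card hB) (by rw [hB, ha])
            rw [← this]; exact hle
          refine ⟨?_, hlt'⟩
          have hle : (P : Subgroup X).map X.subtype ≤ X ⊓ A := le_inf hPX hPA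
          have hXA : IsPGroup q ((X ⊓ A : Subgroup G)) := hA.to_le inf_le_right
          have h3 : ((X ⊓ A : Subgroup G).subgroupOf X) = (P : Subgroup X) := by
            apply P.is_maximal' hXA.comap_subtype
            intro y hy
            exact hle ⟨y, hy, rfl⟩
          rw [← hPc, ← h3, Subgroup.card_subtype]
          exact (Nat.card_congr (Subgroup.subgroupOfEquivOfLe inf_le_left).toEquiv).symm
      have hfac : ∀ X : Subgroup G, A ≤ X → a ≤ (Nat.card X).factorization q := by
        intro X hAX
        have h1 : q ^ a ∣ Nat.card X := by rw [← ha]; exact Subgroup.card_dvd_of_le hAX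
        exact (Nat.Prime.pow_dvd_iff_le_factorization hq Nat.card_pos.ne').1 h1
      rcases hdich H with hAH | ⟨hHc, hHlt⟩
      · rcases hdich K with hAK | ⟨hKc, hKlt⟩
        · exact step1 hAH hAK
        · exfalso
          have h2 := hfac H hAH
          rw [hHK] at h2
          omega
      · rcases hdich K with hAK | ⟨hKc, hKlt⟩
        · exfalso
          have h2 := hfac K hAK
          rw [← hHK] at h2
          omega
        · obtain ⟨g, hg⟩ := hDr (H ⊓ A) (K ⊓ A) (hA.to_le inf_le_right) (hA.to_le inf_le_right)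
            (by rw [hHc, hKc, hHK])
          have hH'A : H.map (MulAut.conj g).toMonoidHom ⊓ A = K ⊓ A := by
            rw [hg]
            ext x
            rw [Subgroup.mem_inf, mem_map_conj21, mem_map_conj21, Subgroup.mem_inf]
            have hxA : x ∈ A ↔ g⁻¹ * x * g ∈ A := by
              constructor
              · intro h
                have := hAn.conj_mem x h g⁻¹
                rwa [inv_inv] at this
              · intro h
                have := hAn.conj_mem _ h g
                have e : g * (g⁻¹ * x * g) * g⁻¹ = x := by group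
                rwa [e] at this
            rw [hxA]
          have hcard' : Nat.card (H.map (MulAut.conj g).toMonoidHom) = Nat.card K := by
            rw [card_map_conj21]; exact hHK
          refine SubConj.trans ⟨g, rfl⟩ ?_
          refine subConj_of_le_normal_sub hcyc
            (Subgroup.normalizer ((H.map (MulAut.conj g).toMonoidHom ⊓ A : Subgroup G) : Set G))
            (H.map (MulAut.conj g).toMonoidHom ⊓ A) _ K Subgroup.normal_in_normalizer
            (Cfsg.Agent.Helper1.le_normalizer_inf_normal _ A) ?_ inf_le_left ?_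
            Subgroup.le_normalizer hcard' ?_
          · rw [hH'A]; exact Cfsg.Agent.Helper1.le_normalizer_inf_normal K A
          · rw [hH'A]; exact inf_le_left
          · rw [hH'A, hKc, hcard']
    · by_cases hqH : q ∣ Nat.card H
      · exact step1 (le_of_dvd_card_of_cyclic_sylow (hcyc q hq hqr) A hAexp H hqH)
          (le_of_dvd_card_of_cyclic_sylow (hcyc q hq hqr) A hAexp K (by rw [← hHK]; exact hqH))
      · have hcopH : (Nat.card H).Coprime q :=
          Nat.Coprime.symm ((Nat.Prime.coprime_iff_not_dvd hq).2 hqH)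
        have hcopK : (Nat.card K).Coprime q := by rw [← hHK]; exact hcopH
        apply subConj_of_coprime_of_quotient A hA H K hHK hcopH
        apply hIH
        rw [card_map_mk_of_coprime A hA H hcopH, card_map_mk_of_coprime A hA K hcopK, hHK]

end SameOrd

end Cfsg.Agent.Helper21
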